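import Cfsg.Agent.H3.Cb0
import Cfsg.Agent.H1.Hol
import Cfsg.Prelude.Def_Transfer

/-! Bridge from the ambient statement `H3.Cb.Main` to the module form. -/

set_option autoImplicit false

namespace H13.Cb

open Subgroup Cfsg H18 H1 SemidirectProduct
open scoped commutatorElement

universe u v

theorem four_le {S : Type*} [Group S] [Finite S] {B Q P : Subgroup S} (hs : Solv (⊤ : Subgroup S))
    (hB : PiGrp {3} B) (hQ : Elem 2 Q) (h4 : Nat.card Q = 4) (hn : B ≤ N(Q)) (hc : ¬ B ≤ C(Q)) (hP : Hall {3} P ⊤)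
    (hz : B ≤ C(P)) : Q ≤ ⁅O[{3}ᶜ]((⊤ : Subgroup S)), B⁆ := by
  have q3 : PiGrp {3}ᶜ Q := (piNat_compl_iff Nat.prime_three).2 (by rw [h4]; decide)
  have c : Cop B Q := cop_of_pi hn hB q3 (.inr hQ.abel.solv)
  have l : B ≤ O2[{3}ᶜ,{3}]((⊤ : Subgroup S)) :=
    (le_inf le_top (hz.trans (C_anti inf_le_left))).trans (solvable_p_constrained hs (hP.inf_nml pcore2_nml))
  have e : ⁅Q, B⁆ = Q := by
    have h1 : ⁅Q, B⁆ ≤ Q := comm_le_left hn
    by_contra ne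
    refine hc (cent_symm (c.cent_of_comm_cent fun x hx => mem_C.2 fun y hy => ?_))
    by_cases x1 : x = 1
    · simp [x1]
    by_contra nc
    have hy' : y * x * y⁻¹ ∈ ⁅Q, B⁆ := (mem_normalizer_iff.1 (norm_comm_right hy) x).1 hx
    have d : Nat.card (⁅Q, B⁆ : Subgroup S) ∣ 2 ^ 2 := (card_dvd_of_le h1).trans (by rw [h4]; rfl)
    have lt : Nat.card (⁅Q, B⁆ : Subgroup S) ≠ 4 := fun e => ne (eq_of_le_of_card_ge h1 (by omega))
    have g : 3 ≤ Nat.card (⁅Q, B⁆ : Subgroup S) := by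
      classical
      have := Finset.card_le_card_of_injOn (s := ({1, x, y * x * y⁻¹} : Finset S)) (t := (⁅Q, B⁆ : Subgroup S).carrier.toFinite.toFinset)
        id (by intro a ha; simp at ha ⊢; rcases ha with rfl | rfl | rfl; exacts [one_mem _, hx, hy']) (Set.injOn_id _)
      rw [Finset.card_eq_three.2 ⟨_, _, _, Ne.symm x1, fun e => x1 (by simpa using e.symm),
        fun e => nc (eq_mul_inv_iff_mul_eq.1 e).symm, rfl⟩] at this
      rwa [← Set.ncard_eq_toFinset_card] at this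
    obtain ⟨k, hk, ek⟩ := (Nat.dvd_prime_pow Nat.prime_two).1 d
    interval_cases k <;> omega
  have o : Q ≤ O[{3}ᶜ]((⊤ : Subgroup S)) :=
    (pcore_hall_pcore2 (π := {3})).le_of_nml pcore_nml_pcore2.norm
      (e.ge.trans ((commutator_mono le_rfl l).trans (comm_le_right (le_top.trans pcore2_nml.norm)))) q3
  exact e.ge.trans (commutator_mono o le_rfl)

theorem s4415 (h : H3.Cb.Main.{max u v}) {S : Type u} [Group S] [Finite S]
    [Group.IsSolvable S] {E : Type v} [AddCommGroup E] [Module (ZMod 3) E] [Finite E] (ρ : Representation (ZMod 3) S E)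
    (hfaith : Function.Injective ρ) (_hO3 : Cfsg.pCore 3 S = ⊥)
    (B : Subgroup S) (hB : Nat.card ↥B = 3) (b : S) (hb : Subgroup.zpowers b = B)
    (E₀ E₁ : Submodule (ZMod 3) E) (_hE01 : E₀ ⊓ E₁ = ⊥) (hE01' : E₀ ⊔ E₁ = ⊤)
    (hE1 : ∀ v ∈ E₁, ρ b v = v) (hE0inv : ∀ v ∈ E₀, ρ b v ∈ E₀) (hE0 : Nat.card ↥E₀ = 27)
    (hind : ∃ v ∈ E₀, ρ b (ρ b v - v) - (ρ b v - v) ≠ 0)
    (Q : Subgroup S) (hQ : Cfsg.IsElementaryAbelian 2 Q) (hQ4 : Nat.card ↥Q = 4)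
    (hBQ : B ≤ Subgroup.normalizer (Q : Set S)) (hBQ' : ¬ B ≤ Subgroup.centralizer (Q : Set S))
    (P : Sylow 3 S) (hBZ : (Subgroup.center ↥(P : Subgroup S)).map (P : Subgroup S).subtype = B) :
    ((Cfsg.IsElementaryAbelian 2 ⁅Cfsg.pPrimeCore 3 S, B⁆ ∧ Nat.card ↥⁅Cfsg.pPrimeCore 3 S, B⁆ = 4) ∨
      (Cfsg.IsExtraspecial 2 ↥⁅Cfsg.pPrimeCore 3 S, B⁆ ∧ Nat.card ↥⁅Cfsg.pPrimeCore 3 S, B⁆ = 32 ∧
        ∃ A : Subgroup S, A ≤ ⁅Cfsg.pPrimeCore 3 S, B⁆ ∧ Cfsg.IsElementaryAbelian 2 A ∧ Nat.card ↥A = 8)) ∧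
    ∃ F₀ F₁ : Submodule (ZMod 3) E, F₀ ⊓ F₁ = ⊥ ∧ F₀ ⊔ F₁ = ⊤ ∧
      (∀ r ∈ ⁅Cfsg.pPrimeCore 3 S, B⁆, ∀ v ∈ F₁, ρ r v = v) ∧ (∀ r ∈ ⁅Cfsg.pPrimeCore 3 S, B⁆ ⊔ B, ∀ v ∈ F₀, ρ r v ∈ F₀) ∧
      (∀ r ∈ ⁅Cfsg.pPrimeCore 3 S, B⁆ ⊔ B, (∀ v ∈ F₀, ρ r v = v) → r = 1) ∧
      (∀ N : Submodule (ZMod 3) E, N ≤ F₀ → (∀ r ∈ ⁅Cfsg.pPrimeCore 3 S, B⁆ ⊔ B, ∀ v ∈ N, ρ r v ∈ N) → N = ⊥ ∨ N = F₀) := by
  rw [pPrimeCore_eq Nat.prime_three]
  have hs : Solv (⊤ : Subgroup S) := solv_top_iff.2 inferInstance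
  have b3 : PiGrp {3} B := piGrp_of_prime Nat.prime_three hB
  have eQ := elem_iff.2 hQ
  have hQR := four_le hs b3 eQ hQ4 hBQ hBQ' (hall_sylow_top Nat.prime_three P) (by
    rw [← hBZ]; rintro _ ⟨x, hx, rfl⟩
    exact mem_C.2 fun y hy => congrArg Subtype.val (mem_center_iff.1 hx ⟨y, hy⟩))
  have cO : Cop B O[{3}ᶜ]((⊤ : Subgroup S)) := cop_p'core le_top b3
  have cm := cO.comm_comm
  have piR : PiGrp {3}ᶜ ⁅O[{3}ᶜ]((⊤ : Subgroup S)), B⁆ := pcore_pi.of_le (comm_le_left cO.norm)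
  have nR : B ≤ N(⁅O[{3}ᶜ]((⊤ : Subgroup S)), B⁆) := norm_comm_right
  generalize ⁅O[{3}ᶜ]((⊤ : Subgroup S)), B⁆ = R at *
  let φ : S →* MulAut (Multiplicative E) :=
    { toFun := fun a => AddEquiv.toMultiplicative
        { toFun := ρ a, invFun := ρ a⁻¹, map_add' := map_add _
          left_inv := fun x => by rw [← Module.End.mul_apply, ← map_mul, inv_mul_cancel, map_one]; rfl
          right_inv := fun x => by rw [← Module.End.mul_apply, ← map_mul, mul_inv_cancel, map_one]; rfl }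
      map_one' := MulEquiv.ext fun x => by
        show Multiplicative.ofAdd (ρ 1 x.toAdd) = x
        rw [map_one]; rfl
      map_mul' := fun a b => MulEquiv.ext fun x => by
        show Multiplicative.ofAdd (ρ (a * b) x.toAdd) = Multiplicative.ofAdd (ρ a (ρ b x.toAdd))
        rw [map_mul]; rfl }
  have hφ : ∀ a x, φ a x = Multiplicative.ofAdd (ρ a x.toAdd) := fun _ _ => rfl
  let e : Subgroup (Multiplicative E) ≃o Submodule (ZMod 3) E :=
    Subgroup.toAddSubgroup'.trans (AddSubgroup.toZModSubmodule 3)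
  have he : ∀ K v, v ∈ e K ↔ Multiplicative.ofAdd v ∈ K := fun _ _ => Iff.rfl
  have zb : zpowers (inr b : Multiplicative E ⋊[φ] S) = hr φ B := by rw [← hr_zpowers, hb]
  have ob : orderOf b = 3 := by rw [← card_zpowers', hb, hB]
  have nn : ∀ {X Y : Subgroup S}, X ≤ N(Y) → hr φ X ≤ N(hr φ Y) := fun h =>
    norm_iff_comm_le.2 (by rw [← hr_comm, hr_le_hr]; exact comm_le_right h)
  have elh : ∀ {X : Subgroup S}, Elem 2 (hr φ X) ↔ Elem 2 X := fun {X} =>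
    ⟨fun h => ⟨abel_hr.1 h.abel, fun a ha => inr_injective (φ := φ) (by
      rw [map_pow, h.pow _ (inr_mem_hr.2 ha), map_one])⟩, fun h => ⟨abel_hr.2 h.abel, fun z hz => by
      obtain ⟨a, ha, rfl⟩ := mem_hr.1 hz
      rw [← map_pow, h.pow a ha, map_one]⟩⟩
  have t3 : ∀ v : E, v + v + v = 0 := fun v => by
    have : (3 : ZMod 3) • v = 0 := by rw [show (3 : ZMod 3) = 0 from rfl, zero_smul]
    rw [← this, show (3 : ZMod 3) = 1 + 1 + 1 from rfl, add_smul, add_smul, one_smul]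
  obtain ⟨v, hv, hv0⟩ := hind
  have bB : b ∈ B := hb ▸ mem_zpowers b
  have hy : H3.Cb.Hy (hl φ ⊤) (hr φ R) (inr b) := by
    refine ⟨⟨abel_hl.2 (abel_iff.2 inferInstance), fun z hz => ?_⟩, hr_norm_top,
      hr_norm_top (inr_mem_hr.2 (mem_top b)), ?_, piGrp_hr.2 piR, solv_hr.2 (hs.of_le le_top),
      orderOf_inr.trans ob, nn nR (inr_mem_hr.2 bB), by rw [zb, ← hr_comm, cm], ?_, fun hc => hv0 ?_⟩
    · obtain ⟨x, -, rfl⟩ := mem_hl.1 hz
      rw [← map_pow, show x ^ 3 = 1 from by rw [pow_three']; exact t3 x.toAdd, map_one]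
    · rw [zb, ← hr_sup, eq_bot_iff]
      rintro _ ⟨⟨a, -, rfl⟩, h2⟩
      have : a = 1 := hfaith (LinearMap.ext fun x => by
        rw [map_one]
        exact inl_mem_C1.1 (mem_C1.2 (mem_C.1 h2 _ (inl_mem_hl.2 (mem_top (Multiplicative.ofAdd x))))))
      rw [this, map_one]; exact one_mem _
    · rw [zb, comm_hl_hr, card_hl]
      let f : E →ₗ[ZMod 3] E := ρ b - LinearMap.id
      have hf : ∀ x, f x = ρ b x - x := fun _ => rfl
      have r0 : ∀ x, f x ∈ E₀.map f := fun x => by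
        obtain ⟨y, hy, z, hz, rfl⟩ := Submodule.mem_sup.1 (hE01'.ge (Submodule.mem_top (x := x)))
        exact ⟨y, hy, by rw [map_add, hf z, hE1 z hz, sub_self, add_zero]⟩
      have l1 : comS φ ⊤ B ≤ e.symm (E₀.map f) := by
        refine (closure_le _).2 ?_
        rintro _ ⟨a, ha, g, -, rfl⟩
        rw [← hb, ← mem_powers_iff_mem_zpowers] at ha
        obtain ⟨n, rfl⟩ := ha
        show -g.toAdd + ρ (b ^ n) g.toAdd ∈ E₀.map f
        induction n with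
        | zero => simp
        | succ n ih =>
          have := add_mem ih (r0 (ρ (b ^ n) g.toAdd))
          rwa [hf, ← Module.End.mul_apply, ← map_mul, ← pow_succ', add_assoc, add_sub_cancel] at this
      refine (card_le_of_le l1).trans ?_
      show Nat.card (E₀.map f) ≤ 9
      have i0 : ∀ x ∈ E₀, f x ∈ E₀ := fun x hx => sub_mem (hE0inv x hx) hx
      have m1 : E₀.map f ≤ E₀ := by rintro _ ⟨x, hx, rfl⟩; exact i0 x hx
      have f3 : f (f (f v)) = 0 := by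
        have b1 : ρ b (ρ b (ρ b v)) = v := by
          rw [← Module.End.mul_apply, ← map_mul, ← Module.End.mul_apply, ← map_mul, ← pow_three',
            show b ^ 3 = 1 from ob ▸ pow_orderOf_eq_one b, map_one]; rfl
        simp only [hf, map_sub, b1]
        have := congrArg₂ (· - ·) (t3 (ρ b v)) (t3 (ρ b (ρ b v)))
        simp only [sub_zero] at this
        rw [← this]; abel
      have ne : E₀.map f ≠ E₀ := fun e => hv0 (by
        have s : Function.Surjective (f.restrict i0) := fun y => by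
          obtain ⟨x, hx, e'⟩ := e.ge y.2
          exact ⟨⟨x, hx⟩, Subtype.ext e'⟩
        have := Finite.injective_iff_surjective.2 s (a₁ := ⟨f (f v), i0 _ (i0 _ hv)⟩) (a₂ := 0) (Subtype.ext (by
          rw [map_zero]; exact f3))
        exact congrArg Subtype.val this)
      have d : Nat.card (E₀.map f) ∣ 3 ^ 3 :=
        (AddSubgroup.card_dvd_of_le (H := (E₀.map f).toAddSubgroup) (K := E₀.toAddSubgroup) m1).trans (dvd_of_eq hE0)
      have lt : Nat.card (E₀.map f) ≠ 27 := fun e => ne (Submodule.toAddSubgroup_injective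
        (AddSubgroup.eq_of_le_of_card_ge (H := (E₀.map f).toAddSubgroup) (K := E₀.toAddSubgroup) m1 (hE0.trans e.symm).le))
      obtain ⟨k, hk, ek⟩ := (Nat.dvd_prime_pow Nat.prime_three).1 d
      interval_cases k <;> omega
    · rw [zb, comm_hl_hr] at hc
      have := inl_mem_C1.1 (mem_C1.2 (mem_C.1 hc _ (inl_mem_hl.2 (subset_closure
        ⟨b, bB, Multiplicative.ofAdd v, mem_top _, rfl⟩))))
      rw [sub_eq_zero, sub_eq_neg_add]; exact this
  obtain ⟨h1, h2, h3, h4, h5⟩ := h _ _ _ (hr φ Q) _ hy (hr_le_hr.2 hQR) ⟨elh.2 eQ, card_hr.trans hQ4,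
    nn hBQ (inr_mem_hr.2 bB), fun hc => hBQ' (hb ▸ zpowers_le.2 (mem_C.2 fun y hy => inr_injective (φ := φ) (by
      rw [map_mul, map_mul]; exact mem_C.1 hc _ (inr_mem_hr.2 hy))))⟩
  have nI : hr φ (R ⊔ B) ≤ N(⁅hl φ ⊤, hr φ R⁆) := norm_comm hr_norm_top (nn (sup_le le_normalizer nR))
  rw [zb, ← hr_sup] at h4 h5
  rw [comm_hl_hr] at h2 h3 h4 h5 nI
  rw [hl_top_inf_C] at h2 h3
  rw [← hl_inf, hl_eq_bot] at h2
  rw [← hl_sup, hl_inj] at h3
  rw [card_hr] at h1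
  refine ⟨h1.imp (fun h => ⟨elem_iff.1 (elh.1 h.1), h.2⟩) fun ⟨a1, a2, a3, A, a4, a5, a6⟩ => ?_,
    e (comS φ ⊤ R), e (fixS φ R), by rw [← e.map_inf, h2, e.map_bot], by rw [← e.map_sup, h3, e.map_top],
    fun r hr v hv => hv r hr, fun r hr v hv => hr_norm_iff.1 nI r hr _ hv, fun r hr hv => ?_, fun N h6 h7 => ?_⟩
  · obtain ⟨D, d1, rfl⟩ := exists_hr a4
    exact ⟨(H21.isExtraspecial_iff Nat.prime_two).2 ⟨(H21.es_map_iff inr_injective).1 a1, mt abel_hr.2 a2⟩, a3,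
      D, d1, elem_iff.1 (elh.1 a5), card_hr.symm.trans a6⟩
  · refine inr_injective (φ := φ) ((mem_bot.1 (h4.le ⟨inr_mem_hr.2 hr, mem_C.2 fun z hz => ?_⟩)).trans (map_one _).symm)
    obtain ⟨x, hx, rfl⟩ := mem_hl.1 hz
    exact mem_C1.1 ((inl_mem_C1 (φ := φ) (a := r) (x := x)).2 (hv x.toAdd hx))
  · obtain ⟨N, rfl⟩ := e.surjective N
    rcases h5 (hl φ N) (hl_le_hl.2 (e.le_iff_le.1 h6)) (hr_norm_iff.2 fun a ha x hx => h7 a ha x.toAdd hx) with h | h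
    · rw [hl_eq_bot.1 h, e.map_bot]; exact .inl rfl
    · rw [hl_inj.1 h]; exact .inr rfl

end H13.Cb
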