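import Cfsg.Agent.H5.FS
import Cfsg.Agent.H13.ReeInv

/-! Products of two conjugates: `Cov x g`, the character estimate `cov_of_est`, the trace argument `gow` (a class
function modulo `p` whose sums over the cosets of a `p`-subgroup vanish) and
`mul_card_classes_le`. -/

set_option autoImplicit false

namespace H13
open Cfsg H5 Subgroup MulAction
open scoped ComplexConjugate

variable {G : Type*} [Group G]

/-- `g` is a product of two conjugates of `x` -/
def Cov (x g : G) : Prop := ∃ a b : G, g = a * x * a⁻¹ * (b * x * b⁻¹)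

theorem Cov.conj {x g : G} (h : Cov x g) (k : G) : Cov x (k * g * k⁻¹) := by
  obtain ⟨a, b, rfl⟩ := h
  exact ⟨k * a, k * b, by group⟩

theorem cov_mul {x c d : G} (hc : IsConj x c) (hd : IsConj x d) : Cov x (c * d) := by
  obtain ⟨a, rfl⟩ := isConj_iff.1 hc
  obtain ⟨b, rfl⟩ := isConj_iff.1 hd
  exact ⟨a, b, rfl⟩

theorem cov_of_est [Finite G] {x g : G} {d : ℕ} (hd : ∀ χ : IrrCharacter G, χ.1 ≠ 1 → (d : ℝ) ≤ ‖χ.1 1‖)
    (h : Nat.card (centralizer {x}) ^ 2 * Nat.card (centralizer {g}) < d ^ 2) : Cov x g := by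
  classical
  have := Fintype.ofFinite G
  set t := Nat.card (centralizer {x})
  set c := Nat.card (centralizer {g})
  have col : ∀ y : G, ∑ χ : IrrCharacter G, ‖χ.1 y‖ ^ 2 = (Nat.card (centralizer {y}) : ℝ) := fun y => by
    have := sum_irr_mul_conj_of_isConj (IsConj.refl y)
    simp only [Complex.mul_conj, Complex.normSq_eq_norm_sq] at this
    exact_mod_cast this
  have hd0 : (0 : ℝ) < d := by
    have : 0 < d := Nat.pos_of_ne_zero (by rintro rfl; simp at h)
    exact_mod_cast this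
  have hg : ∀ χ : IrrCharacter G, ‖χ.1 g‖ ≤ √c := fun χ => by
    refine Real.le_sqrt_of_sq_le ?_
    rw [← col g]
    exact Finset.single_le_sum (f := fun χ : IrrCharacter G => ‖χ.1 g‖ ^ 2) (fun _ _ => by positivity)
      (Finset.mem_univ χ)
  let o : IrrCharacter G := ⟨1, isIrrCharacter_one'⟩
  have key : ‖∑ χ ∈ Finset.univ.erase o, conj (χ.1 x) * conj (χ.1 x) * χ.1 g / χ.1 1‖ < 1 := by
    refine (norm_sum_le _ _).trans_lt ?_
    have : ∑ χ ∈ Finset.univ.erase o, ‖conj (χ.1 x) * conj (χ.1 x) * χ.1 g / χ.1 1‖ ≤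
        ∑ χ ∈ Finset.univ.erase o, ‖χ.1 x‖ ^ 2 * (√c / d) := by
      refine Finset.sum_le_sum fun χ hχ => ?_
      have h1 := hd χ fun e => (Finset.mem_erase.1 hχ).1 (Subtype.ext e)
      rw [norm_div, norm_mul, norm_mul, Complex.norm_conj, ← sq, mul_div_assoc]
      gcongr
      exact hg χ
    refine this.trans_lt ?_
    rw [← Finset.sum_mul]
    have h2 : ∑ χ ∈ Finset.univ.erase o, ‖χ.1 x‖ ^ 2 ≤ (t : ℝ) := by
      rw [← col x]
      exact Finset.sum_le_sum_of_subset_of_nonneg (Finset.erase_subset _ _) fun _ _ _ => by positivity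
    refine (mul_le_mul_of_nonneg_right h2 (by positivity)).trans_lt ?_
    rw [← mul_div_assoc, div_lt_one hd0]
    refine lt_of_pow_lt_pow_left₀ 2 hd0.le ?_
    rw [mul_pow, Real.sq_sqrt (by positivity)]
    exact_mod_cast h
  have h3 := card_conj_mul_eq x x g
  rw [← Finset.add_sum_erase _ _ (Finset.mem_univ o)] at h3
  have h4 : Nat.card {p : G × G // p.1 * x * p.1⁻¹ * (p.2 * x * p.2⁻¹) = g} ≠ 0 := by
    intro h0
    rw [h0, Nat.cast_zero] at h3
    have h5 := (mul_eq_zero.1 h3.symm).resolve_left card_ne_zero_complex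
    simp only [o, Pi.one_apply, map_one, mul_one, div_one] at h5
    rw [eq_neg_of_add_eq_zero_right h5] at key
    simp at key
  obtain ⟨⟨p, hp⟩⟩ := (Nat.card_ne_zero.1 h4).1
  exact ⟨p.1, p.2, hp.symm⟩

/-- two-sided translation of functions -/
def trL (k : Type*) [CommRing k] (x y : G) : (G → k) →ₗ[k] (G → k) where
  toFun v a := v (x * a * y)
  map_add' _ _ := rfl
  map_smul' _ _ := rfl

/-- convolution -/
def cvL [Fintype G] {k : Type*} [CommRing k] (f : G → k) : (G → k) →ₗ[k] (G → k) where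
  toFun v a := ∑ g, f g * v (g⁻¹ * a)
  map_add' _ _ := by ext a; simp [mul_add, Finset.sum_add_distrib]
  map_smul' _ _ := by ext a; simp [Finset.mul_sum, mul_left_comm]

theorem trL_cvL [Fintype G] {k : Type*} [CommRing k] {f : G → k} (hf : ∀ a b, f (a * b * a⁻¹) = f b)
    (x y : G) : Commute (trL k x y) (cvL f) := by
  ext1 v
  ext a
  change ∑ g, f g * v (g⁻¹ * (x * a * y)) = ∑ g, f g * v (x * (g⁻¹ * a) * y)
  refine (Fintype.sum_equiv (MulAut.conj x).toEquiv _ _ fun g => ?_).symm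
  simp only [MulEquiv.toEquiv_eq_coe, EquivLike.coe_coe, MulAut.conj_apply, hf]
  simp [mul_assoc]

theorem bijective_out_mul (U : Subgroup G) : Function.Bijective fun p : (G ⧸ U) × U => p.1.out * p.2 := by
  refine ⟨fun p q e => ?_, fun g => ⟨((g : G ⧸ U), ⟨(g : G ⧸ U).out⁻¹ * g, QuotientGroup.eq.1 (by simp)⟩), by simp⟩⟩
  have h : p.1 = q.1 := by simpa using congrArg (QuotientGroup.mk (s := U)) e
  exact Prod.ext h (Subtype.ext (by simpa [h] using e))

theorem gow [Fintype G] {p : ℕ} [Fact p.Prime] {U : Subgroup G} (hU : IsPGroup p U) {f : G → ZMod p}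
    (hf : ∀ a b, f (a * b * a⁻¹) = f b) (h0 : ∀ g, ∑ᶠ u : U, f (g * u) = 0) (x y : G) :
    ∑ a, f (x * a * y * a⁻¹) = 0 := by
  classical
  obtain ⟨n, hn⟩ := ((Module.End.eventually_disjoint_ker_pow_range_pow (cvL f)).and (Filter.eventually_ge_atTop 1)).exists
  set W := LinearMap.range (cvL f ^ n)
  have hW : ∀ a : G, ∀ v ∈ W, trL _ a 1 v ∈ W := by
    rintro a _ ⟨v, rfl⟩
    exact ⟨trL _ a 1 v, (LinearMap.congr_fun ((trL_cvL hf a 1).pow_right n).eq v).symm⟩
  let _ : MulAction U W :=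
    { smul := fun u v => ⟨trL (ZMod p) (u : G)⁻¹ 1 v.1, hW _ _ v.2⟩
      one_smul := fun v => Subtype.ext (funext fun a => by
        change v.1 (((1 : U) : G)⁻¹ * a * 1) = _; simp)
      mul_smul := fun u u' v => Subtype.ext (funext fun a => by
        change v.1 (((u * u' : U) : G)⁻¹ * a * 1) = v.1 ((u' : G)⁻¹ * ((u : G)⁻¹ * a * 1) * 1)
        simp [mul_assoc]) }
  have hb : W = ⊥ := by
    by_contra hne
    have h1 : p ∣ Nat.card W := by
      rw [Module.natCard_eq_pow_finrank (K := ZMod p), Nat.card_zmod]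
      exact dvd_pow_self _ fun e => hne (Submodule.finrank_eq_zero.1 e)
    obtain ⟨v, hv, hv0⟩ := hU.exists_fixed_point_of_prime_dvd_card_of_fixed_point W h1 (a := 0)
      fun u => Subtype.ext (funext fun _ => rfl)
    have h2 : ∀ (u : U) (a : G), v.1 ((u : G)⁻¹ * a) = v.1 a := fun u a => by
      have := congrFun (congrArg Subtype.val (hv u)) a
      change v.1 ((u : G)⁻¹ * a * 1) = _ at this
      simpa using this
    have h3 : cvL f v.1 = 0 := by
      ext a
      change ∑ g, f g * v.1 (g⁻¹ * a) = 0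
      rw [← (bijective_out_mul U).sum_comp, Fintype.sum_prod_type]
      refine Finset.sum_eq_zero fun c _ => ?_
      simp only [_root_.mul_inv_rev, mul_assoc, h2]
      rw [← Finset.sum_mul, ← finsum_eq_sum_of_fintype, h0, zero_mul]
    refine hv0 (Subtype.ext (Submodule.disjoint_def.1 hn.1 _ ?_ v.2).symm)
    obtain ⟨j, rfl⟩ := Nat.exists_eq_add_of_le' hn.2
    rw [LinearMap.mem_ker, pow_succ, Module.End.mul_apply, h3, map_zero]
  have h4 : IsNilpotent (cvL f) := ⟨n, LinearMap.range_eq_bot.1 hb⟩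
  have h5 := (LinearMap.isNilpotent_trace_of_isNilpotent ((trL_cvL hf x y).isNilpotent_mul_left h4)).eq_zero
  rw [LinearMap.trace_eq_matrix_trace _ (Pi.basisFun _ G), Matrix.trace] at h5
  refine Eq.trans (Finset.sum_congr rfl fun a _ => ?_) h5
  simp only [Matrix.diag, LinearMap.toMatrix_apply, Pi.basisFun_repr, Pi.basisFun_apply]
  change _ = ∑ g, f g * (Pi.single a (1 : ZMod p) : G → ZMod p) (g⁻¹ * (x * a * y))
  rw [Finset.sum_eq_single (x * a * y * a⁻¹)]
  · simp [mul_assoc]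
  · intro g _ hg
    rw [Pi.single_eq_of_ne, mul_zero]
    intro e
    exact hg (by rw [inv_mul_eq_iff_eq_mul.1 e]; simp)
  · simp

theorem mul_card_classes_le [Finite G] {S : Set G} {N C : Subgroup G} {e : ℕ} (hC : ∀ y ∈ S, centralizer {y} = C)
    (hN : ∀ n ∈ N, ∀ y ∈ S, n * y * n⁻¹ ∈ S) (hle : C ≤ N) (he : Nat.card N = e * Nat.card C) :
    e * (ConjClasses.mk '' S).ncard ≤ S.ncard := by
  classical
  have := Fintype.ofFinite G
  have h1 := Finset.mul_card_image_le_card (f := ConjClasses.mk) S.toFinset e fun b hb => by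
    obtain ⟨y, hy, rfl⟩ := Finset.mem_image.1 hb
    rw [Set.mem_toFinset] at hy
    have h2 := card_eq_ncard_mul N y {s | ∃ n ∈ N, n * y * n⁻¹ = s} fun _ => Iff.rfl
    rw [hC y hy, inf_eq_right.2 hle, he] at h2
    rw [Nat.eq_of_mul_eq_mul_right Nat.card_pos h2, ← Set.ncard_coe_finset]
    refine Set.ncard_le_ncard ?_ (Set.toFinite _)
    rintro _ ⟨n, hn, rfl⟩
    simp only [Finset.coe_filter, Set.mem_toFinset, Set.mem_ofPred_eq]
    exact ⟨hN n hn y hy, ConjClasses.mk_eq_mk_iff_isConj.2 (isConj_iff.2 ⟨n, rfl⟩).symm⟩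
  rwa [← Set.ncard_coe_finset, ← Set.ncard_coe_finset S.toFinset, Finset.coe_image, Set.coe_toFinset] at h1

end H13
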