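import Cfsg.Agent.H4.PSol
import Cfsg.Agent.H7.Syl
import Cfsg.Agent.H7.PPart

/-! Groups with cyclic Sylow `p`-subgroups: `CyP.Cyc p G` (all `p`-subgroups are cyclic),
`CyP.typ` (products `y * u`, `u ∈ ⟨x⟩`, when `⟨x, y⟩` is `p`-solvable and `x, y` have order `p`),
the set `CyP.W p P` of elements of order `p` of a cyclic `p`-group. -/

open Cfsg Subgroup

namespace H13
namespace CyP

variable {G : Type*} [Group G] {p : ℕ}

def Cyc (p : ℕ) (G : Type*) [Group G] : Prop := ∀ Q : Subgroup G, IsPGroup p Q → IsCyclic Q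

theorem Cyc.of_injective {H : Type*} [Group H] (h : Cyc p G) (f : H →* G)
    (hf : Function.Injective f) : Cyc p H := fun Q hQ => by
  have := h (Q.map f) (hQ.map f)
  exact isCyclic_of_surjective (Q.equivMapOfInjective f hf).symm.toMonoidHom
    (Q.equivMapOfInjective f hf).symm.surjective

variable [hp : Fact p.Prime] [Finite G]

theorem cyc_of_sylow (P : Sylow p G) (hP : IsCyclic (P : Subgroup G)) : Cyc p G := fun Q hQ => by
  obtain ⟨x, -, hx⟩ := (H7.sylIn_top P).exists_cj_le hQ le_top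
  have : IsCyclic (H7.cj x Q) := Subgroup.isCyclic_of_le hx
  exact isCyclic_of_surjective
    (Q.equivMapOfInjective (MulAut.conj x).toMonoidHom (MulAut.conj x).injective).symm.toMonoidHom
    (Q.equivMapOfInjective (MulAut.conj x).toMonoidHom (MulAut.conj x).injective).symm.surjective

theorem Cyc.of_surjective {H : Type*} [Group H] (h : Cyc p G) (f : G →* H)
    (hf : Function.Surjective f) : Cyc p H := fun Q hQ => by
  obtain ⟨P, -, hP, rfl⟩ := H4.exists_isPGroup_map_eq f (H := ⊤) hQ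
    (by rw [← MonoidHom.range_eq_map, MonoidHom.range_eq_top.2 hf]; exact le_top)
  have := h P hP
  exact isCyclic_of_surjective (f.subgroupMap P) (f.subgroupMap_surjective P)

omit [Finite G] hp in
theorem pow_p {C : Type*} [Group C] {a : C} (ha : orderOf a = p) : a ^ p = 1 :=
  ha ▸ pow_orderOf_eq_one a

omit [Finite G] in
theorem mem_zp {C : Type*} [Group C] [Finite C] [IsCyclic C] {a b : C} (ha : orderOf a = p)
    (hb : b ^ p = 1) : b ∈ zpowers a := by
  classical
  have := Fintype.ofFinite C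
  have h1 := IsCyclic.card_pow_eq_one_le (α := C) hp.out.pos
  have h2 : (zpowers a : Set C).toFinset = Finset.univ.filter fun c : C => c ^ p = 1 := by
    apply Finset.eq_of_subset_of_card_le
    · intro c hc
      simp only [Set.mem_toFinset, SetLike.mem_coe] at hc
      obtain ⟨k, rfl⟩ := hc
      simp only [Finset.mem_filter, Finset.mem_univ, true_and]
      rw [← zpow_natCast, ← zpow_mul, mul_comm, zpow_mul, zpow_natCast, ← ha, pow_orderOf_eq_one,
        one_zpow]
    · rw [Set.toFinset_card]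
      simp only [SetLike.coe_sort_coe]
      rw [Fintype.card_zpowers, ha]
      exact h1
  have : b ∈ (zpowers a : Set C).toFinset := by rw [h2]; simpa using hb
  simpa using this

theorem mem_pCore (h : Cyc p G) (hs : H4.PSol p (⊤ : Subgroup G)) (hO : pPrimeCore p G = ⊥)
    {z : G} (hz : H7.IsPE p z) : z ∈ pCore p G := by
  refine hs.centralizer_pCore_le hO ?_
  have h1 : IsPGroup p (zpowers z ⊔ pCore p G : Subgroup G) :=
    IsPGroup.to_sup_of_normal_right hz.isPGroup_zpowers H7.isPGroup_pCore'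
  have := h _ h1
  intro g hg
  have := (IsCyclic.isMulCommutative (α := (zpowers z ⊔ pCore p G : Subgroup G))).is_comm.comm
    ⟨g, mem_sup_right hg⟩ ⟨z, mem_sup_left (mem_zpowers z)⟩
  exact congrArg Subtype.val this

theorem typ_top (h : Cyc p G) (hs : H4.PSol p (⊤ : Subgroup G)) {x y : G} (hx : orderOf x = p)
    (hy : orderOf y = p) (hg : closure ({x, y} : Set G) = ⊤) :
    ∃ u₀ ∈ zpowers x, u₀ ≠ 1 ∧ ¬ p ∣ orderOf (y * u₀) ∧
      ∀ u ∈ zpowers x, u ≠ u₀ → orderOf (H7.pp p (y * u)) = p := by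
  set N := pPrimeCore p G
  set π := QuotientGroup.mk' N
  have hπ : Function.Surjective π := QuotientGroup.mk'_surjective N
  have hN : ¬ p ∣ Nat.card N := H7.not_dvd_card_pPrimeCore
  have hO : pPrimeCore p (G ⧸ N) = ⊥ := H17.pPrimeCore_quotient G p
  have h' := h.of_surjective π hπ
  have hs' := hs.quotient N
  have inj : ∀ z : G, H7.IsPE p z → π z = 1 → z = 1 := fun z hz e =>
    hz.eq_one (H7.not_dvd_orderOf_of_mem hN ((QuotientGroup.eq_one_iff z).1 e))
  have ord : ∀ z : G, orderOf z = p → orderOf (π z) = p := fun z hz => by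
    refine orderOf_eq_prime (by rw [← map_pow, pow_p hz, map_one]) fun e => ?_
    have := inj z ⟨1, by simpa using hz⟩ e
    rw [this, orderOf_one] at hz
    exact hp.out.ne_one hz.symm
  have hxm := mem_pCore h' hs' hO (z := π x) ⟨1, by simpa using ord x hx⟩
  have hym := mem_pCore h' hs' hO (z := π y) ⟨1, by simpa using ord y hy⟩
  have hc := h' _ (H7.isPGroup_pCore' (p := p) (G := G ⧸ N))
  have hyx : π y ∈ zpowers (π x) := by
    have := mem_zp (p := p) (C := pCore p (G ⧸ N)) (a := ⟨_, hxm⟩) (b := ⟨_, hym⟩)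
      (by rw [← Subgroup.orderOf_coe]; exact ord x hx)
      (Subtype.ext (pow_p (ord y hy)))
    obtain ⟨k, hk⟩ := this
    exact ⟨k, congrArg Subtype.val hk⟩
  have hall : ∀ g : G, π g ∈ zpowers (π x) := fun g => by
    have : (⊤ : Subgroup G) ≤ (zpowers (π x)).comap π := by
      rw [← hg, closure_le]
      rintro z (rfl | rfl)
      · exact mem_zpowers _
      · exact hyx
    exact this (mem_top g)
  have hpow : ∀ g : G, π g ^ p = 1 := fun g => by
    obtain ⟨k, hk⟩ := hall g
    simp only at hk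
    rw [← hk, ← zpow_natCast, ← zpow_mul, mul_comm, zpow_mul, zpow_natCast, pow_p (ord x hx),
      one_zpow]
  have pe : ∀ u ∈ zpowers x, H7.IsPE p u := fun u hu =>
    H7.isPE_of_mem (H7.IsPE.isPGroup_zpowers ⟨1, by simpa using hx⟩) hu
  obtain ⟨k, hk⟩ := inv_mem hyx
  simp only at hk
  have e0 : π (y * x ^ k) = 1 := by rw [map_mul, map_zpow, hk, mul_inv_cancel]
  refine ⟨x ^ k, ⟨k, rfl⟩, fun e => ?_,
    H7.not_dvd_orderOf_of_mem hN ((QuotientGroup.eq_one_iff _).1 e0), fun u hu hne => ?_⟩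
  · rw [e, mul_one] at e0
    have := ord y hy
    rw [e0, orderOf_one] at this
    exact hp.out.ne_one this.symm
  · refine orderOf_eq_prime (inj _ ((H7.isPE_pp _).pow _) (by rw [map_pow, hpow])) fun e => hne ?_
    have h1 : π (y * u) = 1 := by
      refine H7.IsPE.eq_one (p := p) (H7.isPE_of_pow (k := 1) (by rw [pow_one]; exact hpow _)) ?_
      exact H7.not_dvd_orderOf_map π (H7.pp_eq_one_iff.1 e)
    have h2 : π ((x ^ k)⁻¹ * u) = 1 := by
      have : (x ^ k)⁻¹ * u = (y * x ^ k)⁻¹ * (y * u) := by group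
      rw [this, map_mul, map_inv, e0, h1]; simp
    have := inj _ (pe _ (mul_mem (inv_mem ⟨k, rfl⟩) hu)) h2
    exact (inv_mul_eq_one.1 this).symm

theorem typ (h : Cyc p G) {x y : G} (hx : orderOf x = p) (hy : orderOf y = p)
    (hs : H4.PSol p (closure ({x, y} : Set G))) :
    ∃ u₀ ∈ zpowers x, u₀ ≠ 1 ∧ ¬ p ∣ orderOf (y * u₀) ∧
      ∀ u ∈ zpowers x, u ≠ u₀ → orderOf (H7.pp p (y * u)) = p := by
  set H := closure ({x, y} : Set G)
  have hxH : x ∈ H := subset_closure (by simp)
  have hyH : y ∈ H := subset_closure (by simp)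
  obtain ⟨u₀, h1, h2, h3, h4⟩ := typ_top (h.of_injective H.subtype H.subtype_injective)
    (H4.pSol_top_iff.2 hs) (x := ⟨x, hxH⟩) (y := ⟨y, hyH⟩)
    (by rw [← Subgroup.orderOf_coe]; exact hx) (by rw [← Subgroup.orderOf_coe]; exact hy) (by
      apply map_injective H.subtype_injective
      rw [MonoidHom.map_closure, ← MonoidHom.range_eq_map, range_subtype]
      simp [H, Set.image_pair])
  obtain ⟨k, rfl⟩ := h1
  refine ⟨x ^ k, ⟨k, rfl⟩, fun e => h2 (Subtype.ext e), ?_, ?_⟩
  · rw [← Subgroup.orderOf_coe] at h3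
    exact h3
  · rintro u ⟨j, rfl⟩ hne
    have := h4 (⟨x, hxH⟩ ^ j) ⟨j, rfl⟩ (fun e => hne (congrArg Subtype.val e))
    rw [← Subgroup.orderOf_coe, ← H7.pp_coe] at this
    exact this

end CyP
end H13
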