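import Cfsg.Agent.H13.CyP1
import Cfsg.Agent.H7.Perf
import Cfsg.Agent.H7.Ab1
import Cfsg.Agent.H7.Homo

/-! Principal blocks with cyclic Sylow subgroup: `CyP.fa`, `CyP.strong` (exceptional characters of
the principal block with values on the Sylow subgroup), and `CyP.pnil`: a perfect group with cyclic
Sylow `p`-subgroups in which pairs of elements of order `p` generate `p`-solvable subgroups is
`p`-nilpotent. -/

open Cfsg Subgroup H5 H7
open scoped ComplexConjugate

namespace H13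
namespace CyP

section W
variable {D : Type*} [Group D] [Fintype D] {p : ℕ}

open Classical in
noncomputable def W (p : ℕ) (D : Type*) [Group D] [Fintype D] : Finset D :=
  Finset.univ.filter fun w => orderOf w = p

theorem mem_W {w : D} : w ∈ W p D ↔ orderOf w = p := by simp [W]

theorem sum_W_aut (σ : MulAut D) (f : D → ℂ) : ∑ w ∈ W p D, f (σ w) = ∑ w ∈ W p D, f w :=
  Finset.sum_equiv σ.toEquiv (fun w => by
    rw [mem_W, mem_W]
    exact (σ.orderOf_eq w ▸ Iff.rfl)) fun _ _ => rfl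

variable [hp : Fact p.Prime]

theorem W_ne_one {w : D} (h : w ∈ W p D) : w ≠ 1 := fun e => by
  rw [mem_W, e, orderOf_one] at h
  exact hp.out.ne_one h.symm

variable [IsCyclic D] {x : D}

theorem mem_W_iff (hx : orderOf x = p) {w : D} : w ∈ W p D ↔ w ∈ zpowers x ∧ w ≠ 1 := by
  refine ⟨fun h => ⟨mem_zp hx (pow_p (mem_W.1 h)), W_ne_one h⟩, fun ⟨⟨k, hk⟩, h1⟩ => ?_⟩
  refine mem_W.2 (orderOf_eq_prime ?_ h1)
  simp only at hk
  rw [← hk, ← zpow_natCast, ← zpow_mul, mul_comm, zpow_mul, zpow_natCast, pow_p hx, one_zpow]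

theorem sum_W (hx : orderOf x = p) [Fintype (zpowers x)] (f : D → ℂ) :
    ∑ w ∈ W p D, f w = ∑ u : zpowers x, f u - f 1 := by
  classical
  rw [← Finset.sum_subtype (Finset.univ.filter fun w => w ∈ zpowers x) (by simp),
    ← Finset.sum_erase_eq_sub (by simp)]
  refine Finset.sum_congr (Finset.ext fun w => ?_) fun _ _ => rfl
  rw [mem_W_iff hx]
  simp [and_comm]

theorem card_W (hx : orderOf x = p) : ((W p D).card : ℂ) = p - 1 := by
  classical
  have := sum_W hx fun _ => 1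
  simpa [Fintype.card_zpowers, hx] using this

theorem sum_W_hom (hx : orderOf x = p) (l : D →* ℂˣ) :
    ∑ w ∈ W p D, (l w : ℂ) = p - 1 ∨ ∑ w ∈ W p D, (l w : ℂ) = -1 := by
  classical
  have := sum_hom_units ((Units.coeHom ℂ).comp (l.comp (zpowers x).subtype))
  rw [sum_W hx]
  simp only [MonoidHom.comp_apply, coe_subtype, Units.coeHom_apply] at this
  rw [this]
  split_ifs
  · left; simp [Fintype.card_zpowers, hx]
  · right; simp

theorem sum_cube (hx : orderOf x = p) :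
    ∑ l : D →* ℂˣ, (∑ w ∈ W p D, (l w : ℂ)) ^ 3 = Nat.card D * ((p - 1) * (p - 2)) := by
  have hc : ∀ a b : D, a * b = b * a := IsCyclic.isMulCommutative.is_comm.comm
  have h1 : ∑ l : D →* ℂˣ, ∑ w ∈ W p D, (l w : ℂ) = 0 := by
    rw [Finset.sum_comm]
    exact Finset.sum_eq_zero fun w hw => sum_hom_apply hc (W_ne_one hw)
  have h2 : ∀ l : D →* ℂˣ, (∑ w ∈ W p D, (l w : ℂ)) ^ 3 =
      ((p - 2) ^ 2 + (p - 1)) * (∑ w ∈ W p D, (l w : ℂ)) + (p - 1) * (p - 2) := fun l => by
    rcases sum_W_hom hx l with h | h <;> rw [h] <;> ring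
  rw [Finset.sum_congr rfl fun l _ => h2 l, Finset.sum_add_distrib, ← Finset.mul_sum, h1,
    Finset.sum_const, Finset.card_univ, ← Nat.card_eq_fintype_card, card_hom hc]
  simp

end W

theorem arith {ι : Type*} [DecidableEq ι] (N : Finset ι) (α : ι → ℤ) (deg : ι → ℕ) (o : ι)
    {p n e d m : ℕ} {δ : ℤ} (hN : N.card = e) (hα : ∀ i ∈ N, α i = 1 ∨ α i = -1)
    (hδ : δ = 1 ∨ δ = -1) (hd : 0 < d) (hdeg : ∀ i ∈ N, 0 < deg i)
    (hdeg' : ∀ i ∈ N, i ≠ o → 2 ≤ deg i) (ho : o ∈ N → 2 ≤ d)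
    (hm : (d : ℤ) = δ * e + m * n) (hrel : δ * d = ∑ i ∈ N, α i * deg i)
    (he : 2 ≤ e) (hep : e + 1 ≤ p) (hn : n = p ∨ p * p ≤ n)
    (h : ((p : ℝ) - 1) ^ 3 * ∑ i ∈ N, (α i : ℝ) / deg i +
      δ * e ^ 2 * (n * ((p - 1) * (p - 2)) - (p - 1) ^ 3) / d = (p - 1) * (p - 2) * n * e) :
    False := by
  set S := ∑ i ∈ N, (α i : ℝ) / deg i with hS
  have he' : (2 : ℝ) ≤ e := by exact_mod_cast he
  have hep' : (e : ℝ) + 1 ≤ p := by exact_mod_cast hep
  have hd' : (0 : ℝ) < d := by exact_mod_cast hd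
  have hd1 : (1 : ℝ) ≤ d := by exact_mod_cast hd
  have term : ∀ i ∈ N, (α i : ℝ) / deg i ≤ 1 / 2 + if i = o then 1 / 2 else 0 := fun i hi => by
    have h0 : (0 : ℝ) < deg i := by exact_mod_cast hdeg i hi
    have h1 : (1 : ℝ) ≤ deg i := by exact_mod_cast hdeg i hi
    have h2 : (α i : ℝ) ≤ 1 := by rcases hα i hi with h | h <;> rw [h] <;> norm_num
    rw [div_le_iff₀ h0]
    split_ifs with h3
    · linarith
    · have : (2 : ℝ) ≤ deg i := by exact_mod_cast hdeg' i hi h3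
      linarith
  have sm : ∑ i ∈ N, ((1 : ℝ) / 2 + if i = o then 1 / 2 else 0) =
      e / 2 + if o ∈ N then 1 / 2 else 0 := by
    rw [Finset.sum_add_distrib, Finset.sum_const, hN, Finset.sum_ite_eq']
    simp only [nsmul_eq_mul]
    ring
  have hS1 : S ≤ e / 2 + 1 / 2 := by
    refine (Finset.sum_le_sum term).trans ?_
    rw [sm]
    split_ifs <;> linarith
  set t : ℝ := δ * e / d with ht
  have h1 : ((p : ℝ) - 1) ^ 2 * (S - e) = e * (n * (p - 2) - (p - 1) ^ 2) * (1 - t) := by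
    have hp1 : (p : ℝ) - 1 ≠ 0 := by linarith
    apply mul_left_cancel₀ hp1
    have : δ * (e : ℝ) ^ 2 * (n * ((p - 1) * (p - 2)) - (p - 1) ^ 3) / d =
        t * e * (n * ((p - 1) * (p - 2)) - (p - 1) ^ 3) := by rw [ht]; ring
    rw [this] at h
    linear_combination h
  have ht1 : t ≤ 1 := by
    rw [ht, div_le_one hd']
    have : (d : ℝ) = δ * e + m * n := by exact_mod_cast hm
    rw [this]
    have : (0 : ℝ) ≤ m * n := by positivity
    linarith
  have hneg : ((p : ℝ) - 1) ^ 2 * (S - e) < 0 :=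
    mul_neg_of_pos_of_neg (pow_pos (by linarith) 2) (by linarith)
  rcases hn with rfl | hn
  · have h2 : (e : ℝ) * (e * (e - S)) ≤ e * (1 - t) := by
      have : (e : ℝ) ^ 2 ≤ (n - 1) ^ 2 := pow_le_pow_left₀ (by linarith) (by linarith) 2
      have h3 : (e : ℝ) ^ 2 * (e - S) ≤ (n - 1) ^ 2 * (e - S) :=
        mul_le_mul_of_nonneg_right this (by linarith)
      nlinarith
    have h3 : (e : ℝ) * (e - S) ≤ 1 - t := le_of_mul_le_mul_left h2 (by linarith)
    rcases hδ with rfl | rfl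
    · have : 0 < t := by rw [ht]; push_cast; positivity
      nlinarith
    · obtain ⟨i, hi, hi'⟩ : ∃ i ∈ N, α i = -1 := by
        by_contra hc
        push Not at hc
        have : 0 ≤ ∑ i ∈ N, α i * deg i := Finset.sum_nonneg fun i hi => by
          rw [(hα i hi).resolve_right (hc i hi)]; positivity
        omega
      have hS2 : S < e / 2 + (if o ∈ N then 1 / 2 else 0) - 1 / 2 := by
        rw [← sm, hS, ← Finset.add_sum_erase _ _ hi, ← Finset.add_sum_erase _ _ hi]
        have h4 := Finset.sum_le_sum fun j (hj : j ∈ N.erase i) => term j (Finset.mem_of_mem_erase hj)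
        have h5 : (α i : ℝ) / deg i < 0 := by
          rw [hi']
          exact div_neg_of_neg_of_pos (by norm_num) (by exact_mod_cast hdeg i hi)
        have h6 : (0 : ℝ) ≤ if i = o then 1 / 2 else 0 := by split_ifs <;> norm_num
        linarith
      have h7 : 1 / (d : ℝ) ≤ 1 - if o ∈ N then 1 / 2 else 0 := by
        rw [div_le_iff₀ hd']
        split_ifs with h8
        · have : (2 : ℝ) ≤ d := by exact_mod_cast ho h8
          linarith
        · linarith
      have h8 : t = -(e * (1 / d)) := by rw [ht]; push_cast; ring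
      rw [h8] at h3
      have h9 : (e - 1) / 2 < e - S - 1 / (d : ℝ) := by linarith
      have h10 : (e : ℝ) * ((e - 1) / 2) < e * (e - S - 1 / (d : ℝ)) :=
        mul_lt_mul_of_pos_left h9 (by linarith)
      nlinarith
  · have hn' : (p : ℝ) * p ≤ n := by exact_mod_cast hn
    have h2 : (0 : ℝ) ≤ n * (p - 2) - (p - 1) ^ 2 := by
      have : (p : ℝ) * p * 1 ≤ n * (p - 2) := mul_le_mul hn' (by linarith) (by norm_num) (by positivity)
      nlinarith
    have : 0 ≤ (e : ℝ) * (n * (p - 2) - (p - 1) ^ 2) * (1 - t) :=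
      mul_nonneg (mul_nonneg (by linarith) h2) (by linarith)
    linarith

variable {G : Type*} [Group G] [Fintype G] {p : ℕ} [hp : Fact p.Prime] {M : Ideal AlgInt} [PM p M]
  {P : Subgroup G} [Fintype P]

theorem strong (hS : SylIn p P ⊤) (hc : IsCyclic P) (h1 : P ≠ ⊥) :
    FA p P ∧ Nat.card (autN P) ∣ p - 1 ∧ ∃ ζ δ α,
      Exc p (principalBlock M G) (autN P) (famP M P) ζ δ 0 α ∧
      (∀ χ ∈ principalBlock M G \ ζ '' {1}ᶜ, α χ = 1 ∨ α χ = -1) ∧
      Nat.card (principalBlock M G \ ζ '' {1}ᶜ : Set _) = Nat.card (autN P) := by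
  have has : AS p P := ⟨hS, cyc_ab hc⟩
  obtain ⟨m⟩ := has.nonempty_mp (M := M)
  obtain ⟨a, ζ, δ, α, s, hd⟩ := m.exists_sf hc h1
  obtain ⟨v, hv⟩ := hc.exists_generator
  have hz : zpowers (v : G) = P := le_antisymm (zpowers_le.2 v.2) fun w hw => by
    obtain ⟨k, hk⟩ := hv ⟨w, hw⟩
    exact ⟨k, congrArg Subtype.val hk⟩
  have he : m.fv v = m.e := by
    have := m.le_fv v
    rw [hz] at this
    exact this.eq_of_eq
  have hc1 : ∀ n ∈ H8.nN P, H8.c1 (n * v * n⁻¹) = H8.c1 (v : G) := fun n hn => by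
    rw [← cj_c1, ← top_inf_cC_zpowers, hz, top_inf_eq]
    ext g
    conv_lhs => rw [mem_cj]
    have := conj_mem_centralizer_cj (x := n) (g := n⁻¹ * g * n) (D := P)
    rw [cj_eq_of_mem_normalizer hn] at this
    simpa [mul_assoc] using this.symm
  have hE : H8.nN P ⊓ H8.St m.e = H8.nN P := inf_eq_left.2 fun n hn => by
    rw [H8.mem_St, ← he, m.fv_pr, H8.cA_b0, cj_c1, hc1 n hn]
  rw [hE] at s hd
  have := s.nt
  have fa : FA p P := ⟨hS, cyc_ab hc, fun y hy y1 n hn => by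
    obtain ⟨σ, h2, h3⟩ := exists_autE P.subtype_injective (autN_le _) hn.2
    rw [s.fam.fr.free σ h2 ⟨y, hy⟩ (by simpa using y1) (Subtype.ext ((h3 _).trans
      (mul_inv_eq_iff_eq_mul.2 (Subgroup.mem_centralizer_singleton_iff.1 hn.1))))] at h3
    exact fun w hw => eq_mul_inv_iff_mul_eq.1 (h3 ⟨w, hw⟩)⟩
  have hB := isSat_of_isPBlock (isPBlock_principalBlock (M := M) (G := G))
  obtain ⟨ζ', δ', d, α', x⟩ := (fa.fam (M := M)).exists_exc
  have hk : Nat.card (principalBlock M G \ ζ' '' {1}ᶜ : Set _) = Nat.card (autN P) :=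
    (x.card_rank fa.fam hB).trans (s.rank hB)
  obtain ⟨rfl, h2⟩ := x.strong fa.fam hk.ge
  exact ⟨fa, hd, ζ', δ', α', x, h2, hk⟩

variable (p M P) in
noncomputable def Fn (g : G) : ℂ := ∑ w ∈ W p P, mu (principalBlock M G) g w

theorem Fn_reg (fa : FA p P) {g : G} (hg : ¬ p ∣ orderOf g) : Fn p M P g = 0 :=
  Finset.sum_eq_zero fun w hw => by
    have h1 : (w : G) ≠ 1 := by simpa using W_ne_one hw
    rw [fa.mu_eq w.2 h1, if_neg]
    rw [pp_of_not_dvd hg, isConj_one_right]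
    exact h1

theorem Fn_sing (fa : FA p P) {g : G} (hg : orderOf (pp p g) = p) :
    Fn p M P g = Nat.card (autN P) * Nat.card P := by
  classical
  obtain ⟨v, v1, hv⟩ := fa.exists_conj (g := g) (by
    by_contra h
    rw [pp_of_not_dvd h, orderOf_one] at hg
    exact hp.out.ne_one hg.symm)
  have hv' : orderOf v = p := by
    rw [← Subgroup.orderOf_coe, ← orderOf_eq_of_isConj hv, hg]
  have h1 : ∀ w ∈ W p P, mu (principalBlock M G) g w =
      if EC (autN P) v w then (Nat.card P : ℂ) else 0 := fun w hw => by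
    rw [fa.mu_eq w.2 (by simpa using W_ne_one hw), ← fa.isConj_iff']
    by_cases h : IsConj (v : G) w
    · rw [if_pos h, if_pos (hv.trans h)]
    · rw [if_neg h, if_neg fun h' => h (hv.symm.trans h')]
  have h2 := fa.fr.sum_EC v1 fun w => if w ∈ W p P then (Nat.card P : ℂ) else 0
  rw [Fn, Finset.sum_congr rfl h1, ← Finset.sum_ite_mem_eq]
  rw [Finset.sum_congr rfl (g := fun w => if EC (autN P) v w then
    (if w ∈ W p P then (Nat.card P : ℂ) else 0) else 0) fun w _ => by split_ifs <;> rfl, h2,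
    Finset.sum_congr rfl (g := fun _ => (Nat.card P : ℂ)) fun σ _ => if_pos (by
      rw [mem_W, σ.1.orderOf_eq, hv'])]
  simp

theorem sum_Fn (hG : Cyc p G) (fa : FA p P) (hc : IsCyclic P) {x : P} (hx : orderOf x = p) {y : G}
    (hy : orderOf y = p) (hs : H4.PSol p (closure ({(x : G), y} : Set G))) :
    ∑ u ∈ W p P, Fn p M P (y * u) = (p - 2) * (Nat.card (autN P) * Nat.card P) := by
  classical
  obtain ⟨_, ⟨k, rfl⟩, h2, h3, h4⟩ := typ hG (by rw [Subgroup.orderOf_coe]; exact hx) hy hs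
  have hm : x ^ k ∈ W p P := (mem_W_iff hx).2 ⟨⟨k, rfl⟩, fun e => h2 (congrArg Subtype.val e)⟩
  rw [← Finset.add_sum_erase _ _ hm, Fn_reg fa (g := y * (x ^ k : P)) h3, zero_add,
    Finset.sum_congr rfl (g := fun _ => (Nat.card (autN P) * Nat.card P : ℂ)) fun u hu => by
      obtain ⟨h5, h6⟩ := Finset.mem_erase.1 hu
      obtain ⟨⟨j, rfl⟩, -⟩ := (mem_W_iff hx).1 h6
      exact Fn_sing fa (h4 _ ⟨j, rfl⟩ fun e => h5 (Subtype.ext e)),
    Finset.sum_const, Finset.card_erase_of_mem hm, nsmul_eq_mul,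
    Nat.cast_sub (Finset.card_pos.2 ⟨_, hm⟩), card_W hx]
  push_cast
  ring

open Classical in
theorem ident (hG : Cyc p G) (fa : FA p P) (hc : IsCyclic P) {x : P} (hx : orderOf x = p)
    (hs : ∀ x y : G, orderOf x = p → orderOf y = p → H4.PSol p (closure ({x, y} : Set G))) :
    ∑ χ : IrrCharacter G, (if χ ∈ principalBlock M G then
      (∑ w ∈ W p P, (χ : G → ℂ) w) ^ 2 * conj (∑ w ∈ W p P, (χ : G → ℂ) w) / (χ : G → ℂ) 1 else 0)
      = (p - 1) * ((p - 2) * (Nat.card (autN P) * Nat.card P)) := by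
  have h1 : ∑ w ∈ W p P, ∑ g : G, ∑ u ∈ W p P, Fn p M P (g * w * g⁻¹ * u) =
      Nat.card G * ((p - 1) * ((p - 2) * (Nat.card (autN P) * Nat.card P))) := by
    rw [Finset.sum_congr rfl (g := fun _ => (Nat.card G : ℂ) *
      ((p - 2) * (Nat.card (autN P) * Nat.card P))) fun w hw => ?_]
    · rw [Finset.sum_const, nsmul_eq_mul, card_W hx]; ring
    have h2 : ∀ g : G, orderOf (g * w * g⁻¹) = p := fun g => by
      rw [orderOf_conj', Subgroup.orderOf_coe, mem_W.1 hw]
    rw [Finset.sum_congr rfl fun g _ => sum_Fn hG fa hc hx (h2 g)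
      (hs _ _ (by rw [Subgroup.orderOf_coe]; exact hx) (h2 g))]
    simp
  apply mul_left_cancel₀ (card_ne_zero_complex (G := G))
  rw [← h1, Finset.mul_sum]
  have h3 : ∀ g : G, Fn p M P g = ∑ χ : IrrCharacter G, if χ ∈ principalBlock M G then
      (χ : G → ℂ) g * conj (∑ w ∈ W p P, (χ : G → ℂ) w) else 0 := fun g => by
    simp only [Fn, H7.mu_eq]
    rw [Finset.sum_comm]
    refine Finset.sum_congr rfl fun χ _ => ?_
    split_ifs
    · rw [map_sum, Finset.mul_sum]
    · simp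
  simp only [h3]
  symm
  rw [Finset.sum_congr rfl fun w _ => Finset.sum_comm,
    Finset.sum_congr rfl fun w _ => Finset.sum_congr rfl fun u _ => Finset.sum_comm,
    Finset.sum_congr rfl fun w _ => Finset.sum_comm, Finset.sum_comm]
  refine Finset.sum_congr rfl fun χ _ => ?_
  split_ifs
  · simp only [← Finset.sum_mul, χ.2.sum_conj_mul, div_eq_mul_inv, ← Finset.mul_sum]
    ring
  · simp

theorem pnil (hG : Cyc p G) (hperf : commutator G = ⊤)
    (hs : ∀ x y : G, orderOf x = p → orderOf y = p → H4.PSol p (closure ({x, y} : Set G))) :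
    PNil p G := by
  classical
  obtain ⟨M, hM⟩ := exists_isPModular p
  have : PM p M := ⟨hM⟩
  obtain ⟨S⟩ := (inferInstance : Nonempty (Sylow p G))
  suffices H : ∀ P : Subgroup G, SylIn p P ⊤ → IsCyclic P →
      normalizer (P : Set G) ≤ centralizer (P : Set G) from
    pnil_of_le S (H S (sylIn_top S) (hG _ S.isPGroup'))
  intro P hS hc
  by_cases h1 : P = ⊥
  · subst h1
    intro g _ h hh
    rw [mem_bot.1 hh]; simp
  have := Fintype.ofFinite P
  obtain ⟨fa, hd, ζ, δ, α, x, hα, hk⟩ := strong (M := M) hS hc h1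
  refine le_of_card_autN ?_
  by_contra he
  have : Nontrivial P := (nontrivial_iff_ne_bot P).2 h1
  obtain ⟨a, ha⟩ := IsPGroup.iff_card.1 hS.isPGroup
  have ha1 : a ≠ 0 := by
    rintro rfl
    exact h1 (card_eq_one.1 (by simpa using ha))
  obtain ⟨z, hz⟩ := exists_prime_orderOf_dvd_card' (G := P) p (ha ▸ dvd_pow_self p ha1)
  have hid := ident (M := M) hG fa hc hz hs
  set B := principalBlock M G
  set e := Nat.card (autN P)
  set n := Nat.card P
  set f : IrrCharacter G → ℂ := fun χ =>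
    (∑ w ∈ W p P, (χ : G → ℂ) w) ^ 2 * conj (∑ w ∈ W p P, (χ : G → ℂ) w) / (χ : G → ℂ) 1 with hf
  have val : ∀ χ ∈ B, ∀ v : P, v ≠ 1 → dn (famP M P) χ v = (χ : G → ℂ) v := fun χ hχ v hv => by
    rw [FA.dn_famP hv, if_pos hχ]
  obtain ⟨l₀, hl₀⟩ := (fa.fam (M := M)).exists_ne_one
  have hreg := not_dvd_orderOf_one (p := p) (G := G)
  set d := charDegree (ζ l₀ : G → ℂ)
  have hdl : ∀ l ≠ 1, (ζ l : G → ℂ) 1 = d := fun l hl => by
    rw [x.reg_eq ⟨l, hl, rfl⟩ ⟨l₀, hl₀, rfl⟩ hreg, (ζ l₀).2.coe_charDegree]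
  have vexc : ∀ l ≠ 1, ∀ v : P, v ≠ 1 → (ζ l : G → ℂ) v = δ * osum (autN P) l v :=
    fun l hl v hv => by rw [← val _ (x.mem l hl) v hv, x.exc l hl v hv]; simp
  have fexc : ∀ l ≠ 1, f (ζ l) = δ * e ^ 3 / d * (∑ w ∈ W p P, (l w : ℂ)) ^ 3 := fun l hl => by
    have h2 : ∑ w ∈ W p P, (ζ l : G → ℂ) w = δ * e * ∑ w ∈ W p P, (l w : ℂ) := by
      rw [Finset.sum_congr rfl fun w hw => vexc l hl w (W_ne_one hw), ← Finset.mul_sum]
      simp only [osum]
      rw [Finset.sum_comm, Finset.sum_congr rfl fun σ _ => sum_W_aut σ.1 fun w => (l w : ℂ)]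
      simp [e, mul_assoc]
    have h3 : conj (∑ w ∈ W p P, (l w : ℂ)) = ∑ w ∈ W p P, (l w : ℂ) := by
      rcases sum_W_hom hz l with h | h <;> rw [h] <;> simp
    simp only [hf]
    rw [h2, hdl l hl, map_mul, h3]
    simp only [map_mul, map_intCast, map_natCast]
    linear_combination (δ * e ^ 3 / d * (∑ w ∈ W p P, (l w : ℂ)) ^ 3) * x.cast_sq
  set N := (Set.toFinite (B \ ζ '' {1}ᶜ)).toFinset with hN
  have memN : ∀ {χ}, χ ∈ N ↔ χ ∈ B \ ζ '' {1}ᶜ := fun {χ} => Set.Finite.mem_toFinset _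
  have fnon : ∀ χ ∈ N, f χ = (p - 1) ^ 3 * ((α χ : ℂ) / charDegree (χ : G → ℂ)) := fun χ hχ => by
    have h2 : ∑ w ∈ W p P, (χ : G → ℂ) w = (p - 1) * α χ := by
      rw [Finset.sum_congr rfl fun w hw => (val _ (memN.1 hχ).1 w (W_ne_one hw)).symm.trans
        (x.non χ (memN.1 hχ) w (W_ne_one hw)), Finset.sum_const, nsmul_eq_mul, card_W hz]
    simp only [hf]
    rw [h2, χ.2.coe_charDegree]
    rcases hα χ (memN.1 hχ) with h | h <;> rw [h] <;> simp <;> ring
  have e0 : (e : ℂ) ≠ 0 := card_ne_zero_complex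
  have sexc : ∑ᶠ η ∈ ζ '' {1}ᶜ, f η = δ * e ^ 2 * (n * ((p - 1) * (p - 2)) - (p - 1) ^ 3) / d := by
    apply mul_left_cancel₀ e0
    rw [fa.fr.sum_osum x.eq_iff, ← Finset.sum_erase_eq_sub (Finset.mem_univ _),
      Finset.sum_congr rfl fun l hl => fexc l (Finset.ne_of_mem_erase hl), ← Finset.mul_sum,
      Finset.sum_erase_eq_sub (Finset.mem_univ _), sum_cube hz]
    simp only [MonoidHom.one_apply, Units.val_one, Finset.sum_const, nsmul_eq_mul, mul_one,
      card_W hz]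
    ring
  have tot : ∑ χ ∈ N, f χ + ∑ᶠ η ∈ ζ '' {1}ᶜ, f η = (p - 1) * ((p - 2) * (e * n)) := by
    rw [← hid, ← finsum_mem_irr', hN, ← finsum_mem_eq_finite_toFinset_sum, add_comm]
    rw [← finsum_mem_union Set.disjoint_sdiff_right (Set.toFinite _) (Set.toFinite _),
      Set.union_sdiff_cancel x.subset]
  rw [sexc, Finset.sum_congr rfl fnon, ← Finset.mul_sum] at tot
  have two : ∀ χ : IrrCharacter G, χ ≠ irrOne G → 2 ≤ charDegree (χ : G → ℂ) := fun χ hχ => by
    have h2 := χ.2.charDegree_pos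
    by_contra h3
    have h4 : charDegree (χ : G → ℂ) = 1 := by omega
    have h5 := χ.2.commutator_le_charKer_iff.2 (χ.2.isCharacter.charDegree_eq_one_iff.1 h4)
    rw [hperf, top_le_iff, χ.2.charKer_eq_top_iff] at h5
    exact hχ (Subtype.ext h5)
  obtain ⟨m, hm⟩ := ((ζ l₀).2.isCharacter.restrict P).exists_classInner_nat isCharacter_one
  have hm' : (d : ℂ) = δ * e + m * n := by
    have h2 := card_mul_classInner (fun v : P => (ζ l₀ : G → ℂ) v) fun _ => 1
    rw [hm] at h2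
    simp only [map_one, mul_one] at h2
    have h3 := sum_osum fa.fr hl₀
    rw [← Finset.add_sum_erase _ _ (Finset.mem_univ (1 : P))] at h2 h3
    rw [Finset.sum_congr rfl fun v hv => vexc l₀ hl₀ v (Finset.ne_of_mem_erase hv),
      ← Finset.mul_sum, OneMemClass.coe_one, hdl l₀ hl₀] at h2
    rw [osum_one] at h3
    linear_combination -h2 - δ * h3
  have hrel : (δ : ℂ) * d = ∑ χ ∈ N, (α χ : ℂ) * charDegree (χ : G → ℂ) := by
    have := x.rel l₀ hl₀ 1 hreg
    rw [hdl l₀ hl₀, finsum_mem_eq_finite_toFinset_sum _ (Set.toFinite (B \ ζ '' {1}ᶜ))] at this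
    rw [this]
    simp only [Int.cast_zero, zero_mul, zero_add]
    exact Finset.sum_congr rfl fun χ _ => by rw [χ.2.coe_charDegree]
  have hp2 := hp.out.two_le
  have e1 : 0 < e := Nat.card_pos
  refine arith N α (fun χ => charDegree (χ : G → ℂ)) (irrOne G) (p := p) (n := n) (e := e)
    (d := d) (m := m) (δ := δ) ?_ (fun χ hχ => hα χ (memN.1 hχ)) x.sign
    (ζ l₀).2.charDegree_pos (fun χ _ => χ.2.charDegree_pos) (fun χ _ => two χ)
    (fun ho => two _ fun h => (memN.1 ho).2 ⟨l₀, hl₀, h⟩) (by exact_mod_cast hm')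
    (by exact_mod_cast hrel) (by omega) ?_ ?_ ?_
  · rw [← hk, hN, Nat.card_coe_set_eq, Set.ncard_eq_toFinset_card _ (Set.toFinite _)]
  · have := Nat.le_of_dvd (by omega) hd
    omega
  · rcases Nat.lt_or_ge a 2 with h | h
    · left
      rw [ha, show a = 1 by omega, pow_one]
    · right
      rw [ha, ← pow_two]
      exact Nat.pow_le_pow_right (by omega) h
  · apply Complex.ofReal_injective
    push_cast
    linear_combination tot

omit [Fintype G] in
theorem pSol [Finite G] (hG : Cyc p G)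
    (hs : ∀ x y : G, orderOf x = p → orderOf y = p → H4.PSol p (closure ({x, y} : Set G))) :
    H4.PSol p (⊤ : Subgroup G) := fun K _ h1 h2 => by
  have := Fintype.ofFinite K
  have h3 : PNil p K := pnil (hG.of_injective K.subtype K.subtype_injective) (by
    apply map_injective K.subtype_injective
    rw [_root_.commutator_def, map_commutator, ← MonoidHom.range_eq_map, range_subtype, h1])
    fun x y hx hy => by
      rw [← H4.pSol_map_iff K.subtype_injective, MonoidHom.map_closure, Set.image_pair]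
      exact hs _ _ (by simpa using hx) (by simpa using hy)
  obtain ⟨k, hk⟩ := h3
  have h4 : H4.PSol p (⊤ : Subgroup K) := H4.PSol.of_quotient (N := pPrimeCore p K)
    (H4.pSol_of_coprime ((Nat.Prime.coprime_iff_not_dvd hp.out).2 not_dvd_card_pPrimeCore).symm)
    (H4.pSol_of_isPGroup ((IsPGroup.of_card hk).to_subgroup ⊤))
  exact H4.pSol_top_iff.1 h4 K le_rfl h1 h2

end CyP
end H13
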