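import Cfsg.Agent.H15.Kl0
import Cfsg.Agent.H1.BG3a
import Cfsg.Agent.H18.BG8
import Cfsg.Agent.S0205

/-! Piece `PO` of S4606: an odd group of automorphisms with fixed-point-free `p'`-elements and norm-zero elements
of order `p`. -/
set_option autoImplicit false
namespace H13.KlO
open Cfsg H18 H1 Subgroup
open scoped commutatorElement
universe u

variable {V : Type u} [CommGroup V] [Finite V]

theorem zg [Nontrivial V] (R : Subgroup (MulAut V)) (ho : Odd (Nat.card R))
    (h : ∀ y ∈ R, y ≠ 1 → ∀ v, y v = v → v = 1) : ZGrp R := by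
  let Γ := V ⋊[MonoidHom.id (MulAut V)] MulAut V
  haveI : Finite Γ := Finite.of_equiv _ SemidirectProduct.equivProd.symm
  have e := R.equivMapOfInjective (SemidirectProduct.inr : MulAut V →* Γ) SemidirectProduct.inr_injective
  haveI : (SemidirectProduct.inl : V →* Γ).range.Normal := by
    rw [SemidirectProduct.range_inl_eq_ker_rightHom]; infer_instance
  haveI : ZGrp (R.map (SemidirectProduct.inr : MulAut V →* Γ)) := by
    refine odd_regular_zgrp (H := (SemidirectProduct.inl : V →* Γ).range) (by rwa [← Nat.card_congr e.toEquiv])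
      (le_top.trans (nml_top (K := (SemidirectProduct.inl : V →* Γ).range)).norm) ?_ ?_
    · obtain ⟨v, hv⟩ := exists_ne (1 : V)
      intro e0
      have : (SemidirectProduct.inl v : Γ) ∈ (⊥ : Subgroup Γ) := e0 ▸ ⟨v, rfl⟩
      exact hv (SemidirectProduct.inl_injective ((mem_bot.1 this).trans (map_one _).symm))
    · rintro _ ⟨y, hy, rfl⟩ y1
      refine eq_bot_iff.2 ?_
      rintro _ ⟨⟨v, rfl⟩, hc⟩
      have := congrArg SemidirectProduct.left (mem_C1.1 hc)
      simp at this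
      rw [h y hy (by rintro rfl; exact y1 (map_one _)) v this.symm, map_one]
      exact one_mem _
  exact IsZGroup.of_injective (f := e.toMonoidHom) e.injective

theorem core {p : ℕ} (hp : p.Prime) (A : Subgroup (MulAut V)) (y : MulAut V) (hy : y ^ p = 1)
    (hn : y ∈ N(A)) (hc : ∀ a ∈ A, a * y = y * a → a = 1) (hA : ∀ v, (∀ a ∈ A, a v = v) → v = 1)
    (hz : ∀ c ∈ A, ∀ v, ∏ i ∈ Finset.range p, ((c * y * c⁻¹) ^ i) v = 1) (v : V) : v ^ Nat.card A = 1 := by
  classical
  haveI := Fintype.ofFinite A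
  have nm : ∀ w : V, ∏ a : A, a.1 w = 1 := fun w => hA _ fun b hb => by
    rw [map_prod]
    exact Fintype.prod_equiv (Equiv.mulLeft ⟨b, hb⟩) _ _ fun a => rfl
  have cj : ∀ b : A, ∃ c ∈ A, b.1 * y = c * y * c⁻¹ := by
    let f : A → A := fun c => ⟨c.1 * (y * c.1⁻¹ * y⁻¹), A.mul_mem c.2 ((mem_normalizer_iff.1 hn _).1 (A.inv_mem c.2))⟩
    have : Function.Injective f := fun c d e => by
      have e' : c.1 * (y * c.1⁻¹ * y⁻¹) = d.1 * (y * d.1⁻¹ * y⁻¹) := congrArg Subtype.val e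
      have := hc (d.1⁻¹ * c.1) (A.mul_mem (A.inv_mem d.2) c.2) (by
        calc d.1⁻¹ * c.1 * y = d.1⁻¹ * (c.1 * (y * c.1⁻¹ * y⁻¹)) * y * c.1 := by group
          _ = y * (d.1⁻¹ * c.1) := by rw [e']; group)
      exact Subtype.ext (inv_mul_eq_one.1 this).symm
    intro b
    obtain ⟨c, e⟩ := Finite.injective_iff_surjective.1 this b
    exact ⟨c, c.2, by rw [← e]; simp only [f]; group⟩
  have pw : ∀ b : A, (b.1 * y) ^ p = 1 := fun b => by
    obtain ⟨c, -, e⟩ := cj b
    rw [e, conj_pow, hy]; group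
  have mem : ∀ (i : ℕ) (b : A), (b.1 * y) ^ i * (y ^ i)⁻¹ ∈ A := fun i b => by
    induction i with
    | zero => simp
    | succ i ih =>
      have : (b.1 * y) ^ (i + 1) * (y ^ (i + 1))⁻¹ = b.1 * (y * ((b.1 * y) ^ i * (y ^ i)⁻¹) * y⁻¹) := by
        rw [pow_succ', pow_succ']; group
      rw [this]
      exact A.mul_mem b.2 ((mem_normalizer_iff.1 hn _).1 ih)
  have h1 : ∏ b : A, ∏ i ∈ Finset.range p, ((b.1 * y) ^ i) v = 1 := Finset.prod_eq_one fun b _ => by
    obtain ⟨c, hc, e⟩ := cj b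
    rw [e]; exact hz c hc v
  rw [Finset.prod_comm, Finset.prod_eq_single 0] at h1
  · simpa [Nat.card_eq_fintype_card] using h1
  · intro i hi i0
    let f : A → A := fun b => ⟨_, mem i b⟩
    have hco : i.Coprime p := (Nat.coprime_of_lt_prime i0 (Finset.mem_range.1 hi) hp).symm
    have : Function.Injective f := fun b c e => by
      have e' : (b.1 * y) ^ i = (c.1 * y) ^ i := mul_right_cancel (congrArg Subtype.val e)
      obtain ⟨k, -, hk⟩ := Nat.exists_mul_mod_eq_one_of_coprime hco hp.one_lt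
      have r : ∀ x : MulAut V, x ^ p = 1 → (x ^ i) ^ k = x := fun x hx => by
        rw [← pow_mul, pow_eq_pow_mod _ hx, hk, pow_one]
      have : b.1 * y = c.1 * y := by rw [← r _ (pw b), e', r _ (pw c)]
      exact Subtype.ext (mul_right_cancel this)
    rw [← nm ((y ^ i) v)]
    refine Fintype.prod_bijective f (Finite.injective_iff_bijective.1 this) _ _ fun b => ?_
    simp [f]
  · intro h; exact absurd (Finset.mem_range.2 hp.pos) h

theorem pO : H15.Kl.PO.{u} := by
  intro V _ _ _ p hp Y hV ho hf hz hK hd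
  have pp := hp.out
  obtain ⟨⟨y, hyY⟩, hy⟩ := exists_prime_orderOf_dvd_card' p hd
  rw [← Subgroup.orderOf_coe] at hy
  simp only at hy
  have yp : y ^ p = 1 := hy ▸ pow_orderOf_eq_one y
  have y1 : y ≠ 1 := by rintro rfl; rw [orderOf_one] at hy; exact pp.ne_one hy.symm
  have hs : Solv Y := Cfsg.Agent.S0205.result ho
  have hO : O[{p}](Y) = ⊥ := by
    have := hK (O[{p}](Y).subgroupOf Y) pcore_nml.subgroupOf_normal (pcore_pi.isPGroup.comap_subtype)
    rw [subgroupOf_eq_bot, disjoint_iff, inf_eq_left.2 pcore_le] at this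
    exact this
  have hF : PiGrp {p}ᶜ F(Y) := pcore_pi.of_le (fit_le_p'core hO)
  have ff : ∀ a ∈ F(Y), a ≠ 1 → ∀ v, a v = v → v = 1 := fun a ha a1 =>
    hf a (fit_nml.le ha) a1 ((hF.elt ha).not_dvd' pp rfl)
  have ab : Abel F(Y) := ((zg F(Y) (ho.of_dvd_nat (card_dvd fit_nml.le)) ff).cyc_of_nil fit_nil).abel
  have hn : zpowers y ≤ N(F(Y)) := (zpowers_le.2 hyY).trans fit_nml.norm
  have pz : PiGrp {p} (zpowers y) := (piElt_of_pow_eq_one pp yp).zpowers
  have hl : (⁅F(Y), zpowers y⁆ : Subgroup _) ≤ F(Y) := comm_le_left hn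
  have hi := abel_comm_inf_cent ab hn (pz.coprime hF)
  have hne : (⁅F(Y), zpowers y⁆ : Subgroup _) ≠ ⊥ := fun e => by
    rw [commutator_comm, comm_eq_bot_iff] at e
    have := hF.elt (cent_sub_Fitting hs ⟨hyY, e (mem_zpowers y)⟩)
    exact this.not_dvd' pp rfl (hy ▸ dvd_rfl)
  obtain ⟨⟨a, ha⟩, a1⟩ := (ne_bot_iff_exists_ne_one).1 hne
  obtain ⟨v, hv⟩ := exists_ne (1 : V)
  have := core pp ⁅F(Y), zpowers y⁆ y yp (norm_comm_right (mem_zpowers y))
    (fun b hb e => eq_one_of_eq_bot hi ⟨hb, mem_C.2 fun z hz => by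
      obtain ⟨k, rfl⟩ := hz
      exact ((show Commute b y from e).zpow_right k).symm⟩)
    (fun w hw => ff a (hl ha) (fun e => a1 (Subtype.ext e)) w (hw a ha))
    (fun c hc => hz _ (Y.mul_mem (Y.mul_mem (fit_nml.le (hl hc)) hyY) (Y.inv_mem (fit_nml.le (hl hc))))
      (by rw [conj_pow, yp]; group) (fun e => y1 (by simpa using e))) v
  obtain ⟨k, hk⟩ := hV v
  have c : (Nat.card ↥(⁅F(Y), zpowers y⁆ : Subgroup _)).Coprime (p ^ k) :=
    ((piNat_compl_iff_coprime pp).1 (hF.of_le hl)).pow_right k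
  have e := pow_gcd_eq_one.2 ⟨this, hk⟩
  rw [c, pow_one] at e
  exact hv e

end H13.KlO
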