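import Cfsg.Agent.H1.Hol
import Cfsg.Agent.H1.BGCop
import Cfsg.Agent.H23.Thompson

/-! Frobenius groups of automorphisms with fixed-point-free kernel: the setting `Cf` and the statements of the
pieces of the proof that a nilpotent `C_K(H)` forces `K` to be nilpotent. -/
set_option autoImplicit false
namespace H13.Km
open Cfsg H18 H1 Subgroup
universe u

/-- `F H` normalizes `K`, `H` acts semiregularly on the nilpotent group `F`, and `C_K(F) = 1` -/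
structure Cf {G : Type*} [Group G] (K F H : Subgroup G) : Prop where
  nF : F ≤ N(K)
  nH : H ≤ N(K)
  hn : H ≤ N(F)
  nil : Nil F
  sr : Semireg F H
  cf : K ⊓ C(F) = ⊥
  dj : K ⊓ (F ⊔ H) = ⊥

theorem Cf.sub {G : Type*} [Group G] {K F H X : Subgroup G} (c : Cf K F H) (l : X ≤ K) (h1 : F ≤ N(X))
    (h2 : H ≤ N(X)) : Cf X F H :=
  ⟨h1, h2, c.hn, c.nil, c.sr, le_bot_iff.1 (c.cf ▸ inf_le_inf_right _ l), le_bot_iff.1 (c.dj ▸ inf_le_inf_right _ l)⟩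

/-- `F` has no fixed points on `K / V` -/
def PA : Prop := ∀ {G : Type u} [Group G] [Finite G] {K F H V : Subgroup G} {p : ℕ}, Cf K F H → p.Prime →
  PiGrp {p} V → V ⊴ K → F ≤ N(V) → ∀ g ∈ K, (∀ f ∈ F, g⁻¹ * (f * g * f⁻¹) ∈ V) → g ∈ V

/-- the fixed points of `H` on `K / V` are covered -/
def PB : Prop := ∀ {G : Type u} [Group G] [Finite G] {K F H V : Subgroup G}, Cf K F H → Abel V → V ⊴ K →
  F ≤ N(V) → H ≤ N(V) → ∀ g ∈ K, (∀ h ∈ H, g⁻¹ * (h * g * h⁻¹) ∈ V) → ∃ v ∈ V, g * v ∈ C(H)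

/-- the module lemma -/
def PM : Prop := ∀ {G : Type u} [Group G] [Finite G] {V Q F H : Subgroup G} {p q : ℕ}, p.Prime → q.Prime → p ≠ q →
  Cf V F H → Cf Q F H → Abel V → Abel Q → PiGrp {p} V → PiGrp {q} Q → Q ≤ N(V) →
  Q ⊓ C(H) ≤ C(V ⊓ C(H)) → V ⊓ C(Q) = ⊥ → V = ⊥

/-- an invariant complement -/
def PQ : Prop := ∀ {G : Type u} [Group G] [Finite G] {K F H V Q : Subgroup G} {p : ℕ}, Cf K F H → p.Prime →
  PiGrp {p} V → PiGrp {p}ᶜ Q → SD V Q K → F ≤ N(V) → H ≤ N(V) → V ⊓ C(Q) = ⊥ →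
  ∃ Q', SD V Q' K ∧ F ≤ N(Q') ∧ H ≤ N(Q')

/-- the case without invariant normal subgroups -/
def PS : Prop := ∀ {G : Type u} [Group G] [Finite G] {K F H : Subgroup G}, Cf K F H →
  (∀ F' < F, H ≤ N(F') → K ⊓ C(F') ≠ ⊥) → (∀ X < K, F ≤ N(X) → H ≤ N(X) → Nil X) →
  (∀ X, X ⊴ K → F ≤ N(X) → H ≤ N(X) → X = ⊥ ∨ X = K) → Nil K

/-- the theorem in an ambient group -/
def Main : Prop := ∀ {G : Type u} [Group G] [Finite G] {K F H : Subgroup G}, Cf K F H → Nil (K ⊓ C(H)) → Nil K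

end H13.Km
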