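import Cfsg.Agent.H13.Km0
import Cfsg.Agent.H18.BG8

/-! Frobenius groups of automorphisms with fixed-point-free kernel: the induction. -/
set_option autoImplicit false
namespace H13.Km
open Cfsg H18 H1 Subgroup
open scoped commutatorElement
universe u

variable {G : Type u} [Group G] [Finite G] {K F H V : Subgroup G} {p : ℕ}

theorem cs_comm {x y : G} (hx : x ∈ N(V)) (hy : y ∈ N(V)) (e : cs V x * cs V y = cs V y * cs V x) :
    x⁻¹ * (y * x * y⁻¹) ∈ V := by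
  rw [← cs_eq_iff hx (mul_mem (mul_mem hy hx) (inv_mem hy)), mfun_conj hy hx, ← e, mul_inv_cancel_right]

theorem Cf.quo (hA : PA.{u}) (c : Cf K F H) (hp : p.Prime) (pV : PiGrp {p} V) (nV : V ⊴ K) (h1 : F ≤ N(V))
    (h2 : H ≤ N(V)) : Cf (K ⫽ V) (F ⫽ V) (H ⫽ V) where
  nF := mim_norm c.nF
  nH := mim_norm c.nH
  hn := mim_norm c.hn
  nil := c.nil.mim
  sr x hx x1 := eq_bot_iff.2 fun y hy => by
    obtain ⟨h, hh, hD, rfl⟩ := mem_mim.1 hx
    obtain ⟨f, hf, fD, rfl⟩ := mem_mim.1 hy.1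
    have k := cs_comm fD hD (mem_C1.1 hy.2)
    have k2 : f⁻¹ * (h * f * h⁻¹) = 1 := eq_one_of_eq_bot c.dj
      ⟨nV.le k, (le_sup_left : F ≤ F ⊔ H) (F.mul_mem (F.inv_mem hf) (conj_mem c.hn hh hf))⟩
    have : f = 1 := eq_one_of_eq_bot (c.sr h hh (by rintro rfl; exact x1 mfun_one)) ⟨hf, mem_C1.2 (by
      rw [inv_mul_eq_one, eq_mul_inv_iff_mul_eq] at k2; exact k2)⟩
    rw [this, mfun_one]; exact one_mem _
  cf := eq_bot_iff.2 fun z hz => by
    obtain ⟨g, hg, gD, rfl⟩ := mem_mim.1 hz.1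
    exact mem_bot.2 (cs_eq_one (hA c hp pV nV h1 g hg fun f hf =>
      cs_comm gD (h1 hf) (mem_C.1 hz.2 _ (mfun_mem_mim hf)).symm))
  dj := by rw [← mim_sup h1 h2, ← quo_inf' nV, c.dj, mim_bot]

theorem Cf.quo_nil (hB : PB.{u}) (c : Cf K F H) (aV : Abel V) (nV : V ⊴ K) (h1 : F ≤ N(V)) (h2 : H ≤ N(V))
    (h : Nil (K ⊓ C(H))) : Nil (K ⫽ V ⊓ C(H ⫽ V)) := by
  refine (h.mim (f := coset V)).of_le fun z hz => ?_
  obtain ⟨g, hg, gD, rfl⟩ := mem_mim.1 hz.1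
  obtain ⟨v, hv, e⟩ := hB c aV nV h1 h2 g hg fun f hf => cs_comm gD (h2 hf) (mem_C.1 hz.2 _ (mfun_mem_mim hf)).symm
  have : cs V (g * v) = cs V g := by rw [mfun_mul gD (H18.le_N hv), cs_eq_one hv, mul_one]
  exact this ▸ mfun_mem_mim ⟨K.mul_mem hg (nV.le hv), e⟩

theorem step (hM : PM.{u}) (hQ : PQ.{u}) (c : Cf K F H) (h : Nil (K ⊓ C(H)))
    (ih : ∀ X < K, F ≤ N(X) → H ≤ N(X) → Nil X)
    (iq : ∀ {V : Subgroup G} {p : ℕ}, p.Prime → PiGrp {p} V → Abel V → V ⊴ K → F ≤ N(V) → H ≤ N(V) → V ≠ ⊥ →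
      Nil (K ⫽ V))
    (hp : p.Prime) (pV : PiGrp {p} V) (aV : Abel V) (nV : V ⊴ K) (h1 : F ≤ N(V)) (h2 : H ≤ N(V)) (V1 : V ≠ ⊥) :
    Nil K := by
  by_contra nK
  have q := iq hp pV aV nV h1 h2 V1
  have cen : ∀ {W : Subgroup G} {r : ℕ}, r.Prime → PiGrp {r} W → W ≤ K → W ≤ C(K) → F ≤ N(W) → H ≤ N(W) → W = ⊥ :=
    fun hr pW l cW a b => by_contra fun W1 => nK (nil_of_quo_center cW
      (iq hr pW (cW.trans (C_anti l)) ⟨l, cent_norm (cent_symm cW)⟩ a b W1))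
  have nL : qpre V O[{p}ᶜ](K ⫽ V) ⊴ K := nml_qpre nV pcore_nml
  have eL : qpre V O[{p}ᶜ](K ⫽ V) = K := by_contra fun e => nK (by
    have a := ih _ (lt_of_le_of_ne nL.le e) (norm_mpre h1 (norm_pcore (mim_norm c.nF)))
      (norm_mpre h2 (norm_pcore (mim_norm c.nH)))
    have b : Nil (qpre V O[{p}](K ⫽ V)) :=
      (piGrp_of_quo (π := {p}) qpre_le (by rw [quo_qpre]; exact pcore_pi) pV).nil
    have := b.sup_nml a (nml_qpre nV pcore_nml) nL
    rwa [← mpre_sup le_quo_N le_quo_N, q.pcore_sup, qpre_quo_nml nV] at this)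
  have pK : PiNat {p}ᶜ (V.relIndex K) := (piGrp_quo_iff nV.norm).1 (by
    rw [← eL, quo_qpre]; exact pcore_pi)
  have c0 : ∀ {Q : Subgroup G}, SD V Q K → V ⊓ C(Q) = ⊥ := fun s =>
    cen hp pV.inf_left (inf_le_left.trans nV.le) (by
      rw [← s.sup]; exact cent_symm (sup_le (cent_symm (inf_le_left.trans aV)) (cent_symm inf_le_right)))
      (by
        have : V ⊓ C(_) = V ⊓ C(K) := le_antisymm (le_inf inf_le_left (by
          rw [← s.sup]; exact cent_symm (sup_le (cent_symm (inf_le_left.trans aV)) (cent_symm inf_le_right))))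
          (inf_le_inf_left _ (C_anti s.le_right))
        rw [this]; exact norm_inf h1 (norm_C c.nF))
      (by
        have : V ⊓ C(_) = V ⊓ C(K) := le_antisymm (le_inf inf_le_left (by
          rw [← s.sup]; exact cent_symm (sup_le (cent_symm (inf_le_left.trans aV)) (cent_symm inf_le_right))))
          (inf_le_inf_left _ (C_anti s.le_right))
        rw [this]; exact norm_inf h2 (norm_C c.nH))
  obtain ⟨Q, s⟩ := exists_sd nV (pV.coprime pK)
  obtain ⟨Q, s, n1, n2⟩ := hQ c hp pV (by rw [PiGrp, ← s.relIndex]; exact pK) s h1 h2 (c0 s)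
  have pQ : PiGrp {p}ᶜ Q := by rw [PiGrp, ← s.relIndex]; exact pK
  have nQ : Nil Q := s.nil_quo_iff.1 q
  have Q1 : Q ≠ ⊥ := fun e => nK (s.eq_left_iff.2 e ▸ aV.nil)
  obtain ⟨r, hr, d⟩ := H18.exists_prime_dvd_card Q1
  have pr : p ≠ r := fun e => pQ r hr d (e ▸ rfl)
  have lR : O[{r}](Z(Q)) ≤ Q := pcore_le.trans inf_le_left
  have m1 : F ≤ N(O[{r}](Z(Q))) := norm_pcore (norm_Z n1)
  have m2 : H ≤ N(O[{r}](Z(Q))) := norm_pcore (norm_Z n2)
  have nR : O[{r}](Z(Q)) ≤ N(V) := lR.trans s.norm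
  have lW : ⁅V, O[{r}](Z(Q))⁆ ≤ V := comm_le_left nR
  have w := hM hp hr pr (c.sub (lW.trans nV.le) (norm_comm h1 m1) (norm_comm h2 m2))
    (c.sub (lR.trans s.le_right) m1 m2) (aV.mono lW) (abel_Z.mono pcore_le) (pV.of_le lW) pcore_pi norm_comm_right
    (cent_symm (h.cent_pi (inf_le_inf_right _ (lW.trans nV.le)) (inf_le_inf_right _ (lR.trans s.le_right))
      (pV.of_le lW).inf_left (pQ.of_le lR).inf_left))
    (abel_comm_inf_cent aV nR ((pQ.of_le lR).coprime' pV))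
  exact nQ.pcore_Z_ne_bot hr d (cen hr pcore_pi (lR.trans s.le_right) (by
    rw [← s.sup]; exact cent_symm (sup_le (comm_eq_bot_iff.1 w) (cent_symm (pcore_le.trans inf_le_right)))) m1 m2)

theorem main (hA : PA.{u}) (hB : PB.{u}) (hM : PM.{u}) (hQ : PQ.{u}) (hS : PS.{u}) : Main.{u} := by
  suffices ∀ n, ∀ {G : Type u} [Group G] [Finite G] {K F H : Subgroup G}, Nat.card K = n → Cf K F H →
      Nil (K ⊓ C(H)) → Nil K from fun {_ _ _ _ _ _} c h => this _ rfl c h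
  intro n
  induction' n using Nat.strong_induction_on with n IH
  intro G _ _ K F H e c h
  obtain ⟨F', l, ⟨a1, a2⟩, mn⟩ := exists_minimal_sub (fun F' : Subgroup G => H ≤ N(F') ∧ K ⊓ C(F') = ⊥) ⟨c.hn, c.cf⟩
  replace c : Cf K F' H := ⟨l.trans c.nF, c.nH, a1, c.nil.of_le l,
    fun x hx x1 => le_bot_iff.1 (c.sr x hx x1 ▸ inf_le_inf_right _ l), a2,
    le_bot_iff.1 (c.dj ▸ inf_le_inf_left _ (sup_le_sup_right l _))⟩
  have ih : ∀ X < K, F' ≤ N(X) → H ≤ N(X) → Nil X := fun X lt b1 b2 =>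
    IH _ (e ▸ card_lt lt) rfl (c.sub lt.le b1 b2) (h.of_le (inf_le_inf_right _ lt.le))
  by_contra nK
  refine nK (hS c (fun F'' lt b d => lt.ne (mn _ ⟨b, d⟩ lt.le)) ih fun X nX b1 b2 => ?_)
  by_contra hX
  push Not at hX
  obtain ⟨p, V, pp, eV, V1, nV, nV'⟩ := exists_elem_nml (ih X (lt_of_le_of_ne nX.le hX.2) b1 b2).solv hX.1
    (A := K ⊔ (F' ⊔ H)) (sup_le nX.norm (sup_le b1 b2))
  exact nK (step hM hQ c h ih (fun hp pV aV nV h1 h2 V1 => IH _ (e ▸ card_mim_lt nV.norm (by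
      rwa [mker_coset, inf_eq_right.2 nV.le])) rfl (c.quo hA hp pV nV h1 h2) (c.quo_nil hB aV nV h1 h2 h))
    pp (eV.pi' pp) eV.abel ⟨nV.le.trans nX.le, le_sup_left.trans nV'⟩
    (le_sup_left.trans (le_sup_right.trans nV')) (le_sup_right.trans (le_sup_right.trans nV')) V1)

end H13.Km
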