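import Cfsg.Agent.H20.Pw0

/-! Overgroups of product action wreath products: the pieces `PRel` and `P4`. -/
set_option autoImplicit false
set_option linter.unusedSectionVars false

namespace H13.PwR
open Equiv Function H20.Pw

variable {ι U : Type} [Fintype ι] [DecidableEq ι] [Fintype U] [DecidableEq U] {H : Subgroup (Perm (ι → U))}

theorem ex_out (h5 : 5 ≤ Fintype.card U) (a b c d : U) : ∃ x, x ≠ a ∧ x ≠ b ∧ x ≠ c ∧ x ≠ d := by
  obtain ⟨x, -, hx⟩ := Finset.exists_mem_notMem_of_card_lt_card (s := {a, b, c, d}) (t := Finset.univ)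
    (lt_of_le_of_lt Finset.card_le_four (by rw [Finset.card_univ]; omega))
  exact ⟨x, by simpa using hx⟩

theorem ev_fix (h5 : 5 ≤ Fintype.card U) (τ : Perm U) (a b c : U) :
    ∃ σ ∈ alternatingGroup U, σ a = τ a ∧ σ b = τ b ∧ σ c = τ c := by
  rcases Int.units_eq_one_or (Perm.sign τ) with e | e
  · exact ⟨τ, e, rfl, rfl, rfl⟩
  obtain ⟨x, x1, x2, x3, -⟩ := ex_out h5 a b c c
  obtain ⟨y, y1, y2, y3, y4⟩ := ex_out h5 a b c x
  exact ⟨τ * swap x y, by simp [Perm.sign_swap y4.symm, e], by simp [swap_apply_of_ne_of_ne x1.symm y1.symm],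
    by simp [swap_apply_of_ne_of_ne x2.symm y2.symm], by simp [swap_apply_of_ne_of_ne x3.symm y3.symm]⟩

theorem ex2 (h5 : 5 ≤ Fintype.card U) {a b c d : U} (h1 : a ≠ b) (h2 : c ≠ d) :
    ∃ σ ∈ alternatingGroup U, σ a = c ∧ σ b = d := by
  obtain ⟨σ, hσ, e1, e2, -⟩ := ev_fix h5 (swap (swap a c b) d * swap a c) a b b
  refine ⟨σ, hσ, e1.trans ?_, e2.trans (by simp)⟩
  rw [Perm.mul_apply, swap_apply_left]
  exact swap_apply_of_ne_of_ne (fun e => h1 ((swap a c).injective (by rw [swap_apply_left]; exact e))) h2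

theorem ex1 (h5 : 5 ≤ Fintype.card U) (a c : U) : ∃ σ ∈ alternatingGroup U, σ a = c :=
  let ⟨σ, hσ, e, _⟩ := ev_fix h5 (swap a c) a a a
  ⟨σ, hσ, e.trans (swap_apply_left _ _)⟩

theorem nm_co (hH : Hy H) {i l : ι} (h : l ≠ i) {σ : Perm U} (hσ : σ ∈ alternatingGroup U) : Nm H i (co l σ) :=
  ⟨hH.ev l σ hσ, fun f => co_ne h.symm σ f, fun τ => co_comm h σ τ⟩

theorem chain {i : ι} {P : (ι → U) → Prop} (h : ∀ p l w, l ≠ i → P p → P (update p l w)) {p q : ι → U}
    (e : q i = p i) (hp : P p) : P q := by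
  have : ∀ s : Finset ι, i ∉ s → ∀ q : ι → U, (∀ l ∉ s, q l = p l) → P q := fun s => by
    induction s using Finset.induction_on with
    | empty => intro _ q k; rwa [show q = p from funext fun l => k l (by simp)]
    | insert l s hl ih =>
      intro n q k
      rw [Finset.mem_insert, not_or] at n
      have := h _ l (q l) (Ne.symm n.1) (ih n.2 (update q l (p l)) fun t ht => by
        by_cases c : t = l
        · simp [c]
        · rw [update_of_ne c]; exact k t (by simp [c, ht]))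
      simpa using this
  exact this (Finset.univ.erase i) (by simp) q fun l hl => by
    rwa [show l = i by simpa using hl]

theorem upd_swap (p : ι → U) (j j' : ι) (v : U) : update p j v ∘ swap j j' = update (p ∘ swap j j') j' v := by
  rw [update_comp_equiv]; simp

theorem pRel : PRel := by
  intro ι U _ _ _ _ H hH i j r hr inv f g fg ji ne f' g' e1 e2
  have h5 := hH.five
  obtain ⟨c, c1, c2, -⟩ := ex_out h5 (f j) (g j) (g j) (g j)
  obtain ⟨σ, hσ, s1, s2⟩ := ex2 h5 ne c1.symm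
  have r1 : r (update g j (g j)) (update g j c) := by
    have := inv _ (nm_co hH ji hσ) _ _ fg
    rw [co_fix.2 s1, co_apply, s2] at this
    simpa using hr.trans (hr.symm fg) this
  have A : ∀ p : ι → U, p i = g i → ∀ v, r p (update p j v) := fun p e v => by
    have : ∀ u v, u ≠ v → r (update p j u) (update p j v) :=
      chain (i := i) (P := fun p => ∀ u v, u ≠ v → r (update p j u) (update p j v)) (fun p l w li k u v uv => by
        by_cases c : l = j
        · simpa [c] using k u v uv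
        obtain ⟨σ, hσ, s⟩ := ex1 h5 (p l) w
        have := inv _ (nm_co hH li hσ) _ _ (k u v uv)
        rwa [co_apply, co_apply, update_of_ne c, update_of_ne c, s, ← update_comm c, ← update_comm c] at this) e
        fun u v uv => by
          obtain ⟨σ, hσ, s1, s2⟩ := ex2 h5 c2.symm uv
          simpa [co_apply, s1, s2] using inv _ (nm_co hH ji hσ) _ _ r1
    by_cases c : p j = v
    · rw [← c, update_eq_self]; exact hr.refl p
    · simpa using this _ _ c
  have B : ∀ l, l ≠ i → ∀ p : ι → U, p i = g i → ∀ v, r p (update p l v) := fun l li p e v => by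
    by_cases c : j = l
    · exact c ▸ A p e v
    obtain ⟨h, hh, τ, k⟩ := hH.sw j l
    have si : swap j l i = i := swap_apply_of_ne_of_ne ji.symm li.symm
    have k1 : ∀ f, h f i = f i := fun f => by rw [k, co_ne ji.symm, comp_apply, si]
    have n : Nm H i h := ⟨hh, k1, fun σ => Equiv.ext fun f => by
      rw [Perm.mul_apply, Perm.mul_apply, k, k, ← Perm.mul_apply (co i σ), ← co_comm ji, Perm.mul_apply]
      congr 1
      rw [co_apply, co_apply, update_comp_equiv, symm_swap, si, comp_apply, si]⟩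
    obtain ⟨p, rfl⟩ := h.surjective p
    have := inv _ n _ _ (A p (k1 p ▸ e) v)
    rwa [k (update p j v), upd_swap, co_apply, update_of_ne c, ← update_comm c, ← co_apply, ← k] at this
  exact (chain (i := i) (P := fun q => r f' q ∧ q i = g i) (fun p l w li k =>
    ⟨hr.trans k.1 (B l li p k.2 w), by rw [update_of_ne li.symm, k.2]⟩) (e2.trans e1.symm) ⟨hr.refl _, e1⟩).1

/-- an invariant equivalence relation is trivial -/
theorem tot (hH : Hy H) {r : (ι → U) → (ι → U) → Prop} (hr : Equivalence r)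
    (inv : ∀ x ∈ H, ∀ f g, r f g → r (x f) (x g)) {f g : ι → U} (fg : r f g) (ne : f ≠ g) (p q : ι → U) : r p q := by
  obtain ⟨j, hj⟩ := Function.ne_iff.1 ne
  obtain ⟨i, ij⟩ := hH.two j
  have a := pRel ι U H hH i j r hr (fun x n => inv x n.1) f g fg ij.symm hj
  have b : ∀ p q : ι → U, p i = q i → r p q := fun p q e => by
    obtain ⟨σ, hσ, s⟩ := ex1 hH.five (g i) (p i)
    obtain ⟨p, rfl⟩ := (co i σ).surjective p
    obtain ⟨q, rfl⟩ := (co i σ).surjective q
    rw [co_same] at s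
    rw [co_same, co_same] at e
    exact inv _ (hH.ev i σ hσ) _ _ (a p q (σ.injective s).symm (σ.injective (e.symm.trans s.symm)))
  obtain ⟨h, hh, τ, k⟩ := hH.sw i j
  have c := pRel ι U H hH j i r hr (fun x n => inv x n.1) (h g) (h (update g j (f j)))
    (inv h hh _ _ (b _ _ (update_of_ne ij _ _).symm)) ij (by simpa [k] using hj.symm)
  exact hr.trans (b p (update p j _) (update_of_ne ij _ _).symm)
    (hr.trans (c _ (update q j _) (update_self ..) (update_self ..)) (b _ q (update_of_ne ij _ _)))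

theorem qp (hH : Hy H) (N : Subgroup H) (hN : N.Normal) (h1 : N ≠ ⊥) : MulAction.IsPretransitive N (ι → U) := by
  obtain ⟨⟨n, hn⟩, n1⟩ := (N.nontrivial_iff_exists_ne_one.1 ((N.nontrivial_iff_ne_bot).2 h1)).imp
    (fun _ => id) |> fun ⟨x, hx, e⟩ => (⟨⟨x, hx⟩, e⟩ : ∃ x : N, x.1 ≠ 1)
  obtain ⟨f, hf⟩ : ∃ f, n.1 f ≠ f := by
    by_contra c
    push Not at c
    exact n1 (Subtype.ext (Equiv.ext c))
  refine ⟨fun p q => tot hH (r := fun p q => ∃ n : N, n • p = q) ⟨fun p => ⟨1, one_smul _ _⟩,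
    fun ⟨n, e⟩ => ⟨n⁻¹, by rw [← e, inv_smul_smul]⟩, fun ⟨n, e⟩ ⟨n', e'⟩ => ⟨n' * n, by rw [mul_smul, e, e']⟩⟩
    (fun x hx f g ⟨n, e⟩ => ⟨⟨⟨x, hx⟩ * n * ⟨x, hx⟩⁻¹, hN.conj_mem _ n.2 _⟩, ?_⟩) (f := f) ⟨⟨n, hn⟩, rfl⟩ hf.symm p q⟩
  rw [← e]
  show x (n.1.1 (x⁻¹ (x f))) = x (n.1.1 f)
  simp

theorem p4 : P4 := by
  intro ι U _ _ _ _ H hH i d h hh fx
  by_contra h1
  obtain ⟨f, hf⟩ : ∃ f, h f ≠ f := by
    by_contra c
    push Not at c
    exact h1 (Equiv.ext c)
  have e1 : f i = d := by_contra fun c => hf (fx f c)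
  have e2 : h f i = d := by_contra fun c => hf (h.injective (fx _ c))
  obtain ⟨j, hj⟩ := Function.ne_iff.1 hf
  have a := pRel ι U H hH i j (fun p q => ∃ k ∈ H, (∀ f, f i ≠ d → k f = f) ∧ k p = q)
    ⟨fun p => ⟨1, one_mem _, fun _ _ => rfl, rfl⟩,
      fun ⟨k, hk, k1, e⟩ => ⟨k⁻¹, inv_mem hk, fun f c => by rw [Perm.inv_eq_iff_eq, k1 f c],
        by rw [Perm.inv_eq_iff_eq, e]⟩,
      fun ⟨k, hk, k1, e⟩ ⟨k', hk', k1', e'⟩ => ⟨k' * k, mul_mem hk' hk, fun f c => by
        rw [Perm.mul_apply, k1 f c, k1' f c], by rw [Perm.mul_apply, e, e']⟩⟩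
    (fun x n p q ⟨k, hk, k1, e⟩ => ⟨x * k * x⁻¹, mul_mem (mul_mem n.1 hk) (inv_mem n.1), fun f c => by
      obtain ⟨f, rfl⟩ := x.surjective f
      rw [n.2.1] at c
      simp [k1 f c], by simp [e]⟩) f (h f) ⟨h, hh, fx, rfl⟩ (fun c => hj (by rw [c, e1, e2])) hj.symm
  set F : Finset (ι → U) := Finset.univ.filter fun f => f i ≠ d with hF
  have m : ∀ {p : ι → U}, p ∉ F ↔ p i = d := by simp [hF]
  have fl : H5.Fl H F := ⟨Finset.one_lt_card.2 ⟨f, Finset.mem_compl.2 (m.2 e1), h f, Finset.mem_compl.2 (m.2 e2), hf.symm⟩,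
    fun x hx y hy =>
      let ⟨k, hk, k1, e⟩ := a x y ((m.1 hx).trans e2.symm) ((m.1 hy).trans e2.symm)
      ⟨⟨k, hk⟩, fun z hz => k1 z (Finset.mem_filter.1 hz).2, e⟩⟩
  have c : Fintype.card (ι → U) < 2 * F.card := by
    obtain ⟨u, u1, -⟩ := ex_out hH.five d d d d
    obtain ⟨v, v1, v2, -⟩ := ex_out hH.five d u d d
    have k1 : (Fᶜ.image fun p => update p i u).card = Fᶜ.card := Finset.card_image_of_injOn fun p hp q hq e => by
      have := congrArg (fun p => update p i d) e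
      simp only [update_idem] at this
      rwa [← m.1 (Finset.mem_compl.1 hp), update_eq_self, m.1 (Finset.mem_compl.1 hp), ← m.1 (Finset.mem_compl.1 hq),
        update_eq_self] at this
    have k2 : (Fᶜ.image fun p => update p i u).card < F.card := Finset.card_lt_card ⟨fun p hp => by
      obtain ⟨q, -, rfl⟩ := Finset.mem_image.1 hp
      simpa [hF] using u1, fun s => by
      obtain ⟨q, -, e⟩ := Finset.mem_image.1 (s (show update f i v ∈ F by simpa [hF] using v1))
      exact v2 (by simpa using (congrFun e i).symm)⟩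
    have := Finset.card_add_card_compl F
    omega
  refine hH.na fun σ hσ => ?_
  obtain ⟨x, e⟩ := fl.alt (fl.qp_prim (qp hH) c) c σ hσ
  exact e ▸ x.2

end H13.PwR
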