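import Cfsg.Agent.H13.Cov
import Cfsg.Agent.H13.ReeTori2

/-! Products of two conjugates in the Ree group, part one: involutions are products of two conjugates of every
element of order greater than two and prime to three (`cov_j`). -/

set_option autoImplicit false
set_option backward.isDefEq.respectTransparency false

namespace H13
namespace Ree
open Cfsg.Lie H12 Matrix G2 MulAction H28 Subgroup
open scoped commutatorElement Pointwise MatrixGroups Classical

variable {K : Type*} [Field K] [Fintype K] {m : ℕ} [hK : IsRee K m]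

noncomputable instance instFintypeR : Fintype (R K m) := Fintype.ofFinite _
noncomputable instance instFintypeΩ : Fintype (Ω K m) := Fintype.ofFinite _

include hK in
theorem cast_q : (Fintype.card K : ZMod 3) = 0 := (ZMod.natCast_eq_zero_iff _ _).2 three_dvd_card

theorem sum_U {A : Type*} [AddCommMonoid A] (F : R K m → A) :
    ∑ v : U K m, F v = ∑ p : (K × K) × K, F (u m p.1.1 p.1.2 p.2) := by
  refine (Function.Bijective.sum_comp (e := fun p : (K × K) × K => (⟨u m p.1.1 p.1.2 p.2, u_mem_U _ _ _⟩ : U K m))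
    ⟨fun p q e => ?_, fun v => ?_⟩ fun v => F v).symm
  · obtain ⟨h1, h2, h3⟩ := u_inj.1 (congrArg Subtype.val e)
    exact Prod.ext (Prod.ext h1 h2) h3
  · obtain ⟨t, a, b, h⟩ := mem_U.1 v.2
    exact ⟨((t, a), b), Subtype.ext h.symm⟩

theorem sum_U_const (c : ZMod 3) : ∑ _v : U K m, c = 0 := by
  rw [Finset.sum_const, Finset.card_univ, ← Nat.card_eq_fintype_card, card_U]
  simp [cast_q]

theorem sum_Ω_one : ∑ _p : Ω K m, (1 : ZMod 3) = 1 := by
  rw [Finset.sum_const, Finset.card_univ, ← Nat.card_eq_fintype_card, card_Ω]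
  simp [cast_q]

theorem U_smul_ptInf {v : R K m} (hv : v ∈ U K m) : v • ptInf K m = ptInf K m := smul_ptInf_eq.2 (U_le_B hv)

theorem exists_U_smul {p : Ω K m} (hp : p ≠ ptInf K m) : ∃ v ∈ U K m, v • pt m (0 : K) 0 0 = p := by
  obtain ⟨t, a, b, rfl⟩ := (pt_cases p).resolve_left hp
  exact ⟨_, u_mem_U t a b, u_smul_zero t a b⟩

theorem eq_one_of_U_fix {v : R K m} (hv : v ∈ U K m) {p : Ω K m} (hp : p ≠ ptInf K m) (h : v • p = p) : v = 1 :=
  by_contra fun h1 => hp (fix_of_mem_U hv h1 h)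

theorem sum_U_smul (p p' : Ω K m) : ∑ v : U K m, (if (v : R K m) • p = p' then 1 else 0 : ZMod 3) =
    if p ≠ ptInf K m ∧ p' ≠ ptInf K m then 1 else 0 := by
  by_cases hp : p = ptInf K m
  · subst hp
    simp only [U_smul_ptInf (SetLike.coe_mem _), sum_U_const]
    simp
  by_cases hp' : p' = ptInf K m
  · subst hp'
    rw [if_neg (by simp)]
    refine Finset.sum_eq_zero fun v _ => if_neg fun e => hp ?_
    rw [← inv_smul_smul (v : R K m) p, e, U_smul_ptInf (inv_mem v.2)]
  obtain ⟨a, ha, rfl⟩ := exists_U_smul hp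
  obtain ⟨b, hb, rfl⟩ := exists_U_smul hp'
  rw [if_pos ⟨hp, hp'⟩, Finset.sum_eq_single ⟨b * a⁻¹, mul_mem hb (inv_mem ha)⟩]
  · simp [smul_smul]
  · refine fun v _ hv => if_neg fun e => hv (Subtype.ext ?_)
    have := eq_one_of_U_fix (mul_mem (mul_mem (inv_mem hb) v.2) ha) (pt_ne_ptInf 0 0 0)
      (by rw [mul_smul, mul_smul, e, inv_smul_smul])
    change (v : R K m) = b * a⁻¹
    rw [← mul_one b, ← this]; group
  · simp

/-- number of fixed points modulo three -/
noncomputable def fx (g : R K m) : ZMod 3 := ∑ p : Ω K m, if g • p = p then 1 else 0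

theorem fx_conj (a g : R K m) : fx (a * g * a⁻¹) = fx g := by
  refine (Fintype.sum_equiv (MulAction.toPerm a) _ _ fun p => ?_).symm
  simp [mul_smul]

theorem sum_fx (g : R K m) : ∑ v : U K m, fx (g * (v : R K m)) = if g ∈ B K m then 0 else -1 := by
  simp only [fx, mul_smul, ← eq_inv_smul_iff (g := g)]
  rw [Finset.sum_comm]
  simp only [sum_U_smul]
  have e : ∀ p : Ω K m, (if p ≠ ptInf K m ∧ g⁻¹ • p ≠ ptInf K m then 1 else 0 : ZMod 3) =
      1 - (if p = ptInf K m then 1 else 0) - (if p = g • ptInf K m then 1 else 0) +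
        if p = ptInf K m then (if g ∈ B K m then 1 else 0) else 0 := fun p => by
    simp only [← smul_ptInf_eq, ne_eq, inv_smul_eq_iff]
    generalize g • ptInf K m = y
    generalize ptInf K m = z
    by_cases h1 : p = z
    · subst h1
      by_cases h2 : y = p
      · simp [h2]
      · simp [h2, Ne.symm h2]
    · by_cases h2 : p = y
      · subst h2; simp [h1]
      · simp [h1, h2]
  simp only [e, Finset.sum_add_distrib, Finset.sum_sub_distrib, sum_Ω_one, Finset.sum_ite_eq', Finset.mem_univ,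
    if_true]
  split_ifs <;> ring

theorem z_comm (t a b c : K) : u m t a b * u m 0 0 c = u m 0 0 c * u m t a b := by simp [u_mul_u, add_comm]

theorem invol_mul_z {g : R K m} (hg : g ∈ B K m) (h : g * g = 1 ∧ g ≠ 1) (c : K) :
    g * u m 0 0 c * (g * u m 0 0 c) = 1 ∧ g * u m 0 0 c ≠ 1 := by
  have hU : g ∉ U K m := fun hU => h.2 (by
    have := pow_nine_of_mem_U hU
    rwa [show g ^ 9 = (g * g) ^ 4 * g by rw [← sq, ← pow_mul, ← pow_succ], h.1, one_pow, one_mul] at this)
  refine ⟨?_, fun e => hU (by rw [eq_inv_of_mul_eq_one_left e]; exact inv_mem (u_mem_U _ _ _))⟩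
  obtain ⟨t, a, b, s, rfl⟩ := mem_B.1 hg
  have h1 : s * s = 1 := by
    have := h.1
    rw [mul_assoc, ← mul_assoc (Ree.h m s), h_mul_u, mul_assoc, ← h_mul, ← mul_assoc, u_mul_u,
      ← mul_one (1 : R K m), ← u_zero (K := K) (m := m)] at this
    nth_rewrite 2 [u_zero] at this
    rw [← h_one (K := K) (m := m)] at this
    exact (uh_inj this).2
  rcases eq_of_sq h1 with rfl | rfl
  · exact absurd (by simp [u_mem_U]) hU
  · have h2 : u m t a b * j K m * u m 0 0 c = u m 0 0 (-c) * (u m t a b * j K m) := by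
      rw [mul_assoc, j_mul_u, neg_zero, ← mul_assoc, z_comm, mul_assoc]
    have h3 : u m 0 0 (-c) * u m (0 : K) 0 c = 1 := by simp [u_mul_u]
    calc _ = u m 0 0 (-c) * (u m t a b * j K m * (u m t a b * j K m)) * u m 0 0 c := by
          nth_rewrite 1 [h2]; simp only [mul_assoc]
      _ = 1 := by rw [h.1, mul_one, h3]

theorem hw_mul_hw (s : Kˣ) : h m s * w K m * (h m s * w K m) = 1 := by
  rw [mul_assoc, ← mul_assoc (w K m), w_h_w, ← h_mul, mul_inv_cancel, h_one]

theorem sum_invol (g : R K m) :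
    ∑ v : U K m, (if g * v * (g * v) = 1 ∧ g * v ≠ 1 then 1 else 0 : ZMod 3) = if g ∈ B K m then 0 else 1 := by
  split_ifs with hg
  · rw [sum_U (fun v => if g * v * (g * v) = 1 ∧ g * v ≠ 1 then (1 : ZMod 3) else 0), Fintype.sum_prod_type]
    refine Finset.sum_eq_zero fun p _ => ?_
    have e : ∀ c, (g * u m p.1 p.2 c * (g * u m p.1 p.2 c) = 1 ∧ g * u m p.1 p.2 c ≠ 1) ↔
        (g * u m p.1 p.2 0 * (g * u m p.1 p.2 0) = 1 ∧ g * u m p.1 p.2 0 ≠ 1) := fun c => by
      refine ⟨fun h => ?_, fun h => ?_⟩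
      · simpa [mul_assoc, u_mul_u] using invol_mul_z (mul_mem hg (u_mem_B _ _ _)) h (-c)
      · simpa [mul_assoc, u_mul_u] using invol_mul_z (mul_mem hg (u_mem_B _ _ _)) h c
    simp only [e]
    rw [Finset.sum_const, Finset.card_univ, nsmul_eq_mul, cast_q, zero_mul]
  · obtain ⟨t, a, b, s, rfl⟩ | ⟨t, a, b, s, t', a', b', rfl⟩ := bruhat g
    · exact absurd (mul_mem (u_mem_B _ _ _) (h_mem_B _)) hg
    set x := u m t a b
    set y := u m t' a' b'
    have hx : x ∈ U K m := u_mem_U _ _ _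
    have hy : y ∈ U K m := u_mem_U _ _ _
    rw [Finset.sum_eq_single ⟨y⁻¹ * x⁻¹, mul_mem (inv_mem hy) (inv_mem hx)⟩]
    · refine if_pos ⟨?_, fun e => hg ?_⟩
      · calc _ = x * (h m s * w K m * (h m s * w K m)) * x⁻¹ := by group
          _ = 1 := by rw [hw_mul_hw]; simp
      · rw [eq_inv_of_mul_eq_one_left e]
        exact inv_mem (U_le_B (mul_mem (inv_mem hy) (inv_mem hx)))
    · refine fun v _ hv => if_neg fun e => hv (Subtype.ext ?_)
      have h1 := congrArg (· • ptInf K m) e.1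
      simp only [mul_smul, one_smul, U_smul_ptInf v.2, U_smul_ptInf hy, w_smul_ptInf, h_smul_pt, mul_zero] at h1
      rw [← eq_inv_smul_iff, U_smul_ptInf (inv_mem hx), ← eq_inv_smul_iff, h_inv, h_smul_ptInf, ← eq_inv_smul_iff,
        w_inv, w_smul_ptInf, ← mul_smul, ← mul_smul] at h1
      have := eq_one_of_U_fix (mul_mem (mul_mem hy v.2) hx) (pt_ne_ptInf 0 0 0) h1
      change (v : R K m) = y⁻¹ * x⁻¹
      rw [← mul_one y⁻¹, ← this]; group
    · simp

theorem sum_mem (D : Subgroup (R K m)) (a b : R K m) :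
    ∑ g : R K m, (if a * g * b ∈ D then 1 else 0 : ZMod 3) = Nat.card D := by
  refine (Fintype.sum_equiv ((Equiv.mulLeft a).trans (Equiv.mulRight b)) _ (fun g => if g ∈ D then 1 else 0)
    fun _ => rfl).trans ?_
  rw [Finset.sum_boole, Nat.card_eq_fintype_card, Fintype.card_subtype]

theorem sum_pair (α β γ δ : Ω K m) : ∑ g : R K m, (if g • α = γ ∧ g • β = δ then 1 else 0 : ZMod 3) =
    if α ≠ β ∧ γ ≠ δ then -1 else 0 := by
  by_cases h1 : α = β
  · subst h1
    rw [if_neg (by simp)]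
    by_cases h2 : γ = δ
    · subst h2
      obtain ⟨a, rfl⟩ := exists_smul_ptInf α
      obtain ⟨b, rfl⟩ := exists_smul_ptInf γ
      have := sum_mem (B K m) b⁻¹ a
      rw [card_B] at this
      simp only [← smul_ptInf_eq, mul_smul, inv_smul_eq_iff] at this
      simpa [cast_q] using this
    · exact Finset.sum_eq_zero fun g _ => if_neg fun e => h2 (e.1.symm.trans e.2)
  by_cases h2 : γ = δ
  · rw [if_neg (by simp [h2])]
    exact Finset.sum_eq_zero fun g _ => if_neg fun e => h1 (smul_left_cancel g (e.1.trans (h2.trans e.2.symm)))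
  rw [if_pos ⟨h1, h2⟩]
  obtain ⟨a, rfl, rfl⟩ := exists_smul_eq_pair h1
  obtain ⟨b, rfl, rfl⟩ := exists_smul_eq_pair h2
  have := sum_mem (H K m) b⁻¹ a
  rw [card_H] at this
  simp only [mem_H_iff, mul_smul, inv_smul_eq_iff] at this
  rw [this, Nat.cast_sub (Nat.succ_le_of_lt Fintype.card_pos), cast_q]
  simp

theorem sum_fx_conj (x : R K m) : ∑ a, fx (x * a * x * a⁻¹) = -(1 - fx x) ^ 2 := by
  have e : ∀ (a : R K m) (γ : Ω K m), (if (x * a * x * a⁻¹) • γ = γ then 1 else 0 : ZMod 3) =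
      ∑ α, if a • α = γ ∧ a • x • α = x⁻¹ • γ then 1 else 0 := fun a γ => by
    rw [Finset.sum_eq_single (a⁻¹ • γ)]
    · simp [mul_smul, eq_inv_smul_iff]
    · exact fun α _ hα => if_neg fun e => hα (by rw [← e.1, inv_smul_smul])
    · simp
  have e2 : 1 - fx x = ∑ α : Ω K m, if x • α = α then 0 else 1 := by
    nth_rewrite 1 [← sum_Ω_one (K := K) (m := m)]
    rw [fx, ← Finset.sum_sub_distrib]
    exact Finset.sum_congr rfl fun α _ => by split_ifs <;> simp
  simp only [fx, e] at e2 ⊢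
  rw [Finset.sum_comm, e2, sq, Finset.sum_mul_sum, ← Finset.sum_neg_distrib]
  refine Finset.sum_congr rfl fun γ _ => ?_
  rw [Finset.sum_comm, ← Finset.sum_neg_distrib]
  refine Finset.sum_congr rfl fun α _ => ?_
  rw [sum_pair]
  simp only [ne_eq, eq_inv_smul_iff, eq_comm (a := α)]
  by_cases h1 : x • α = α <;> by_cases h2 : x • γ = γ <;> simp [h1, h2]

theorem fx_ne_one {x : R K m} (h2 : 2 < orderOf x) (h3 : ¬ 3 ∣ orderOf x) : 1 - fx x ≠ 0 := by
  by_cases hf : ∃ p : Ω K m, x • p = p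
  · obtain ⟨p, hp⟩ := hf
    obtain ⟨g, a, rfl, ha⟩ := fix_cases' hp (by rintro rfl; simp at h2)
    rw [orderOf_conj'] at h2 h3
    rcases ha with ⟨ha, -⟩ | rfl | ⟨y, hy, rfl⟩ | ⟨s, h1, h1', rfl⟩
    · have := (Nat.dvd_prime_pow Nat.prime_three (m := 2)).1 (orderOf_dvd_of_pow_eq_one (pow_nine_of_mem_U ha))
      obtain ⟨k, -, hk⟩ := this
      rcases k with _ | k
      · simp [hk] at h2
      · exact absurd (hk ▸ dvd_pow_self 3 k.succ_ne_zero) h3
    · rw [orderOf_j] at h2; omega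
    · rw [orderOf_uj hy] at h3; omega
    · rw [fx_conj, fx, Finset.sum_eq_add (ptInf K m) (pt m 0 0 0) (pt_ne_ptInf 0 0 0).symm]
      · simp only [h_smul_ptInf, h_smul_pt, mul_zero, if_true]; decide
      · exact fun p _ hp => if_neg fun e => (fix_h h1 h1' e).elim hp.1 hp.2
      · simp
      · simp
  · rw [fx, Finset.sum_eq_zero fun p _ => if_neg fun e => hf ⟨p, e⟩]
    decide

theorem cov_j {x : R K m} (h2 : 2 < orderOf x) (h3 : ¬ 3 ∣ orderOf x) : Cov x (j K m) := by
  by_contra hc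
  have := gow (p := 3) isPGroup_U (f := fun g : R K m => (if g * g = 1 ∧ g ≠ 1 then 1 else 0) + fx g - 1)
    (fun a b => by
      have : a * b * a⁻¹ * (a * b * a⁻¹) = a * (b * b) * a⁻¹ := by group
      simp only [fx_conj, this, ne_eq, mul_inv_eq_iff_eq_mul, one_mul, mul_eq_left])
    (fun g => by
      rw [finsum_eq_sum_of_fintype, Finset.sum_sub_distrib, Finset.sum_add_distrib, sum_invol, sum_fx, sum_U_const]
      split_ifs <;> simp) x x
  rw [Finset.sum_sub_distrib, Finset.sum_add_distrib, sum_fx_conj, Finset.sum_eq_zero, Finset.sum_const,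
    Finset.card_univ, ← Nat.card_eq_fintype_card, card_R] at this
  · exact fx_ne_one h2 h3 (by simpa [cast_q] using this)
  · refine fun a _ => if_neg fun e => hc ?_
    obtain ⟨g, hg⟩ := exists_conj_j e.2 e.1
    exact ⟨g⁻¹, g⁻¹ * a, by rw [← mul_left_inj g⁻¹, ← mul_right_inj g, ← mul_assoc, ← hg]; group⟩

end Ree
end H13
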