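import Cfsg.Agent.H13.ReeTh1

/-! Products of two conjugates in the Ree group, part two: the trace `tr7` separates the classes of elements of order
prime to three (`conj_of_tr`), regular semisimple elements are real (`Rs.real`), `cov_X`, `cov_T`, and the orders of
centralisers (`Rs.card_le`, `card_cent_nine`, `card_cent_six`). -/

set_option autoImplicit false
set_option backward.isDefEq.respectTransparency false

namespace H13
namespace Ree
open Cfsg.Lie H12 Matrix G2 MulAction H28 Subgroup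
open scoped commutatorElement Pointwise MatrixGroups Classical

variable {K : Type*} [Field K] [Fintype K] {m : ℕ} [hK : IsRee K m]

/-- the trace in the seven-dimensional representation -/
noncomputable def tr7 (g : R K m) : K := (ρ K m g).trace

theorem tr7_conj (a g : R K m) : tr7 (a * g * a⁻¹) = tr7 g := by
  rw [tr7, map_mul, trace_mul_comm, ← map_mul, inv_mul_cancel_left, tr7]

theorem tr7_of_isConj {x y : R K m} (h : IsConj x y) : tr7 y = tr7 x := by
  obtain ⟨a, rfl⟩ := isConj_iff.1 h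
  exact tr7_conj a x

theorem tr7_pow (g : R K m) : tr7 (g ^ Fintype.card K) = tr7 g := by
  rw [tr7, map_pow, FiniteField.trace_pow_card, FiniteField.pow_card, tr7]

theorem tr7_hwu (s : Kˣ) (t a b : K) : tr7 (h m s * w K m * u m t a b) =
    (ph m (s : K) * s ^ 2)⁻¹ * (b ^ 2 + t * a * b + ph m a * a - ph m b * t + ph m t * t ^ 3 * a - ph m t ^ 2 * t ^ 4) +
      (ph m (s : K) * s)⁻¹ * (a ^ 2 - ph m t * b - ph m t * t * a) + (s : K)⁻¹ * t ^ 2 - 1 := by
  rw [tr7, map_mul, map_mul, ρ_h, ρ_w, ρ_u, d7_eq, W7, U7]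
  simp [trace, Fin.sum_univ_succ, Matrix.mul_apply]
  ring

theorem tr7_j : tr7 (j K m) = -1 := by
  rw [tr7, ρ_h, d7_eq]
  simp [trace, Fin.sum_univ_succ]

/-- elements of order greater than two and prime to three -/
def Rs (g : R K m) : Prop := g * g ≠ 1 ∧ ¬ 3 ∣ orderOf g

theorem Rs.cases {A₁ A₂ : Subgroup (R K m)} {k₁ k₂ n₁ n₂ : ℕ} (P₁ : Pkg A₁ A₁ k₁ n₁) (P₂ : Pkg A₂ A₂ k₂ n₂)
    (hk : nE K = k₁ * k₂) {g : R K m} (hg : Rs g) : ∃ k a, g = k * a * k⁻¹ ∧ a * a ≠ 1 ∧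
      (a ∈ H K m ∨ a ∈ M K m ∨ a ∈ A₁ ∨ a ∈ A₂) := by
  obtain ⟨p, hp, h2, hd⟩ := exists_odd_prime hg.1
  have key : ∀ {D : Subgroup (R K m)}, (∃ k, ∃ b ∈ D, g = k * b * k⁻¹) → ∃ k a, g = k * a * k⁻¹ ∧ a * a ≠ 1 ∧ a ∈ D := by
    rintro D ⟨k, b, hb, rfl⟩
    exact ⟨k, b, rfl, fun e => hg.1 (by rw [conj_mul, e]; simp), hb⟩
  have key2 : ∀ {A : Subgroup (R K m)} {k n : ℕ}, Pkg A A k n → p ∣ k → ∃ k, ∃ b ∈ A, g = k * b * k⁻¹ := by
    intro A k n P hk
    obtain ⟨x, hx, ho⟩ := exists_prime_pow hp hd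
    obtain ⟨c, a, ha, rfl⟩ := P.conj x (ho ▸ hk)
    refine ⟨c, mem_conjSet_of_commute (P.cent a ha ?_) hx⟩
    rintro rfl
    exact hp.one_lt.ne (by simpa using ho)
  rcases order_cases g with h | h | h | h | h
  · obtain ⟨k, -, hk⟩ := (Nat.dvd_prime_pow Nat.prime_three (m := 2)).1 h
    rcases k with _ | k
    · exact absurd (by simp [orderOf_eq_one_iff.1 (hk.trans (pow_zero _))]) hg.1
    · exact absurd (hk ▸ dvd_pow_self 3 k.succ_ne_zero) hg.2
  · exact absurd (by rw [mem_conjSet_X6.1 h]; norm_num) hg.2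
  · obtain ⟨k, a, e, h1, h3⟩ := key (conj_H_of_dvd hp h2 (hd.trans h) hd)
    exact ⟨k, a, e, h1, Or.inl h3⟩
  · obtain ⟨k, a, e, h1, h3⟩ := key (conj_M_of_dvd hp h2 ((hd.trans h).trans half_dvd) hd)
    exact ⟨k, a, e, h1, Or.inr (Or.inl h3)⟩
  · rcases hp.dvd_mul.1 (hk ▸ hd.trans h) with h | h
    · obtain ⟨k, a, e, h1, h3⟩ := key (key2 P₁ h)
      exact ⟨k, a, e, h1, Or.inr (Or.inr (Or.inl h3))⟩
    · obtain ⟨k, a, e, h1, h3⟩ := key (key2 P₂ h)
      exact ⟨k, a, e, h1, Or.inr (Or.inr (Or.inr h3))⟩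

theorem cent_H {a : R K m} (ha : a ∈ H K m) (h2 : a * a ≠ 1) : centralizer {a} = H K m := by
  obtain ⟨s, rfl⟩ := mem_H.1 ha
  refine centralizer_h ?_ ?_ <;> rintro rfl
  · simp at h2
  · exact h2 j_mul_j

theorem card_cent_conj {G : Type*} [Group G] (k a : G) :
    Nat.card (centralizer {k * a * k⁻¹}) = Nat.card (centralizer {a}) :=
  Nat.card_congr (Equiv.subtypeEquiv (MulAut.conj k⁻¹).toEquiv fun g => by
    simp only [mem_centralizer_singleton_iff, MulEquiv.toEquiv_eq_coe, EquivLike.coe_coe, MulAut.conj_apply, inv_inv]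
    exact ⟨fun h => by rw [← mul_right_inj k, ← mul_left_inj k⁻¹]; simpa [mul_assoc] using h,
      fun h => by rw [← mul_right_inj k⁻¹, ← mul_left_inj k]; simpa [mul_assoc] using h⟩)

theorem Rs.card_le (hm : 1 ≤ m) {g : R K m} (hg : Rs g) :
    Nat.card (centralizer {g}) ≤ 2 * Fintype.card K ∧ ¬ 3 ∣ Nat.card (centralizer {g}) := by
  obtain ⟨⟨A₁, P₁⟩, ⟨A₂, P₂⟩, hk⟩ := exists_pkg_E (K := K) hm
  have h1 := r_le (K := K) hm
  have h2 := three_dvd_card (K := K)
  have h3 := le_card (K := K) hm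
  have h4 : 3 ∣ 3 ^ (m + 1) := dvd_pow_self 3 m.succ_ne_zero
  obtain ⟨k, a, rfl, ha, h⟩ := hg.cases P₂ P₁ hk
  have h5 : a ≠ 1 := by rintro rfl; simp at ha
  rw [card_cent_conj]
  rcases h with h | h | h | h
  · rw [cent_H h ha, card_H]; omega
  · rw [centralizer_eq_M h ha, card_M]; omega
  · rw [P₂.cent a h h5, P₂.card]; omega
  · rw [P₁.cent a h h5, P₁.card]; omega

theorem ncard_add_le {G : Type*} [Group G] [Finite G] {D : Subgroup G} {S : Set G} (hS : ∀ a ∈ S, a ∈ D ∧ a * a = 1) :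
    {a | a ∈ D ∧ a * a ≠ 1}.ncard + S.ncard ≤ Nat.card D := by
  rw [← Set.ncard_union_eq (Set.disjoint_left.2 fun a ha hb => ha.2 (hS a hb).2), ← SetLike.coe_sort_coe,
    Nat.card_coe_set_eq]
  exact Set.ncard_le_ncard (Set.union_subset (fun a ha => ha.1) fun a ha => (hS a ha).1)

theorem sq_conj_ne {G : Type*} [Group G] {a : G} (n : G) (h : a * a ≠ 1) : n * a * n⁻¹ * (n * a * n⁻¹) ≠ 1 := by
  rw [conj_mul]; simpa using h

theorem card_classes (hm : 1 ≤ m) : (ConjClasses.mk '' {g : R K m | ¬ 3 ∣ orderOf g}).ncard ≤ Fintype.card K := by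
  obtain ⟨⟨A₁, P₁⟩, ⟨A₂, P₂⟩, hk⟩ := exists_pkg_E (K := K) hm
  have h1 := r_le (K := K) hm
  have h3 := le_card (K := K) hm
  have key : ∀ {D N : Subgroup (R K m)} {e : ℕ}, (∀ y ∈ D, y * y ≠ 1 → centralizer {y} = D) →
      N ≤ normalizer (D : Set (R K m)) → D ≤ N → Nat.card N = e * Nat.card D →
      e * (ConjClasses.mk '' {a | a ∈ D ∧ a * a ≠ 1}).ncard ≤ {a | a ∈ D ∧ a * a ≠ 1}.ncard :=
    fun h1 h2 h3 h4 => mul_card_classes_le (fun y hy => h1 y hy.1 hy.2)
      (fun n hn y hy => ⟨(mem_normalizer_iff.1 (h2 hn) y).1 hy.1, sq_conj_ne n hy.2⟩) h3 h4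
  have key2 : ∀ {A : Subgroup (R K m)} {k : ℕ}, Pkg A A k (6 * k) →
      6 * (ConjClasses.mk '' {a | a ∈ A ∧ a * a ≠ 1}).ncard + 1 ≤ k := fun {A k} P => by
    have := key (fun y hy h => P.cent y hy (by rintro rfl; simp at h)) le_rfl le_normalizer
      (by rw [P.card_norm, P.card])
    have h2 := ncard_add_le (D := A) (S := {1}) (by simp)
    rw [Set.ncard_singleton, P.card] at h2
    omega
  have a1 := key2 P₁
  have a2 := key2 P₂
  have a3 := mul_card_classes_le (S := {a | a ∈ H K m ∧ a * a ≠ 1}) (e := 2) (fun y hy => cent_H hy.1 hy.2)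
    (fun n hn y hy => ⟨conj_mem_H hn hy.1, sq_conj_ne n hy.2⟩) H_le_N (by rw [card_N, card_H])
  have a4 := key (fun y hy h => centralizer_eq_M hy h) le_rfl le_normalizer (by rw [card_normalizer_M, card_M])
  have b3 := ncard_add_le (D := H K m) (S := {1, j K m}) (by simp [h_mem_H, j_mul_j])
  have b4 := ncard_add_le (D := M K m) (S := {1, j K m, w K m, j K m * w K m})
    (by simp [j_mem_M, w_mem_M, jw_mem_M, j_mul_j, w_mul_w, jw_mul_jw])
  rw [Set.ncard_pair j_ne_one.symm, card_H] at b3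
  rw [Set.ncard_insert_of_notMem (by simp [j_ne_one.symm, w_ne_one.symm, jw_ne_one.symm]),
    Set.ncard_insert_of_notMem (by simp [w_ne_j.symm, jw_ne_j.symm, w_ne_one]), Set.ncard_pair jw_ne_w.symm, card_M] at b4
  have c : ConjClasses.mk '' {g : R K m | ¬ 3 ∣ orderOf g} ⊆ {ConjClasses.mk 1, ConjClasses.mk (j K m)} ∪
      (ConjClasses.mk '' {a | a ∈ H K m ∧ a * a ≠ 1} ∪ (ConjClasses.mk '' {a | a ∈ M K m ∧ a * a ≠ 1} ∪
      (ConjClasses.mk '' {a | a ∈ A₂ ∧ a * a ≠ 1} ∪ ConjClasses.mk '' {a | a ∈ A₁ ∧ a * a ≠ 1}))) := by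
    rintro _ ⟨g, hg, rfl⟩
    have e : ∀ k a : R K m, ConjClasses.mk a = ConjClasses.mk (k * a * k⁻¹) := fun k a =>
      ConjClasses.mk_eq_mk_iff_isConj.2 (isConj_iff.2 ⟨k, rfl⟩)
    by_cases h2 : g * g = 1
    · by_cases h4 : g = 1
      · exact Or.inl (Or.inl (by rw [h4]))
      · obtain ⟨k, rfl⟩ := exists_conj_j h4 h2
        exact Or.inl (Or.inr (e k _).symm)
    obtain ⟨k, a, rfl, ha, h | h | h | h⟩ := Rs.cases P₂ P₁ hk ⟨h2, hg⟩
    · exact Or.inr (Or.inl ⟨a, ⟨h, ha⟩, e k a⟩)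
    · exact Or.inr (Or.inr (Or.inl ⟨a, ⟨h, ha⟩, e k a⟩))
    · exact Or.inr (Or.inr (Or.inr (Or.inl ⟨a, ⟨h, ha⟩, e k a⟩)))
    · exact Or.inr (Or.inr (Or.inr (Or.inr ⟨a, ⟨h, ha⟩, e k a⟩)))
  have d := (Set.ncard_le_ncard c).trans ((Set.ncard_union_le _ _).trans (Nat.add_le_add (Set.ncard_insert_le _ _)
    ((Set.ncard_union_le _ _).trans (Nat.add_le_add le_rfl ((Set.ncard_union_le _ _).trans
      (Nat.add_le_add le_rfl (Set.ncard_union_le _ _)))))))
  rw [Set.ncard_singleton] at d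
  omega

theorem not_three_pow (hm : 1 ≤ m) (g : R K m) : ¬ 3 ∣ orderOf (g ^ Fintype.card K) := by
  have h9 : 9 ∣ Fintype.card K := hK.card ▸ pow_dvd_pow 3 (show 2 ≤ 2 * m + 1 by omega)
  have h := dvd_facts (K := K) (orderOf g)
  have k : ¬ 3 ∣ orderOf g → ¬ 3 ∣ orderOf (g ^ Fintype.card K) := fun h e => h (e.trans (orderOf_pow_dvd _))
  rcases order_cases g with h1 | h1 | h1 | h1 | h1
  · rw [orderOf_dvd_iff_pow_eq_one.1 (h1.trans h9)]; simp
  · have : orderOf (g ^ Fintype.card K) ∣ 2 := by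
      rw [orderOf_dvd_iff_pow_eq_one, ← pow_mul, ← orderOf_dvd_iff_pow_eq_one, mem_conjSet_X6.1 h1]
      omega
    intro e
    exact absurd (Nat.le_of_dvd two_pos (e.trans this)) (by norm_num)
  · exact k (h.1 h1)
  · exact k (h.2.1 (h1.trans half_dvd))
  · exact k (h.2.2.1 h1).1

theorem exists_hwz {σ : K} (hσ : σ ≠ -1) : ∃ s : Kˣ, tr7 (h m s * w K m * u m 0 0 1) = σ := by
  obtain ⟨s, hs⟩ := ph_mul_sq_surjective (m := m) (σ + 1)⁻¹ (inv_ne_zero fun e => hσ (eq_neg_of_add_eq_zero_left e))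
  exact ⟨s, by simp [tr7_hwu, hs]⟩

theorem conj_of_tr' (hm : 1 ≤ m) {x y : R K m} (hx : ¬ 3 ∣ orderOf x) (hy : ¬ 3 ∣ orderOf y) (h : tr7 y = tr7 x) :
    IsConj x y := by
  have : ∀ σ : K, ∃ g : R K m, ¬ 3 ∣ orderOf g ∧ tr7 g = σ := fun σ => by
    by_cases hσ : σ = -1
    · exact ⟨j K m, by rw [orderOf_j]; norm_num, hσ ▸ tr7_j⟩
    · obtain ⟨s, hs⟩ := exists_hwz (m := m) hσ
      exact ⟨_, not_three_pow hm _, (tr7_pow _).trans hs⟩
  choose e he1 he2 using this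
  have hi : Function.Injective fun σ => ConjClasses.mk (e σ) := fun σ τ h => by
    rw [← he2 σ, ← he2 τ, tr7_of_isConj (ConjClasses.mk_eq_mk_iff_isConj.1 h)]
  have hs : Set.range (fun σ => ConjClasses.mk (e σ)) = ConjClasses.mk '' {g : R K m | ¬ 3 ∣ orderOf g} :=
    Set.eq_of_subset_of_ncard_le (by rintro _ ⟨σ, rfl⟩; exact ⟨_, he1 σ, rfl⟩)
      (by rw [Set.ncard_range_of_injective hi, Nat.card_eq_fintype_card]; exact card_classes hm)
  have k : ∀ {z : R K m}, ¬ 3 ∣ orderOf z → IsConj (e (tr7 z)) z := fun {z} hz => by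
    obtain ⟨σ, hσ⟩ := hs.ge ⟨z, hz, rfl⟩
    have := ConjClasses.mk_eq_mk_iff_isConj.1 hσ
    rwa [tr7_of_isConj this, he2]
  exact (k hx).symm.trans (h ▸ k hy)

theorem Rs.conj {x : R K m} (hx : Rs x) (k : R K m) : Rs (k * x * k⁻¹) :=
  ⟨sq_conj_ne k hx.1, by rw [orderOf_conj']; exact hx.2⟩

theorem conj_of_tr (hm : 1 ≤ m) {x y : R K m} (hx : Rs x) (h : tr7 y = tr7 x) : IsConj x y := by
  obtain ⟨k, hk⟩ := isConj_iff.1 (conj_of_tr' hm hx.2 (not_three_pow hm y) ((tr7_pow y).trans h))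
  refine conj_of_tr' hm hx.2 (fun e => ((hx.conj k).card_le hm).2 (e.trans (orderOf_dvd_natCard _ ?_))) h
  rw [hk, mem_centralizer_singleton_iff, ← pow_succ, ← pow_succ']

theorem isConj_hwu (s : Kˣ) (v : R K m) : IsConj (h m s * w K m * v)⁻¹ (h m s * w K m * (j K m * v⁻¹ * j K m)) := by
  refine isConj_iff.2 ⟨j K m * (h m s * w K m), ?_⟩
  have e : (h m s * w K m)⁻¹ = h m s * w K m := inv_eq_of_mul_eq_one_right (hw_mul_hw s)
  have e2 : j K m * (h m s * w K m) = h m s * w K m * j K m := by rw [← mul_assoc, j_mul_h, mul_assoc, j_mul_w, mul_assoc]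
  rw [_root_.mul_inv_rev _ v, _root_.mul_inv_rev (j K m), e, j_inv, e2]
  calc _ = h m s * w K m * j K m * v⁻¹ * (h m s * w K m * (h m s * w K m)) * j K m := by simp only [mul_assoc]
    _ = _ := by rw [hw_mul_hw]; simp only [mul_assoc, one_mul]

theorem j_inv_j (t a b : K) : j K m * (u m t a b)⁻¹ * j K m = u m t (-a - t * ph m t) (b + a * t - t ^ 2 * ph m t) := by
  rw [u_inv, j_mul_u, mul_assoc, j_mul_j, mul_one, u_inj]
  exact ⟨by ring, rfl, by ring⟩

theorem Rs.exists_hwz (hm : 1 ≤ m) {x : R K m} (hx : Rs x) : ∃ s, IsConj x (h m s * w K m * u m 0 0 1) := by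
  obtain ⟨s, hs⟩ := Ree.exists_hwz (m := m) (σ := tr7 x) fun e => by
    obtain ⟨k, hk⟩ := isConj_iff.1 (conj_of_tr hm hx (tr7_j.trans e.symm))
    exact (hx.conj k).1 (hk ▸ j_mul_j)
  exact ⟨s, conj_of_tr hm hx hs⟩

theorem Rs.real (hm : 1 ≤ m) {x c : R K m} (hx : Rs x) (hc : IsConj x c) : IsConj x c⁻¹ := by
  obtain ⟨s, hs⟩ := hx.exists_hwz hm
  have := isConj_hwu s (u m (0 : K) 0 1)
  rw [j_inv_j] at this
  simp only [neg_zero, map_zero, mul_zero, sub_zero, add_zero] at this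
  obtain ⟨k, rfl⟩ := isConj_iff.1 (hs.symm.trans hc)
  exact (hs.trans this.symm).trans (isConj_iff.2 ⟨k, by group⟩)

theorem Rs.cov_inv (hm : 1 ≤ m) {x g : R K m} (hx : Rs x) (h : Cov x g) : Cov x g⁻¹ := by
  obtain ⟨a, b, rfl⟩ := h
  rw [_root_.mul_inv_rev]
  exact cov_mul (hx.real hm (isConj_iff.2 ⟨b, rfl⟩)) (hx.real hm (isConj_iff.2 ⟨a, rfl⟩))

theorem cov_X (hm : 1 ≤ m) {x : R K m} (hx : Rs x) {b : K} (hb : b ≠ 0) : Cov x (u m 0 0 b) := by
  obtain ⟨s, hs⟩ := hx.exists_hwz hm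
  have h1 : IsConj x (h m s * w K m * u m 0 0 (-1)) := conj_of_tr hm hx (by
    rw [← tr7_of_isConj hs]; simp [tr7_hwu])
  have h2 := cov_mul (hx.real hm hs) h1
  have h3 : (h m s * w K m * u m 0 0 1)⁻¹ * (h m s * w K m * u m 0 0 (-1)) = u m (0 : K) 0 1 := by
    rw [_root_.mul_inv_rev, mul_assoc, inv_mul_cancel_left, u_inv, u_mul_u, u_inj]
    refine ⟨by simp, by simp, ?_⟩
    simp only [map_zero]
    linear_combination (-1 : K) * three_eq_zero (K := K)
  obtain ⟨k, hk⟩ := ph_mul_sq_surjective (m := m) b hb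
  have := (h3 ▸ h2).conj (h m k)
  rwa [h_conj_u, mul_zero, mul_zero, mul_one, hk] at this

theorem cov_T_of (hm : 1 ≤ m) {x : R K m} (hx : Rs x) {a b a' b' : K} (ha : a ≠ 0) (ha' : a' ≠ 0)
    (h : Cov x (u m 0 a' b')) : Cov x (u m 0 a b) := by
  have k1 : ∀ {a b b' : K}, a ≠ 0 → Cov x (u m 0 a b') → Cov x (u m 0 a b) := fun {a b b'} ha h => by
    obtain ⟨c, rfl⟩ : ∃ c, b = b' + c * a := ⟨(b - b') / a, by field_simp; ring⟩
    have := h.conj (u m c 0 0)
    rw [u_inv, u_mul_u, u_mul_u] at this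
    convert this using 2
    · simp
    · simp
    · simp only [map_zero, map_neg]
      linear_combination (-c ^ 2 * ph m c) * three_eq_zero (K := K)
  have k2 : ∀ {a' b' : K}, a' ≠ 0 → IsSquare (a / a') → Cov x (u m 0 a' b') → Cov x (u m 0 a b) :=
    fun {a' b'} ha' ⟨c, hc⟩ h => by
      have hc0 : c ≠ 0 := by rintro rfl; simp [ha, ha'] at hc
      obtain ⟨s, hs⟩ := exists_ph_mul (m := m) (Units.mk0 c hc0)
      have := h.conj (Ree.h m s)
      rw [h_conj_u, hs, Units.val_mk0, ← hc, div_mul_cancel₀ _ ha', mul_zero] at this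
      exact k1 ha this
  by_cases hs : IsSquare (a / a')
  · exact k2 ha' hs h
  · have h1 := hx.cov_inv hm h
    rw [u_inv] at h1
    simp only [neg_zero, map_zero, mul_zero, sub_zero] at h1
    refine k2 (neg_ne_zero.2 ha') ?_ h1
    have h0 : a / a' ≠ 0 := div_ne_zero ha ha'
    rw [div_neg, ← quadraticChar_one_iff_isSquare (neg_ne_zero.2 h0), ← neg_one_mul, map_mul,
      quadraticChar_neg_one_iff_not_isSquare.2 hs, quadraticChar_neg_one_iff_not_isSquare.2
        fun ⟨c, hc⟩ => mul_self_ne_neg_one c hc.symm]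
    simp

theorem card_roots (hm : 1 ≤ m) {α : K} (hα : α ≠ 0) (β γ δ : K) :
    (Finset.univ.filter fun b : K => α * b ^ 2 + β * ph m b + γ * b + δ = 0).card ≤ 3 ^ (m + 1) := by
  have h9 : 9 ≤ 3 ^ (m + 1) := Nat.pow_le_pow_right (n := 3) (by norm_num) (show 2 ≤ m + 1 by omega)
  let p : Polynomial K := Polynomial.C α * Polynomial.X ^ 2 + Polynomial.C β * Polynomial.X ^ 3 ^ (m + 1) +
    Polynomial.C γ * Polynomial.X + Polynomial.C δ
  have h0 : p ≠ 0 := fun e => hα (by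
    have := congrArg (Polynomial.coeff · 2) e
    simpa [p, Polynomial.coeff_X_pow, Polynomial.coeff_X, Polynomial.coeff_C, show 2 ≠ 3 ^ (m + 1) by omega] using this)
  refine (Polynomial.card_le_degree_of_subset_roots (p := p) fun b hb => ?_).trans ?_
  · rw [Polynomial.mem_roots h0]
    simpa [p, ph_def] using hb
  · simp only [p]
    compute_degree
    omega

theorem cov_T (hm : 1 ≤ m) {x : R K m} (hx : Rs x) {a : K} (ha : a ≠ 0) (b : K) : Cov x (u m 0 a b) := by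
  by_contra hc
  let F : ((K × K × K) × Kˣ × K) × K → R K m := fun p => u m p.1.1.1 p.1.1.2.1 p.1.1.2.2 *
    (h m p.1.2.1 * w K m * u m p.1.2.2 (p.1.2.2 * ph m p.1.2.2) p.2) * (u m p.1.1.1 p.1.1.2.1 p.1.1.2.2)⁻¹
  let T := Finset.univ.filter fun p => tr7 (F p) = tr7 x
  have h1 : {c | ∃ n ∈ (⊤ : Subgroup (R K m)), n * x * n⁻¹ = c} ⊆ (B K m : Set (R K m)) ∪ F '' T := by
    rintro c ⟨n, -, hn⟩
    have hxc : IsConj x c := isConj_iff.2 ⟨n, hn⟩
    obtain ⟨t, a, b, s, rfl⟩ | ⟨t, a, b, s, t', a', b', rfl⟩ := bruhat c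
    · exact Or.inl (mul_mem (u_mem_B _ _ _) (h_mem_B _))
    obtain ⟨t1, a1, b1, e⟩ := mem_U.1 (mul_mem (u_mem_U t' a' b') (u_mem_U (m := m) t a b))
    have e1 : u m t a b * h m s * w K m * u m t' a' b' = u m t a b * (h m s * w K m * u m t1 a1 b1) * (u m t a b)⁻¹ := by
      rw [← e]; group
    rw [e1] at hxc ⊢
    have h2 : IsConj x (h m s * w K m * u m t1 a1 b1) := hxc.trans (isConj_iff.2 ⟨_, rfl⟩).symm
    have h3 := cov_mul (hx.real hm h2) ((hx.real hm h2).trans (isConj_hwu _ _))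
    rw [_root_.mul_inv_rev, mul_assoc, inv_mul_cancel_left, j_inv_j, u_inv, u_mul_u, neg_add_cancel] at h3
    have h4 : a1 = t1 * ph m t1 := by_contra fun h4 => hc (cov_T_of hm hx ha (fun e => h4 ?_) h3)
    · subst h4
      exact Or.inr ⟨(((t, a, b), s, t1), b1), by simpa [T, F] using tr7_of_isConj hxc, rfl⟩
    · linear_combination e + (a1 : K) * three_eq_zero (K := K)
  have h2 : T.card ≤ 3 ^ (m + 1) * (Finset.univ : Finset ((K × K × K) × Kˣ × K)).card := by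
    refine Finset.card_le_mul_card_image_of_maps_to (f := Prod.fst) (fun _ _ => Finset.mem_univ _) _ fun p _ => ?_
    obtain ⟨v, s, t⟩ := p
    have hα : (ph m (s : K) * s ^ 2)⁻¹ ≠ 0 := by simp
    refine le_trans ?_ (card_roots hm hα (-(ph m (s : K) * s ^ 2)⁻¹ * t)
      ((ph m (s : K) * s ^ 2)⁻¹ * (t * (t * ph m t)) - (ph m (s : K) * s)⁻¹ * ph m t)
      (tr7 (h m s * w K m * u m t (t * ph m t) 0) - tr7 x))
    refine Finset.card_le_card_of_injOn Prod.snd (fun p hp => ?_) fun p hp q hq e => ?_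
    · simp only [T, F, Finset.coe_filter, Finset.mem_filter, Finset.mem_univ, true_and, Set.mem_ofPred_eq,
        tr7_conj] at hp ⊢
      rw [← hp.1, hp.2, tr7_hwu, tr7_hwu, map_zero]
      ring
    · exact Prod.ext ((Finset.mem_filter.1 hp).2.trans (Finset.mem_filter.1 hq).2.symm) e
  have h3 := card_eq_ncard_mul ⊤ x _ fun _ => Iff.rfl
  have h4 := (Set.ncard_le_ncard h1).trans ((Set.ncard_union_le _ _).trans
    (Nat.add_le_add le_rfl ((Set.ncard_image_le (Set.toFinite _)).trans ((Set.ncard_coe_finset _).le.trans h2))))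
  rw [← Nat.card_coe_set_eq (B K m : Set (R K m)), SetLike.coe_sort_coe, card_B] at h4
  rw [card_top, top_inf_eq, card_R] at h3
  have h5 := h3.le.trans (Nat.mul_le_mul h4 (hx.card_le hm).1)
  simp only [Finset.card_univ, Fintype.card_prod, Fintype.card_units] at h5
  have h6 := r_le (K := K) hm
  have h7 := le_card (K := K) hm
  generalize 3 ^ (m + 1) = r at *
  generalize Fintype.card K = q at *
  obtain ⟨n, rfl⟩ : ∃ n, q = n + 1 := ⟨q - 1, by omega⟩
  rw [Nat.add_sub_cancel] at h5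
  have h8 : (n + 1) ^ 3 + 1 ≤ (1 + r * (n + 1)) * (2 * (n + 1)) :=
    Nat.le_of_mul_le_mul_left (c := (n + 1) ^ 3 * n) (h5.trans_eq (by ring)) (Nat.mul_pos (by positivity) (by omega))
  nlinarith [Nat.mul_le_mul_right ((n + 1) ^ 2) h6, Nat.mul_le_mul_right (n + 1) h7,
    Nat.mul_le_mul_right ((n + 1) ^ 2) h7]

theorem card_cent_nine {t : K} (ht : t ≠ 0) (a b : K) : Nat.card (centralizer {u m t a b}) ≤ 3 * Fintype.card K := by
  have h : (centralizer {u m t a b} : Set (R K m)) ⊆ (fun p : K × K => u m p.1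
      ((a * p.1 + t ^ 2 * ph m p.1 - p.1 ^ 2 * ph m t - t * p.1 * ph m p.1 + p.1 * t * ph m t) / t) p.2) ''
      (({0, t, -t} : Set K) ×ˢ Set.univ) := by
    intro g hg
    have hg' := mem_centralizer_singleton_iff.1 hg
    obtain ⟨t', a', b', s, rfl⟩ := mem_B.1 (mem_B_of_commute (u_mem_U t a b) (u_ne_one (Or.inl ht)) hg')
    rw [mul_assoc, h_mul_u, ← mul_assoc, ← mul_assoc, mul_left_inj, u_mul_u, u_mul_u, u_inj] at hg'
    obtain rfl : s = 1 := Units.ext (mul_right_cancel₀ ht (by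
      rw [Units.val_one]; linear_combination hg'.1))
    simp only [Units.val_one, one_mul, map_one, one_pow, mul_one] at hg'
    refine ⟨(t', b'), ⟨?_, trivial⟩, ?_⟩
    · have h1 : ph m (t' / t) = t' / t := by
        have : ph m t ≠ 0 := by simpa using ht
        rw [map_div₀, div_eq_div_iff this ht]
        linear_combination hg'.2.1
      have h2 : (t' / t) ^ 3 = t' / t := by rw [← ph_ph, h1, h1]
      have h3 : t' * (t' - t) * (t' + t) = 0 := by
        field_simp at h2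
        linear_combination h2
      simpa [sub_eq_zero, add_eq_zero_iff_eq_neg, or_assoc] using h3
    · rw [h_one, mul_one, u_inj]
      exact ⟨rfl, by field_simp; linear_combination hg'.2.2, rfl⟩
  rw [← SetLike.coe_sort_coe, Nat.card_coe_set_eq]
  refine (Set.ncard_le_ncard h).trans ((Set.ncard_image_le (Set.toFinite _)).trans ?_)
  rw [Set.ncard_prod, Set.ncard_univ, Nat.card_eq_fintype_card]
  exact Nat.mul_le_mul_right _ ((Set.ncard_insert_le _ _).trans (Nat.succ_le_succ ((Set.ncard_insert_le _ _).trans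
    (by simp))))

theorem card_cent_six {a : K} (ha : a ≠ 0) : Nat.card (centralizer {u m 0 a 0 * j K m}) ≤ 3 * Fintype.card K := by
  have h : (centralizer {u m 0 a 0 * j K m} : Set (R K m)) ⊆ (fun p : Kˣ × K => u m 0 p.2 0 * h m p.1) ''
      (({1, -1} : Set Kˣ) ×ˢ Set.univ) := by
    intro g hg
    have hg' : Commute g (u m 0 a 0 * j K m) := mem_centralizer_singleton_iff.1 hg
    have e3 : (u m 0 a 0 * j K m) ^ 3 = j K m := by
      rw [(commute_u_j a).mul_pow, u_cube, pow_three, j_mul_j]; simp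
    have hj : Commute g (j K m) := e3 ▸ hg'.pow_right 3
    obtain ⟨y, s, rfl⟩ := eq_of_commute_j (centralizer_uj_le ha hg) hj
    have hu := (hg'.mul_right hj).eq
    rw [mul_assoc (u m 0 a 0), j_mul_j, mul_one, mul_assoc, h_mul_u, ← mul_assoc, ← mul_assoc, mul_left_inj, u_mul_u,
      u_mul_u, u_inj] at hu
    refine ⟨(s, y), ⟨?_, trivial⟩, rfl⟩
    have := sq_eq_one_of_ph_mul (m := m) (s := (s : K)) (mul_right_cancel₀ ha (by
      have := hu.2.1
      simp only [mul_zero, map_zero] at this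
      linear_combination this))
    exact this.imp (fun e => Units.ext e) fun e => Units.ext e
  rw [← SetLike.coe_sort_coe, Nat.card_coe_set_eq]
  refine (Set.ncard_le_ncard h).trans ((Set.ncard_image_le (Set.toFinite _)).trans ?_)
  rw [Set.ncard_prod, Set.ncard_univ, Nat.card_eq_fintype_card]
  exact Nat.mul_le_mul_right _ ((Set.ncard_insert_le _ _).trans (by simp))

end Ree
end H13
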