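import Cfsg.Agent.H22.GWg
import Cfsg.Agent.H1.BGCop
/-! Groups with cyclic Sylow subgroups of odd order (`OC`): action on Z-groups (`zcent`), normal complements (`ncomp`),
the local lemmas `u_cent`, `t_cent`, and counting of conjugates (`count`, `count_p`). -/
set_option autoImplicit false
set_option linter.unusedSectionVars false
namespace H13.SW
open Subgroup Cfsg H18
open H1 (Cop cop_of_pi cop_of_pi')
open H22 (V4 U1 ord2 sq1 ne1)
open scoped commutatorElement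
universe u
variable {G : Type u} [Group G] [Finite G] {A B H K L M P R T : Subgroup G} {a b c d g t u x : G} {r p : ℕ}

/-- all `p`-subgroups, `p` odd, are cyclic -/
def OC (G : Type u) [Group G] : Prop := ∀ (p : ℕ) (P : Subgroup G), p.Prime → p ≠ 2 → PiGrp {p} P → Cyc P

theorem OC.zgrp (h : OC G) (hK : PiGrp {2}ᶜ K) : ZGrp K :=
  zgrp_of_exists_sylow fun p hp hd => by
    obtain ⟨P, hP⟩ := exists_sylow hp K
    exact ⟨P, hP, h p P hp (hK p hp hd) hP.pi⟩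

theorem zc1 (hK : ZGrp K) (hB : B ≤ N(K)) (hA : A ≤ ⁅B, B⁆) : ⁅K, A⁆ ≤ ⁅K, K⁆ ∧ ⁅K, K⁆ ≤ C(A) := by
  have n := norm_der hB
  refine ⟨?_, cent_symm (hA.trans (hK.cyc_der.der_cent n))⟩
  rw [comm_comm, comm_le_iff_quo (hA.trans (der_le.trans n)) nml_der.norm]
  exact (mim_mono hA).trans ((mim_comm n n).le.trans (hK.cyc_quo_der.der_cent (mim_norm hB)))

theorem zcent (hK : ZGrp K) (hB : B ≤ N(K)) (hA : A ≤ ⁅B, B⁆) (hc : (Nat.card A).Coprime (Nat.card K)) : A ≤ C(K) :=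
  cent_symm (H1.le_centralizer_of_commutator_le (zc1 hK hB hA).1 (zc1 hK hB hA).2 (coprime_mono hc le_rfl der_le))

theorem zperf (hK : ZGrp K) (hB : B ≤ N(K)) (h : ⁅B, B⁆ = B) : B ≤ C(K) := by
  have k := comm_eq_bot_iff.2 ((zc1 hK hB h.ge).1.trans (zc1 hK hB h.ge).2)
  exact h.ge.trans (comm_eq_bot_iff.1 (three_subgroup (by rwa [comm_comm (A := B) (B := K)]) k))

theorem OC.cent (h : OC G) (hK : PiGrp {2}ᶜ K) (hB : B ≤ N(K)) (hA : A ≤ ⁅B, B⁆) (h2 : PiGrp {2} A) : A ≤ C(K) :=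
  zcent (h.zgrp hK) hB hA (h2.coprime hK)

theorem pi_zp (hr : r.Prime) (ha : orderOf a = r) : PiGrp {r} (zpowers a) := piGrp_of_prime hr (card_zpowers'.trans ha)

theorem OC.conj (h : OC G) (hr : r.Prime) (h2 : r ≠ 2) (ha : orderOf a = r) (hb : orderOf b = r) (h1 : a ∈ H) (h3 : b ∈ H) :
    ∃ g ∈ H, cj g (zpowers a) = zpowers b := by
  obtain ⟨P, hP, k⟩ := exists_sylow_le hr (pi_zp hr hb) (zpowers_le.2 h3)
  obtain ⟨g, hg, j⟩ := sylow_le_cj hr hP (pi_zp hr ha) (zpowers_le.2 h1)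
  exact ⟨g, hg, (h r P hr h2 hP.pi).eq_of_card_eq j k (by rw [card_cj, card_zpowers', card_zpowers', ha, hb])⟩

theorem OC.same (h : OC G) (hr : r.Prime) (h2 : r ≠ 2) (ha : orderOf a = r) (hb : orderOf b = r) (e : a * b = b * a) :
    zpowers a = zpowers b :=
  (h r _ hr h2 ((pi_zp hr ha).sup_norm (pi_zp hr hb) (cent_norm (by rw [C_zpowers, zpowers_le, mem_C1]; exact e)))).eq_of_card_eq
    le_sup_left le_sup_right (by rw [card_zpowers', card_zpowers', ha, hb])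

theorem OC.ncomp (h : OC G) (hr : r.Prime) (h2 : r ≠ 2) (ha : orderOf a = r) (h1 : a ∈ H) (hn : H ⊓ N(zpowers a) ≤ C1(a)) :
    Hall {r}ᶜ O[{r}ᶜ](H) H := by
  obtain ⟨P, hP, k⟩ := exists_sylow_le hr (pi_zp hr ha) (zpowers_le.2 h1)
  have c := h r P hr h2 hP.pi
  refine Burnside_normal_complement hr hP fun g hg => mem_of_parts (π := {r}) (c.abel ?_) ?_
  · exact (hP.of_le (le_inf hP.le le_N) inf_le_left).mem_of_nml inf_le_right (piPart_mem hg) piElt_piPart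
  have hg' := piPart_mem (π := {r}ᶜ) hg
  refine zpowers_le.1 (coprime_odd_faithful_Ohm1 hr h2 hP.pi (zpowers_le.2 hg'.2) piElt_piPart.zpowers fun y hy e => ?_)
  rw [C_zpowers]
  have : y ∈ zpowers a := c.mem_of_pow k hy (by rwa [card_zpowers', ha])
  exact mem_C1_comm.1 (C1_le_of_mem_zpowers this (hn ⟨hg'.1, c.N_le k hg'.2⟩))

theorem u1_sub (h : U1 B) : U1 (⊤ : Subgroup B) := h.top

theorem OC.u_cent (h : OC G) (hB : B ⊴ M) (h1 : U1 B) (ht : orderOf t = 2) (tB : t ∈ B) (tM : t ∈ ⁅M, M⁆) : M ≤ C1(t) := by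
  have c : zpowers t ≤ C(O[{2}ᶜ](B)) := h.cent pcore_pi hB.pcore.norm (zpowers_le.2 tM) (pi_zp Nat.prime_two ht)
  obtain ⟨n, -⟩ := H22.rank1_gen h1.top (z := (⟨t, tB⟩ : B)) ((orderOf_coe _).symm.trans ht)
  have n' := nml_map_subtype (hX := n)
  rw [Subgroup.map_sup, pPrimeCore_map Nat.prime_two, MonoidHom.map_zpowers] at n'
  change zpowers t ⊔ _ ⊴ B at n'
  have hz : Hall {2} (zpowers t) (zpowers t ⊔ O[{2}ᶜ](B)) :=
    hall_of_sup (pi_zp Nat.prime_two ht) pcore_pi (.inl (cent_norm c))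
  have k : ∀ g ∈ N(B), g * t * g⁻¹ ∈ zpowers t → g ∈ C1(t) := fun g _ e => by
    rcases (H22.mem_zp_sq (sq1 ht)).1 e with e | e
    · exact absurd (conj_eq_one_iff'.1 e) (ne1 ht)
    · exact mem_C1.2 (mul_inv_eq_iff_eq_mul.1 e)
  have b : B ≤ C1(t) := fun g hg => k g (le_N hg) (hz.mem_of_nml (sup_le le_N (cent_norm (cent_symm c)))
    (conj_mem n'.norm hg (mem_sup_left (mem_zpowers t))) (piElt_conj.2 (piGrp_zpowers.1 hz.pi)))
  intro g hg
  have j := conj_mem hB.norm hg tB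
  exact mem_C1.2 (mul_inv_eq_iff_eq_mul.1 (h1 t tB _ j ht (H22.ord2_conj ht g) (mem_C1.1 (b j)).symm))

/-- `t`, `u` generate a four-group -/
structure K4 (t u : G) : Prop where
  ht : orderOf t = 2
  hu : orderOf u = 2
  c : t * u = u * t
  ne : u ≠ t

theorem K4.card (k : K4 t u) : Nat.card (V4 t u) = 4 := H22.card_V4 k.ht k.hu k.c k.ne
theorem K4.pi (k : K4 t u) : PiGrp {2} (V4 t u) := H22.V4_pi (sq1 k.ht) (sq1 k.hu) k.c
theorem K4.abel (k : K4 t u) : Abel (V4 t u) := H22.V4_abel k.c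
theorem K4.mem (k : K4 t u) : g ∈ V4 t u ↔ g = 1 ∨ g = t ∨ g = u ∨ g = t * u := H22.mem_V4 (sq1 k.ht) (sq1 k.hu) k.c
theorem K4.sq (k : K4 t u) (h : g ∈ V4 t u) : g * g = 1 := H22.sq_of_mem_V4 (sq1 k.ht) (sq1 k.hu) k.c h
theorem K4.cj (k : K4 t u) (g : G) : K4 (g * t * g⁻¹) (g * u * g⁻¹) :=
  ⟨H22.ord2_conj k.ht g, H22.ord2_conj k.hu g, by rw [conj_mul, conj_mul, k.c], fun e => k.ne (by simpa using e)⟩
theorem u1_of (h : ∀ t ∈ B, ∀ u ∈ B, ¬ K4 t u) : U1 B := fun s hs t ht h1 h2 e => by_contra fun j => h s hs t ht ⟨h1, h2, e, j⟩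

theorem K4.fix (k : K4 t u) (hA : PiGrp {2}ᶜ A) (hn : A ≤ N(V4 t u)) (h : V4 t u ⊓ C(A) ≠ ⊥) : A ≤ C(V4 t u) := by
  obtain ⟨s, hs, s1⟩ := exists_mem_ne_one' h
  exact H22.CD.cent_of_fix ⟨t, H22.left_mem_V4, fun a ha h => ⟨k.sq ha, fun b hb h' => H9.mul_mem_of_relIndex_two
    (relIndex_eq_of_mul le_sup_left (by rw [k.card, card_zpowers', k.ht])) ha hb h h'⟩⟩ k.pi hA hn hs.1
    (ord2.2 ⟨k.sq hs.1, s1⟩) (le_C1_iff.2 hs.2)

theorem K4.idx (k : K4 t u) (hn : A ≤ N(V4 t u)) : C(V4 t u).relIndex A ∣ 24 := by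
  refine (relIndex_C_dvd_card_aut hn).trans ?_
  have := card_dvd_of_injective (MulAut.toPerm (V4 t u)) fun a b e => MulEquiv.toEquiv_injective e
  rwa [Nat.card_perm, k.card] at this

/-- four-groups contain the `2`-elements centralizing them -/
def Q1 (G : Type u) [Group G] : Prop := ∀ t u : G, K4 t u → ∀ c ∈ C(V4 t u), PiElt {2} c → c ∈ V4 t u

theorem OC.t_cent (h : OC G) (q : Q1 G) (k : K4 t u) (hx : x ∈ N(V4 t u)) (x3 : PiElt {3} x) (xc : x ∉ C(V4 t u))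
    (hT : V4 t u ≤ B) (xB : x ∈ B) (hB : Hall {3}ᶜ O[{3}ᶜ](B) B) : O[{3}ᶜ](B) ≤ C(V4 t u) ∧ N(B) ≤ N(V4 t u) := by
  set T := V4 t u
  set K := O[{3}ᶜ](B)
  have x2 : PiGrp {2}ᶜ (zpowers x) := PiNat.p'_of_ne x3.zpowers (by norm_num)
  have f : T ⊓ C(zpowers x) = ⊥ := by_contra fun e => xc (zpowers_le.1 (k.fix x2 (zpowers_le.2 hx) e))
  have TK : T ≤ K := hB.le_pcore hT (k.pi.p'_of_ne (by norm_num))
  have cp : Cop (zpowers x) K := cop_of_pi ((zpowers_le.2 xB).trans pcore_nml.norm) x3.zpowers pcore_pi (.inl abel_zpowers.solv)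
  obtain ⟨S, hS, TS, nS⟩ := cp.exists_sylow_ge Nat.prime_two TK k.pi (zpowers_le.2 hx)
  have c1 : S ⊓ N(T) ≤ C(T) := by
    have n : zpowers x ≤ N((T ⊓ C((S ⊓ N(T) : Subgroup G)) : Subgroup G)) :=
      norm_inf (zpowers_le.2 hx) (norm_C (norm_inf nS (norm_N (zpowers_le.2 hx))))
    have e := PiGrp.meet_cent hS.pi.inf_left k.pi (inf_le_right : S ⊓ N(T) ≤ _) (ne_bot_of_mem H22.left_mem_V4 (ne1 k.ht))
    generalize hW : T ⊓ C((S ⊓ N(T) : Subgroup G)) = W at n e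
    have WT : W ≤ T := hW ▸ inf_le_left
    refine cent_symm ((le_of_eq (by_contra fun j => e ?_)).trans (hW ▸ inf_le_right : W ≤ _))
    have d := card_dvd WT
    have l := card_lt (lt_of_le_of_ne WT (Ne.symm j))
    rw [k.card] at d l
    have : Nat.card W = 2 := by
      have := one_lt_card e
      interval_cases Nat.card W <;> simp_all
    have := H22.cyc_cent (cyc_of_prime (this ▸ Nat.prime_two)) (k.pi.of_le WT) x2 n
    exact eq_bot_iff.2 (f ▸ le_inf WT (cent_symm this))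
  have eS : T = S := hS.pi.nil.eq_of_norm_le TS fun g hg => q t u k g (c1 hg) (hS.pi.elt hg.1)
  rw [← eS] at hS
  have b : K ⊓ N(T) ≤ C(T) := by
    refine relIndex_eq_one_iff.1 (PiNat.eq_one (π := {2, 3}) (fun p hp hd => ?_) ?_)
    · have := hd.trans (k.idx inf_le_right)
      rcases (Nat.Prime.dvd_mul hp (m := 2 ^ 3) (n := 3)).1 this with j | j
      · exact .inl ((Nat.prime_dvd_prime_iff_eq hp Nat.prime_two).1 (hp.dvd_of_dvd_pow j))
      · exact .inr ((Nat.prime_dvd_prime_iff_eq hp Nat.prime_three).1 j)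
    · rintro p hp hd (rfl | rfl)
      · exact (hS.of_le (le_inf TK le_N) inf_le_left).idx_of_le k.abel 2 hp hd rfl
      · exact (pcore_pi.inf_left : PiGrp {3}ᶜ (K ⊓ N(T))).relIndex 3 hp hd rfl
  have o := Burnside_normal_complement Nat.prime_two hS b
  have d : T ≤ ⁅B, B⁆ := ((cp.sub TK (zpowers_le.2 hx)).comm_eq_of_cent f).ge.trans (comm_le_der hT (zpowers_le.2 xB))
  have c : T ≤ C(O[{2}ᶜ](K)) := h.cent pcore_pi (norm_pcore (pcore_nml (π := {3}ᶜ)).norm) d k.pi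
  have kc : K ≤ C(T) := (hS.sup_compl o).ge.trans (sup_le k.abel (cent_symm c))
  exact ⟨kc, (hS.eq_pcore (cent_norm kc)) ▸ norm_pcore (norm_pcore le_rfl)⟩

/-- the conjugates of the elements of a set -/
def cl (A : Set G) : Set G := {y | ∃ g, ∃ a ∈ A, g * a * g⁻¹ = y}

theorem count (A : Set G) (h : ∀ a ∈ A, ∀ g, g * a * g⁻¹ ∈ A → g ∈ M) :
    Nat.card G * A.ncard ≤ (cl A).ncard * Nat.card M := by
  classical
  have := Fintype.ofFinite G
  have k := Finset.card_le_mul_card_image (f := fun z : G × G => z.1 * z.2 * z.1⁻¹) (Finset.univ ×ˢ A.toFinset) (Nat.card M) (by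
    simp only [Finset.mem_image, Finset.mem_product, Set.mem_toFinset]
    rintro _ ⟨⟨g, a⟩, ⟨-, ha⟩, rfl⟩
    rw [← SetLike.coe_sort_coe, Nat.card_coe_set_eq, Set.ncard_eq_toFinset_card']
    refine Finset.card_le_card_of_injOn (fun z => g⁻¹ * z.1) (fun z hz => ?_) fun z hz w hw e => ?_
    · simp only [Finset.coe_filter, Finset.mem_product, Set.mem_toFinset, Set.mem_ofPred_eq] at hz
      simp only [Set.coe_toFinset, SetLike.mem_coe]
      exact h _ hz.1.2 _ (by rw [show g⁻¹ * z.1 * z.2 * (g⁻¹ * z.1)⁻¹ = g⁻¹ * (z.1 * z.2 * z.1⁻¹) * g by group, hz.2]; simpa [mul_assoc])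
    · simp only [Finset.coe_filter, Set.mem_ofPred_eq] at hz hw
      have e1 : z.1 = w.1 := mul_left_cancel e
      exact Prod.ext e1 (by simpa [e1] using hz.2.trans hw.2.symm))
  rw [Finset.card_product, Finset.card_univ, ← Set.ncard_eq_toFinset_card', ← Nat.card_eq_fintype_card, mul_comm (Nat.card M)] at k
  refine k.trans (Nat.mul_le_mul_right _ ?_)
  rw [← Set.ncard_coe_finset]
  refine Set.ncard_le_ncard fun y hy => ?_
  simp only [Finset.coe_image, Finset.coe_product, Set.coe_toFinset] at hy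
  obtain ⟨z, hz, e⟩ := hy
  exact ⟨_, _, hz.2, e⟩

theorem exists_ord (hp : p.Prime) (h : p ∣ orderOf a) : ∃ b ∈ zpowers a, orderOf b = p := cauchy hp (by rwa [card_zpowers'])

theorem OC.count_p (h : OC G) (hp : p.Prime) (h2 : p ≠ 2) (hd : p ∣ Nat.card G) :
    Nat.card G ≤ {y : G | p ∣ orderOf y}.ncard * p := by
  obtain ⟨a, -, ha⟩ := cauchy (H := ⊤) hp (card_top (G := G) ▸ hd)
  let A : Set G := {c | c ∈ C1(a) ∧ p ∣ orderOf c}
  have z : ∀ c ∈ A, ∀ b ∈ zpowers c, orderOf b = p → zpowers b = zpowers a := fun c hc b hb e =>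
    h.same hp h2 e ha (mem_C1.1 (zpowers_le.2 hc.1 hb))
  have k1 := count (M := N(zpowers a)) A fun c hc g hg => by
    obtain ⟨b, hb, e⟩ := exists_ord hp hc.2
    rw [mem_N_iff_cj, ← z c hc b hb e, cj_zpowers, z c hc b hb e]
    exact z _ hg _ (cj_zpowers (G := G) ▸ conj_mem_cj hb) (orderOf_conj.trans e)
  have k2 : (cl A).ncard ≤ {y : G | p ∣ orderOf y}.ncard := Set.ncard_le_ncard (by
    rintro _ ⟨g, c, hc, rfl⟩; exact hc.2.trans orderOf_conj.symm.dvd)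
  have k3 : Nat.card N(zpowers a) ≤ Nat.card C1(a) * (p - 1) := by
    rw [← card_mul_relIndex (C_le_N (H := zpowers a)), C_zpowers]
    refine Nat.mul_le_mul_left _ (Nat.le_of_dvd (by have := hp.two_le; omega) ?_)
    rw [← C_zpowers]; exact prime_relIndex_C_dvd hp (card_zpowers'.trans ha) le_rfl
  let B : Set G := {c | c ∈ C1(a) ∧ ¬ p ∣ orderOf c}
  have k4 : A.ncard + B.ncard = Nat.card C1(a) := by
    rw [← Set.ncard_union_eq (Set.disjoint_left.2 fun c h1 h2 => h2.2 h1.2), ← SetLike.coe_sort_coe, Nat.card_coe_set_eq]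
    congr 1; ext c; by_cases j : p ∣ orderOf c <;> simp [A, B, j]
  have k5 : B.ncard * p ≤ Nat.card C1(a) := by
    rw [← ha, ← card_zpowers', ← Nat.card_coe_set_eq, ← Nat.card_prod]
    have m : ∀ z : B × zpowers a, piPart {p} (z.1.1 * z.2.1) = z.2.1 := fun z =>
      piPart_eq' (mem_C1.1 (mem_C1_comm.1 (C1_le_of_mem_zpowers z.2.2 z.1.2.1))).symm ((piNat_compl_iff hp).2 z.1.2.2)
        ((pi_zp hp ha).elt z.2.2)
    refine Nat.card_le_card_of_injective (fun z => (⟨z.1.1 * z.2.1, mul_mem z.1.2.1 (zpowers_le.2 C1_self z.2.2)⟩ : C1(a)))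
      fun z w e => ?_
    have e1 : z.1.1 * z.2.1 = w.1.1 * w.2.1 := congrArg Subtype.val e
    have e2 : z.2.1 = w.2.1 := by rw [← m z, e1, m w]
    exact Prod.ext (Subtype.ext (mul_right_cancel (e2 ▸ e1))) (Subtype.ext e2)
  have c0 : 0 < Nat.card C1(a) := card_pos'
  obtain ⟨s, rfl⟩ : ∃ s, p = s + 1 := ⟨p - 1, by have := hp.two_le; omega⟩
  have s0 : 0 < s := by have := hp.two_le; omega
  rw [Nat.add_sub_cancel] at k3
  generalize Nat.card C1(a) = c at *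
  have k6 : c * s ≤ A.ncard * (s + 1) := by nlinarith
  refine Nat.le_of_mul_le_mul_right ?_ (Nat.mul_pos c0 s0)
  calc _ ≤ Nat.card G * A.ncard * (s + 1) := by rw [mul_assoc]; exact Nat.mul_le_mul_left _ k6
    _ ≤ (cl A).ncard * (c * s) * (s + 1) := Nat.mul_le_mul_right _ (k1.trans (Nat.mul_le_mul_left _ k3))
    _ ≤ _ := by rw [mul_right_comm]; gcongr

end H13.SW
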