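import Cfsg.Agent.H13.SW1
import Cfsg.Agent.H11.Phan4
import Cfsg.Agent.H10.DicksonSL
/-! Centralizers in `L ≅ SL₂(p)` of elements normalizing `L` (`g1`, `g2`, `m3`, `m4`). -/
set_option autoImplicit false
set_option linter.unusedSectionVars false
namespace H13.SW
open Subgroup Cfsg H18 Matrix
open scoped commutatorElement MatrixGroups
universe u

section Mat
variable {F : Type*} [Field F] {A B D : Matrix (Fin 2) (Fin 2) F}

theorem span (hB : ∀ a : F, B ≠ a • 1) (h : A * B = B * A) : ∃ a b : F, A = a • 1 + b • B := by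
  have e : ∀ i j, (A * B) i j = (B * A) i j := fun i j => by rw [h]
  have e0 := e 0 0
  have e1 := e 0 1
  have e2 := e 1 0
  simp only [mul_apply, Fin.sum_univ_two] at e0 e1 e2
  have k : ∀ b : F, A 0 1 = b * B 0 1 → A 1 0 = b * B 1 0 → A 0 0 - A 1 1 = b * (B 0 0 - B 1 1) → ∃ a b : F, A = a • 1 + b • B :=
    fun b h1 h2 h3 => ⟨A 0 0 - b * B 0 0, b, by
      ext i j; fin_cases i <;> fin_cases j <;> simp [h1, h2]
      linear_combination -h3⟩
  by_cases h1 : B 0 1 = 0
  swap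
  · refine k (A 0 1 / B 0 1) (by field_simp) ?_ ?_ <;> field_simp
    · linear_combination -e0
    · linear_combination e1
  by_cases h2 : B 1 0 = 0
  swap
  · refine k (A 1 0 / B 1 0) ?_ (by field_simp) ?_ <;> field_simp
    · linear_combination e0
    · linear_combination -e2
  have h3 : B 0 0 - B 1 1 ≠ 0 := fun j => hB (B 0 0) (by
    ext i j; fin_cases i <;> fin_cases j <;> simp [h1, h2]
    linear_combination -j)
  refine k ((A 0 0 - A 1 1) / (B 0 0 - B 1 1)) ?_ ?_ (by field_simp) <;> field_simp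
  · linear_combination -e1
  · linear_combination e2

theorem cc (hB : ∀ a : F, B ≠ a • 1) (h : A * B = B * A) (h' : D * B = B * D) : A * D = D * A := by
  obtain ⟨a, b, rfl⟩ := span hB h
  simp [add_mul, mul_add, h']

theorem card_cent [Fintype F] (hB : ∀ a : F, B ≠ a • 1) :
    Fintype.card F - 1 ≤ Nat.card {s : SL(2, F) // s.1 * B = B * s.1} := by
  classical
  let U : Subgroup (GL (Fin 2) F) := { carrier := {g | g.1 * B = B * g.1}
                                       mul_mem' := fun {a b} ha hb => Commute.mul_left ha hb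
                                       one_mem' := by simp
                                       inv_mem' := fun {a} ha => Commute.units_inv_left ha }
  let f : U →* Fˣ := GeneralLinearGroup.det.comp U.subtype
  have h1 : Nat.card U ≤ Nat.card f.ker * (Fintype.card F - 1) := by
    rw [← f.ker.card_mul_index, index_ker, ← Fintype.card_units, ← Nat.card_eq_fintype_card]
    exact Nat.mul_le_mul_left _ (Nat.card_le_card_of_injective _ Subtype.val_injective)
  have h2 : Nat.card f.ker ≤ Nat.card {s : SL(2, F) // s.1 * B = B * s.1} :=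
    Nat.card_le_card_of_injective (fun g => ⟨⟨g.1.1.1, congrArg Units.val (MonoidHom.mem_ker.1 g.2)⟩, g.1.2⟩) fun a b e =>
      Subtype.ext (Subtype.ext (Units.ext congr(($e).1.1)))
  let N : F × F → F := fun z => (z.1 • (1 : Matrix (Fin 2) (Fin 2) F) + z.2 • B).det
  have h3 : (Finset.univ.filter fun z => N z ≠ 0).card ≤ Nat.card U := by
    rw [← Fintype.card_subtype, ← Nat.card_eq_fintype_card]
    refine Nat.card_le_card_of_injective (fun z => (⟨GeneralLinearGroup.mkOfDetNeZero _ z.2, by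
      change (_ + _) * B = B * (_ + _); simp [add_mul, mul_add]⟩ : U)) fun z w e => ?_
    have e1 : z.1.1 • (1 : Matrix (Fin 2) (Fin 2) F) + z.1.2 • B = w.1.1 • 1 + w.1.2 • B := congr(($e).1.1)
    have e2 : z.1.2 = w.1.2 := by_contra fun j => hB ((w.1.1 - z.1.1) / (z.1.2 - w.1.2)) (by
      have j' := sub_ne_zero.2 j
      refine smul_right_injective _ j' ?_
      simp only [smul_smul]
      rw [mul_div_cancel₀ _ j', sub_smul, sub_smul, sub_eq_sub_iff_add_eq_add, ← e1, add_comm])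
    refine Subtype.ext (Prod.ext ?_ e2)
    rw [e2, add_left_inj] at e1
    simpa using congr($e1 0 0)
  have h4 : (Finset.univ.filter fun z => ¬ N z ≠ 0).card ≤ 1 + 2 * (Fintype.card F - 1) := by
    let q : F → Polynomial F := fun b => Polynomial.X ^ 2 + (Polynomial.C (b * (B 0 0 + B 1 1)) * Polynomial.X + Polynomial.C (b ^ 2 * B.det))
    have m : ∀ b, (q b).Monic ∧ (q b).natDegree = 2 := fun b => by
      constructor
      · simp only [q]; monicity!
      · simp only [q]; compute_degree!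
    refine (Finset.card_le_card (t := {(0, 0)} ∪ (Finset.univ.erase 0).biUnion fun b => (q b).roots.toFinset.image (·, b))
      fun z hz => ?_).trans ((Finset.card_union_le _ _).trans (Nat.add_le_add_left ?_ _))
    · have hz : N z = 0 := by simpa using hz
      simp only [N, det_fin_two, Matrix.add_apply, Matrix.smul_apply, smul_eq_mul] at hz
      by_cases j : z.2 = 0
      · simp [j] at hz
        simp [Prod.ext_iff, j, hz]
      · simp only [Finset.mem_union, Finset.mem_biUnion, Finset.mem_image, Multiset.mem_toFinset]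
        refine .inr ⟨z.2, by simpa using j, z.1, (Polynomial.mem_roots (m _).1.ne_zero).2 ?_, rfl⟩
        simp [q, det_fin_two] at hz ⊢
        linear_combination hz
    · refine (Finset.card_biUnion_le_card_mul _ _ 2 fun b _ => Finset.card_image_le.trans ((Multiset.toFinset_card_le _).trans
        ((Polynomial.card_roots' _).trans (m b).2.le))).trans ?_
      simp [mul_comm]
  have h5 := Finset.card_filter_add_card_filter_not (s := Finset.univ) fun z => N z ≠ 0
  rw [Finset.card_univ, Fintype.card_prod] at h5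
  obtain ⟨s, hs⟩ : ∃ s, Fintype.card F = s + 1 := ⟨Fintype.card F - 1, by have := Fintype.card_pos (α := F); omega⟩
  have s0 : 0 < s := by have := Fintype.one_lt_card (α := F); omega
  simp only [hs, Nat.add_sub_cancel] at h1 h4 h5 ⊢
  exact Nat.le_of_mul_le_mul_right (c := s) (by nlinarith) s0

end Mat

variable {G : Type u} [Group G] [Finite G] {L : Subgroup G} {a b c d l t : G} {p : ℕ} [Fact p.Prime]
  {A B : Matrix (Fin 2) (Fin 2) (ZMod p)}

theorem perf_sl (h5 : 5 ≤ p) : commutator SL(2, ZMod p) = ⊤ := by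
  have k : ∀ n : ℕ, 0 < n → n < 5 → (n : ZMod p) ≠ 0 := fun n h0 h1 e =>
    absurd (Nat.le_of_dvd h0 ((ZMod.natCast_eq_zero_iff _ _).1 e)) (by omega)
  refine SL2.commutator_eq_top (a := 2) (k 2 (by omega) (by omega)) fun e => k 3 (by omega) (by omega) ?_
  push_cast; linear_combination e

theorem two_ne (h5 : 5 ≤ p) : (2 : ZMod p) ≠ 0 := fun e =>
  absurd (Nat.le_of_dvd two_pos ((ZMod.natCast_eq_zero_iff 2 _).1 e)) (by omega)

/-- the matrix of an element of `L` -/
def mt (e : L ≃* SL(2, ZMod p)) : L →* Matrix (Fin 2) (Fin 2) (ZMod p) := SpecialLinearGroup.coeMonoidHom.comp e.toMonoidHom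

theorem mt_inj (e : L ≃* SL(2, ZMod p)) : Function.Injective (mt e) := fun _ _ j => e.injective (Subtype.ext j)

/-- `c` acts on `L` as the matrix `A` -/
def Rm (e : L ≃* SL(2, ZMod p)) (c : G) (A : Matrix (Fin 2) (Fin 2) (ZMod p)) : Prop :=
  c ∈ N(L) ∧ IsUnit A.det ∧ ∀ l l' : L, (l' : G) = c * l * c⁻¹ → mt e l' * A = A * mt e l

variable {e : L ≃* SL(2, ZMod p)}

theorem aut_sl (h5 : 5 ≤ p) (β : SL(2, ZMod p) ≃* SL(2, ZMod p)) :
    ∃ A : Matrix (Fin 2) (Fin 2) (ZMod p), IsUnit A.det ∧ ∀ s, (β s).1 * A = A * s.1 := by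
  obtain ⟨A, τ, hA, h⟩ := H11.aut_SL2 (K := ZMod p) (perf_sl h5) β
  refine ⟨A, hA, fun s => (h s).trans ?_⟩
  rw [RingHom.ext_zmod τ (RingHom.id _), RingHom.coe_id, Matrix.map_id]

theorem exists_rm (e : L ≃* SL(2, ZMod p)) (h5 : 5 ≤ p) (hc : c ∈ N(L)) : ∃ A, Rm e c A := by
  have k := actf_apply hc
  generalize mfun (actf L) c = φ at k
  obtain ⟨A, hA, h⟩ := aut_sl h5 ((e.symm.trans φ).trans e)
  refine ⟨A, hc, hA, fun l l' j => ?_⟩
  have := h (e l)
  rw [MulEquiv.trans_apply, MulEquiv.trans_apply, e.symm_apply_apply] at this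
  rw [show l' = φ l from Subtype.ext (j.trans (k l).symm)]
  exact this

theorem rm_self (l : L) : Rm e l (mt e l) := ⟨le_N l.2, (e l).2 ▸ isUnit_one, fun a b j => by
  rw [show b = l * a * l⁻¹ from Subtype.ext j, ← map_mul, inv_mul_cancel_right, map_mul]⟩

theorem Rm.mul (h : Rm e c A) (h' : Rm e d B) : Rm e (c * d) (A * B) := ⟨mul_mem h.1 h'.1, det_mul A B ▸ h.2.1.mul h'.2.1,
  fun l l' j => by
    rw [← Matrix.mul_assoc, h.2.2 ⟨_, conj_mem_N h'.1 l.2⟩ l' (by rw [j]; group), Matrix.mul_assoc, h'.2.2 l _ rfl, Matrix.mul_assoc]⟩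

theorem Rm.pow (h : Rm e c A) (n : ℕ) : Rm e (c ^ n) (A ^ n) := by
  induction n with
  | zero => simpa using rm_self (e := e) 1
  | succ n ih => rw [pow_succ, pow_succ]; exact ih.mul h

theorem Rm.iff (h : Rm e c A) (l : L) : (l : G) ∈ C1(c) ↔ mt e l * A = A * mt e l := by
  refine ⟨fun j => h.2.2 l l (by rw [← mem_C1.1 j, mul_inv_cancel_right]), fun j => ?_⟩
  have := (h.2.2 l ⟨_, conj_mem_N h.1 l.2⟩ rfl).trans j.symm
  have := mt_inj e (((isUnit_iff_isUnit_det _).2 h.2.1).mul_right_cancel this)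
  exact mem_C1.2 (mul_inv_eq_iff_eq_mul.1 congr(($this).1)).symm

theorem Rm.cent (h : Rm e c A) {s : ZMod p} (j : A = s • 1) : c ∈ C(L) :=
  le_C1_iff.1 fun l hl => (h.iff ⟨l, hl⟩).2 (by simp [j])

variable (e) (h5 : 5 ≤ p)
include e h5

theorem g1 (hc : c ∈ N(L)) (h : c ∉ C(L)) : Abel (L ⊓ C1(c)) := by
  obtain ⟨A, hA⟩ := exists_rm e h5 hc
  refine cent_iff.2 fun a ha b hb => ?_
  have := cc (fun s j => h (hA.cent j)) ((hA.iff ⟨a, ha.1⟩).1 ha.2) ((hA.iff ⟨b, hb.1⟩).1 hb.2)
  exact mem_C1.1 (((rm_self ⟨b, hb.1⟩).iff ⟨a, ha.1⟩).2 this)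

theorem g2 (hc : c ∈ N(L)) (hl : l ∈ L) (h : l ∉ C(L)) (j : l ∈ C1(c)) : L ⊓ C1(l) ≤ C1(c) := fun a ha => by
  obtain ⟨A, hA⟩ := exists_rm e h5 hc
  have r := rm_self (e := e) ⟨l, hl⟩
  exact (hA.iff ⟨a, ha.1⟩).2 (cc (fun s j => h (r.cent j)) ((r.iff ⟨a, ha.1⟩).1 ha.2) ((hA.iff ⟨l, hl⟩).1 j).symm)

theorem m2 (hc : c ∈ N(L)) (h' : c ∉ C(L)) (hl : l ∈ L) (h : l ∉ C(L)) (j : l ∈ C1(c)) : L ⊓ C1(c) = L ⊓ C1(l) :=
  le_antisymm (fun _ ha => ⟨ha.1, mem_C1.2 (cent_iff.1 (g1 e h5 hc h') _ ha _ ⟨hl, j⟩)⟩) (le_inf inf_le_left (g2 e h5 hc hl h j))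

theorem m3 (hc : c ∈ N(L)) (h : c ∉ C(L)) : p - 1 ≤ Nat.card (L ⊓ C1(c) : Subgroup G) := by
  obtain ⟨A, hA⟩ := exists_rm e h5 hc
  have := card_cent fun s j => h (hA.cent j)
  rw [ZMod.card] at this
  refine this.trans (Nat.card_le_card_of_injective (fun s => ⟨e.symm s.1, (e.symm s.1).2, (hA.iff _).2 (by
    change (e _).1 * A = A * (e _).1
    rw [e.apply_symm_apply]; exact s.2)⟩)
    fun a b j => Subtype.ext (e.symm.injective (Subtype.ext congr(($j).1))))

theorem m4 (hc : c ∈ N(L)) (hl : l ∈ L) (h : l ∉ C(L)) (o : l ^ p = 1) (j : l ∈ C1(c)) : c ^ p ∈ C(L) := by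
  obtain ⟨A, hA⟩ := exists_rm e h5 hc
  have r := rm_self (e := e) ⟨l, hl⟩
  obtain ⟨a, b, k⟩ := span (fun s j => h (r.cent j)) ((hA.iff ⟨l, hl⟩).1 j).symm
  refine (hA.pow p).cent (s := a ^ p + b ^ p) ?_
  have o' : mt e ⟨l, hl⟩ ^ p = 1 := by rw [← map_pow, show (⟨l, hl⟩ : L) ^ p = 1 from Subtype.ext o, map_one]
  rw [k, add_pow_char_of_commute p (((Commute.one_left _).smul_left _).smul_right _), smul_pow, smul_pow, o', one_pow, add_smul]

theorem sl_sq (hl : l ∈ L) : l ∈ C(L) ↔ l * l = 1 := by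
  have : e ⟨l, hl⟩ ∈ center _ ↔ e ⟨l, hl⟩ * e ⟨l, hl⟩ = 1 := ⟨fun j => by
    obtain ⟨r, h1, h2⟩ := Matrix.SpecialLinearGroup.mem_center_iff.1 j
    refine Subtype.ext ?_
    change (e ⟨l, hl⟩).1 * (e ⟨l, hl⟩).1 = 1
    rw [Fintype.card_fin] at h1
    rw [← h2, ← map_mul, ← sq, h1, map_one], fun j => by
    rcases H10.SL2_eq_of_mul_self (two_ne h5) j with j | j <;> rw [j, mem_center_iff] <;> simp⟩
  rw [← map_mul, e.map_eq_one_iff, Subtype.ext_iff] at this
  refine .trans ⟨fun j => mem_center_iff.2 fun g => ?_, fun j => mem_C.2 fun g hg => ?_⟩ this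
  · obtain ⟨g, rfl⟩ := e.surjective g
    rw [← map_mul, ← map_mul]; exact congrArg e (Subtype.ext (mem_C.1 j g g.2))
  · have := mem_center_iff.1 j (e ⟨g, hg⟩)
    rw [← map_mul, ← map_mul] at this
    exact congr(($(e.injective this)).1)

theorem sl_inv (hl : l ∈ L) (ht : t ∈ L) (o : orderOf t = 2) (h : l * l = 1) : l = 1 ∨ l = t := by
  have k : ∀ l, ∀ hl : l ∈ L, l * l = 1 → l ≠ 1 → e ⟨l, hl⟩ = -1 := fun l hl h j =>
    (H10.SL2_eq_of_mul_self (two_ne h5) (by rw [← map_mul, e.map_eq_one_iff]; exact Subtype.ext h)).resolve_left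
      fun i => j congr(($(e.map_eq_one_iff.1 i)).1)
  exact or_iff_not_imp_left.2 fun j => congr(($(e.injective ((k l hl h j).trans (k t ht (H22.sq1 o) (H22.ne1 o)).symm))).1)

theorem sl_perf : ⁅L, L⁆ = L := by
  have : commutator L = ⊤ := by
    rw [← map_top_of_surjective e.symm.toMonoidHom e.symm.surjective, ← perf_sl h5, _root_.commutator_def, _root_.commutator_def,
      map_commutator, map_top_of_surjective _ e.symm.surjective]
  rw [← map_subtype_commutator, this, ← MonoidHom.range_eq_map, range_subtype]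

theorem sl_card : Nat.card L = p * (p - 1) * (p + 1) := by rw [Nat.card_congr e.toEquiv, H10.card_SL2, ZMod.card]

end H13.SW
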