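import Cfsg.Agent.H4.Sq1

/-! Direct squares of Suzuki groups: the piece `PA2` (one component equal to `Sz(q)`) from `PA`. -/
set_option autoImplicit false
namespace H13.SqA2
open Cfsg H13.Sz H4.Sq Function
universe u

theorem not_dvd {m : ℕ} (hm : 1 ≤ m) (i : Fin 4) : ¬ cm m i ∣ 2 * m + 1 := fun h => by
  have h1 : 2 * m < 2 ^ (2 * m) := Nat.lt_two_pow_self
  have h2 : 2 ^ (m + 1) ≤ 2 ^ (2 * m) := Nat.pow_le_pow_right two_pos (by omega)
  have h3 : 2 ^ (2 * m + 1) = 2 * 2 ^ (2 * m) := by ring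
  have h4 := Nat.le_of_dvd (by omega) h
  fin_cases i
  · change 4 ∣ _ at h; omega
  · change 2 ^ (2 * m + 1) - 1 ≤ _ at h4; omega
  · change 2 ^ (2 * m + 1) + 2 ^ (m + 1) + 1 ≤ _ at h4
    have := Nat.le_of_add_right_le (Nat.le_of_add_right_le h4); omega
  · change 2 ^ (2 * m + 1) - 2 ^ (m + 1) + 1 ≤ _ at h4; omega

variable {F : Type} [Field F] [Fintype F] {m : ℕ} [hF : IsSz F m]

theorem conj_inj : Injective (MulAut.conj : Cfsg.Sz F m →* MulAut (Cfsg.Sz F m)) := by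
  rw [← MonoidHom.ker_eq_bot_iff]
  rcases IsSimpleGroup.eq_bot_or_eq_top_of_normal (MulAut.conj : Cfsg.Sz F m →* _).ker inferInstance with h | h
  · exact h
  exfalso
  obtain ⟨x, hx⟩ := ord_ex (F := F) (m := m) 0
  obtain ⟨y, hy⟩ := ord_ex (F := F) (m := m) 1
  have c : Commute x y := by
    have : x ∈ (MulAut.conj : Cfsg.Sz F m →* _).ker := h ▸ Subgroup.mem_top x
    have := DFunLike.congr_fun (MonoidHom.mem_ker.1 this) y
    simp only [MulAut.conj_apply, MulAut.one_apply] at this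
    exact mul_inv_eq_iff_eq_mul.1 this
  have e := c.orderOf_mul_eq_mul_orderOf_of_coprime (by rw [hx, hy]; exact cm_cop (by decide))
  obtain ⟨l, hl⟩ := ord_dvd (x * y)
  rw [e, hx, hy] at hl
  have ne : ∀ i, cm m i ≠ 1 := fun i a => not_dvd hF.hm i (by rw [a]; exact one_dvd _)
  have eq : ∀ i, cm m i ∣ cm m l → i = l := fun i a => by_contra fun b =>
    ne i ((cm_cop b).eq_one_of_dvd a)
  exact absurd ((eq 0 ((dvd_mul_right _ _).trans hl)).trans (eq 1 ((dvd_mul_left _ _).trans hl)).symm) (by decide)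

theorem pow_inner (α : MulAut (Cfsg.Sz F m)) : ∃ s, α ^ (2 * m + 1) = MulAut.conj s := by
  have : (QuotientGroup.mk α : Cfsg.Out (Cfsg.Sz F m)) ^ (2 * m + 1) = 1 := by
    rw [← card_out (F := F) (m := m)]; exact pow_card_eq_one'
  obtain ⟨s, hs⟩ := (QuotientGroup.eq_one_iff (α ^ (2 * m + 1))).1 this
  exact ⟨s, hs.symm⟩

variable {G : Type u} [Group G] [Finite G]

theorem ker_cls (φ : G →* MulAut (Cfsg.Sz F m)) {g : G} {i j l : Fin 4} (hg : orderOf g = cm m i * cm m j)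
    {s : Cfsg.Sz F m} (hs : φ g ^ (2 * m + 1) = MulAut.conj s) (hl : orderOf s ∣ cm m l) (il : i ≠ l) :
    ∃ p, p.Prime ∧ p ∣ cm m i ∧ p ∣ Nat.card φ.ker := by
  have pos : cm m j ≠ 0 := fun a => by
    have := orderOf_pos g; rw [hg, a] at this; simp at this
  have o1 : orderOf (g ^ cm m j) = cm m i := by
    rw [orderOf_pow' g pos, hg, Nat.gcd_eq_right (dvd_mul_left _ _), Nat.mul_div_cancel _ (Nat.pos_of_ne_zero pos)]
  set x := (g ^ cm m j) ^ (2 * m + 1) with hx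
  have d1 : orderOf x ∣ cm m i := o1 ▸ orderOf_pow_dvd _
  have k : x ∈ φ.ker := by
    rw [MonoidHom.mem_ker, ← orderOf_eq_one_iff]
    refine Nat.eq_one_of_dvd_coprimes (cm_cop il) ((orderOf_map_dvd φ x).trans d1) ?_
    rw [hx, ← pow_mul, mul_comm, pow_mul, map_pow, map_pow, hs]
    exact (orderOf_pow_dvd _).trans ((orderOf_map_dvd _ s).trans hl)
  have ne : orderOf x ≠ 1 := fun a =>
    not_dvd hF.hm i (o1 ▸ orderOf_dvd_of_pow_eq_one (orderOf_eq_one_iff.1 a))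
  exact ⟨_, Nat.minFac_prime ne, (Nat.minFac_dvd _).trans d1,
    (Nat.minFac_dvd _).trans (Subgroup.orderOf_dvd_natCard _ k)⟩

theorem three (P : Fin 4 → Prop) (h : ∀ i j, i ≠ j → P i ∨ P j) :
    ∃ i j k, i ≠ j ∧ i ≠ k ∧ j ≠ k ∧ P i ∧ P j ∧ P k := by
  by_cases h0 : P 0
  · by_cases h1 : P 1
    · rcases h 2 3 (by decide) with a | a
      · exact ⟨0, 1, 2, by decide, by decide, by decide, h0, h1, a⟩
      · exact ⟨0, 1, 3, by decide, by decide, by decide, h0, h1, a⟩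
    · exact ⟨0, 2, 3, by decide, by decide, by decide, h0, (h 1 2 (by decide)).resolve_left h1,
        (h 1 3 (by decide)).resolve_left h1⟩
  · exact ⟨1, 2, 3, by decide, by decide, by decide, (h 0 1 (by decide)).resolve_left h0,
      (h 0 2 (by decide)).resolve_left h0, (h 0 3 (by decide)).resolve_left h0⟩

theorem pA2 (h : H4.Sq.PA.{u}) : H4.Sq.PA2.{u} := by
  intro F _ _ m hF G _ _ ok fu φ sv su
  obtain ⟨i, j, k, ij, ik, jk, ⟨p, hp, p1, p2⟩, ⟨q, hq, q1, q2⟩, r, hr, r1, r2⟩ :=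
    three (fun i => ∃ p, p.Prime ∧ p ∣ cm m i ∧ p ∣ Nat.card φ.ker) fun i j ij => by
      obtain ⟨g, hg⟩ := fu i j ij
      obtain ⟨s, hs⟩ := pow_inner (φ g)
      obtain ⟨l, hl⟩ := ord_dvd s
      by_cases il : i = l
      · exact .inr (ker_cls φ (hg.trans (mul_comm _ _)) hs hl fun a => ij (il.trans a.symm))
      · exact .inl (ker_cls φ hg hs hl il)
  let c : Cfsg.Sz F m →* MulAut (Cfsg.Sz F m) := MulAut.conj
  let e : Cfsg.Sz F m ≃* c.range := MonoidHom.ofInjective conj_inj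
  let H : Subgroup G := c.range.comap φ
  let f : H →* Cfsg.Sz F m := e.symm.toMonoidHom.comp ((φ.comp H.subtype).codRestrict c.range fun x => x.2)
  have hk : f.ker = φ.ker.subgroupOf H := by
    ext x
    simp only [f, MonoidHom.mem_ker, MonoidHom.comp_apply, MulEquiv.coe_toMonoidHom, map_eq_one_iff _ e.symm.injective,
      Subgroup.mem_subgroupOf]
    exact Subtype.ext_iff
  have le : φ.ker ≤ H := fun x hx => by
    show φ x ∈ c.range
    rw [MonoidHom.mem_ker.1 hx]; exact one_mem _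
  have ee := Subgroup.subgroupOfEquivOfLe le
  have cd : Nat.card f.ker = Nat.card φ.ker := hk ▸ Nat.card_congr ee.toEquiv
  refine h (ok.sub H) f (fun s => ?_) ?_ hp hq hr p1 q1 r1 ij ik jk (cd ▸ p2) (cd ▸ q2) (cd ▸ r2)
  · obtain ⟨g, hg⟩ := su s
    refine ⟨⟨g, show φ g ∈ c.range from ⟨s, hg.symm⟩⟩, ?_⟩
    exact e.symm_apply_eq.2 (Subtype.ext hg)
  · rw [hk]; exact Group.isSolvable_of_isSolvable_injective (f := ee.toMonoidHom) ee.injective

end H13.SqA2
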